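import Mathlib
import Cfsg.Agent.Helper25.Bsw2

/-!
# PIECE EMC of CALL S3282 (helper25): final assembly of Brauer–Suzuki–Wall, case `q = 2k - 1`
-/

set_option autoImplicit false
set_option linter.unusedSectionVars false

open Cfsg.Agent.Helper25 Subgroup

namespace Cfsg.Agent.Helper88

variable {G : Type*} [Group G] [Finite G]

/-- Sylow `p`-subgroups have order `q`. -/
theorem emc_sylow_card (q p : ℕ) [Fact p.Prime] (a : ℕ) (ha : a ≠ 0) (hqa : q = p ^ a)
    (hpG : p ∣ Nat.card G)
    (hZcent : ∀ z : G, z ≠ 1 → z ^ q = 1 → Nat.card (centralizer ({z} : Set G)) = q)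
    (hTI : ∀ P : Sylow p G, ∀ x ∈ P, x ≠ 1 → centralizer ({x} : Set G) = P) (P : Sylow p G) :
    Nat.card (P : Subgroup G) = q := by
  obtain ⟨z, hz⟩ := exists_prime_orderOf_dvd_card' p (P.dvd_card_of_dvd_card hpG)
  have hz1 : (z : G) ≠ 1 := by
    intro h1
    have : z = 1 := Subtype.ext h1
    rw [this, orderOf_one] at hz
    exact (Fact.out : p.Prime).one_lt.ne hz
  have hzq : (z : G) ^ q = 1 := by
    obtain ⟨b, rfl⟩ := Nat.exists_eq_succ_of_ne_zero ha
    rw [hqa, pow_succ', pow_mul]
    have : (z : G) ^ p = 1 := by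
      have h3 : orderOf (z : G) = p := by rw [Subgroup.orderOf_coe]; exact hz
      have h4 := pow_orderOf_eq_one (z : G)
      rw [h3] at h4
      exact h4
    rw [this, one_pow]
  have h1 := hZcent _ hz1 hzq
  have h2 := hTI P _ z.2 hz1
  rw [h2] at h1
  exact h1

/-- There are `q + 1` Sylow `p`-subgroups. -/
theorem emc_card_sylow (K : Subgroup G) (q p : ℕ) [Fact p.Prime] (a : ℕ) (hqa : q = p ^ a)
    (hq3 : 3 ≤ q)
    (hcount : Nat.card {g : G // g ∉ bswCl K ∧ bswA g = 0} = q ^ 2 - 1)
    (hZiff : ∀ g : G, (g ∉ bswCl K ∧ bswA g = 0) ↔ (g ≠ 1 ∧ g ^ q = 1))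
    (hTI : ∀ P : Sylow p G, ∀ x ∈ P, x ≠ 1 → centralizer ({x} : Set G) = P)
    (hcardP : ∀ P : Sylow p G, Nat.card (P : Subgroup G) = q) :
    Nat.card (Sylow p G) = q + 1 := by
  classical
  haveI : Fintype (Sylow p G) := Fintype.ofFinite _
  have hmem : ∀ (P : Sylow p G) (x : ↥(((P : Subgroup G) : Set G) \ {1})),
      (x : G) ∉ bswCl K ∧ bswA (x : G) = 0 := by
    intro P x
    rw [hZiff]
    refine ⟨fun h => x.2.2 (Set.mem_singleton_iff.mpr h), ?_⟩
    have := pow_card_eq_one' (G := ↥(P : Subgroup G)) (x := ⟨x, x.2.1⟩)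
    rw [hcardP P] at this
    exact congrArg Subtype.val this
  have hbij : Function.Bijective
      (fun x : (Σ P : Sylow p G, ↥(((P : Subgroup G) : Set G) \ {1})) =>
        (⟨(x.2 : G), hmem x.1 x.2⟩ : {g : G // g ∉ bswCl K ∧ bswA g = 0})) := by
    constructor
    · rintro ⟨P, x, hx⟩ ⟨P', x', hx'⟩ hh
      have hxx : x = x' := congrArg Subtype.val hh
      subst hxx
      have hx1 : x ≠ 1 := fun h => hx.2 (Set.mem_singleton_iff.mpr h)
      have hPP : P = P' := by
        apply Sylow.ext
        rw [← hTI P x hx.1 hx1, ← hTI P' x hx'.1 hx1]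
      subst hPP
      rfl
    · rintro ⟨g, hg⟩
      obtain ⟨hg1, hgq⟩ := (hZiff g).mp hg
      have hpg : IsPGroup p (zpowers g) := by
        have : orderOf g ∣ p ^ a := by rw [← hqa]; exact orderOf_dvd_of_pow_eq_one hgq
        obtain ⟨j, -, hj⟩ := (Nat.dvd_prime_pow Fact.out).mp this
        exact IsPGroup.of_card (n := j) (by rw [Nat.card_zpowers, hj])
      obtain ⟨P, hP⟩ := hpg.exists_le_sylow
      exact ⟨⟨P, ⟨g, hP (mem_zpowers g), fun h => hg1 (Set.mem_singleton_iff.mp h)⟩⟩, rfl⟩
  have hcard := Nat.card_eq_of_bijective _ hbij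
  rw [Nat.card_sigma, hcount] at hcard
  have hP1 : ∀ P : Sylow p G, Nat.card ↥(((P : Subgroup G) : Set G) \ {1}) = q - 1 := by
    intro P
    rw [Nat.card_coe_set_eq, Set.ncard_sdiff_singleton_of_mem (by exact one_mem _),
      ← Nat.card_coe_set_eq]
    exact congrArg (· - 1) (hcardP P)
  simp only [hP1, Finset.sum_const, Finset.card_univ, smul_eq_mul] at hcard
  rw [← Nat.card_eq_fintype_card] at hcard
  have h2 : q ^ 2 - 1 = (q + 1) * (q - 1) := by
    obtain ⟨c, rfl⟩ : ∃ c, q = c + 1 := ⟨q - 1, by omega⟩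
    simp only [Nat.add_sub_cancel]
    have : (c + 1) ^ 2 = (c + 1 + 1) * c + 1 := by ring
    rw [this, Nat.add_sub_cancel]
  rw [h2] at hcard
  exact Nat.eq_of_mul_eq_mul_right (by omega) hcard

/-- A `p'`-element normalizing the Sylow `p`-subgroup `Q` normalizes at most one other Sylow
`p`-subgroup. -/
theorem emc_fix_unique (q p : ℕ) [Fact p.Prime]
    (hTI : ∀ P : Sylow p G, ∀ x ∈ P, x ≠ 1 → centralizer ({x} : Set G) = P)
    (hcardP : ∀ P : Sylow p G, Nat.card (P : Subgroup G) = q)
    (hn : Nat.card (Sylow p G) = q + 1) (Q : Sylow p G) (w : G) (hwQ : w • Q = Q)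
    (hwo : (orderOf w).Coprime q) (hw1 : w ≠ 1)
    (P1 P2 : Sylow p G) (h1 : P1 ≠ Q) (h2 : P2 ≠ Q) (hwP1 : w • P1 = P1) (hwP2 : w • P2 = P2) :
    P1 = P2 := by
  have hfree : ∀ P' : Sylow p G, P' ≠ Q → ∀ y ∈ Q, y • P' = P' → y = 1 := by
    intro P' hP' y hy hyP
    by_contra hy1
    have h3 : y ∈ (Q : Subgroup G) ⊓ normalizer ((P' : Subgroup G) : Set G) :=
      mem_inf.mpr ⟨hy, Sylow.smul_eq_iff_mem_normalizer.mp hyP⟩
    have h3' : y ∈ (Q : Subgroup G) ⊓ (P' : Subgroup G) := by
      rw [← Q.isPGroup'.inf_normalizer_sylow P']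
      exact h3
    have h4 := hTI Q y hy hy1
    have h5 := hTI P' y (mem_inf.mp h3').2 hy1
    exact hP' (Sylow.ext (h5.symm.trans h4))
  have hQfix : ∀ y ∈ Q, y • Q = Q := fun y hy =>
    Sylow.smul_eq_iff_mem_normalizer.mpr (le_normalizer hy)
  have htrans : ∃ y ∈ Q, y • P1 = P2 := by
    have hcardS : Nat.card {P : Sylow p G // P ≠ Q} = q := by
      have h3 : {P : Sylow p G | P ≠ Q} = Set.univ \ {Q} := by
        ext R; simp
      rw [show Nat.card {P : Sylow p G // P ≠ Q} = Nat.card ↥{P : Sylow p G | P ≠ Q} from rfl,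
        Nat.card_coe_set_eq, h3, Set.ncard_sdiff_singleton_of_mem (Set.mem_univ Q),
        Set.ncard_univ, hn, Nat.add_sub_cancel]
    have hne : ∀ y : ↥(Q : Subgroup G), (y : G) • P1 ≠ Q := by
      intro y hh
      apply h1
      exact smul_left_cancel (y : G) (hh.trans (hQfix y y.2).symm)
    have hinj : Function.Injective (fun y : ↥(Q : Subgroup G) =>
        (⟨(y : G) • P1, hne y⟩ : {P : Sylow p G // P ≠ Q})) := by
      intro y y' hyy
      have h3 : (y : G) • P1 = (y' : G) • P1 := congrArg Subtype.val hyy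
      have h4 : ((y' : G)⁻¹ * (y : G)) • P1 = P1 := by
        rw [mul_smul, h3, inv_smul_smul]
      have h5 := hfree P1 h1 _ (mul_mem (inv_mem y'.2) y.2) h4
      exact Subtype.ext (inv_mul_eq_one.mp h5).symm
    have hbij := hinj.bijective_of_nat_card_le (by rw [hcardS, hcardP Q])
    obtain ⟨y, hy⟩ := hbij.2 ⟨P2, h2⟩
    exact ⟨y, y.2, congrArg Subtype.val hy⟩
  obtain ⟨y, hyQ, hy⟩ := htrans
  by_cases hy1 : y = 1
  · rw [hy1, one_smul] at hy; exact hy
  · exfalso
    have hc : (w⁻¹ * y⁻¹ * w * y) • P1 = P1 := by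
      rw [mul_smul, mul_smul, mul_smul, hy, hwP2, ← hy, inv_smul_smul, inv_smul_eq_iff, hwP1]
    have hmemQ : w⁻¹ * y⁻¹ * w * y ∈ Q := by
      have hwN : w ∈ normalizer ((Q : Subgroup G) : Set G) :=
        Sylow.smul_eq_iff_mem_normalizer.mp hwQ
      have h3 : w⁻¹ * y⁻¹ * w ∈ (Q : Subgroup G) := by
        have := (mem_normalizer_iff.mp (inv_mem hwN) y⁻¹).mp (inv_mem hyQ)
        rw [inv_inv] at this; exact this
      exact mul_mem h3 hyQ
    have h4 := hfree P1 h1 _ hmemQ hc
    have hcomm : w * y = y * w := by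
      calc w * y = y * w * (w⁻¹ * y⁻¹ * w * y) := by group
        _ = y * w := by rw [h4, mul_one]
    have hwC : w ∈ centralizer ({y} : Set G) := mem_centralizer_singleton_iff.mpr hcomm
    rw [hTI Q y hyQ hy1] at hwC
    have h5 : orderOf w ∣ q := by
      have := orderOf_dvd_natCard (⟨w, hwC⟩ : (Q : Subgroup G))
      rw [hcardP Q, Subgroup.orderOf_mk] at this
      exact this
    have h6 : orderOf w = 1 := Nat.Coprime.eq_one_of_dvd hwo h5
    exact hw1 (orderOf_eq_one_iff.mp h6)

/-- Odd-order elements of `C(w)` normalize `Q`. -/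
theorem emc_cent_normalizes (q p : ℕ) [Fact p.Prime]
    (hTI : ∀ P : Sylow p G, ∀ x ∈ P, x ≠ 1 → centralizer ({x} : Set G) = P)
    (hcardP : ∀ P : Sylow p G, Nat.card (P : Subgroup G) = q)
    (hn : Nat.card (Sylow p G) = q + 1) (Q : Sylow p G) (w : G) (hwQ : w • Q = Q)
    (hwo : (orderOf w).Coprime q) (hw1 : w ≠ 1) (d : G) (hd : d * w = w * d)
    (hdo : Odd (orderOf d)) : d • Q = Q := by
  have key := emc_fix_unique q p hTI hcardP hn Q w hwQ hwo hw1
  have hw_d : w • (d • Q) = d • Q := by
    rw [← mul_smul, ← hd, mul_smul, hwQ]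
  have hw_d2 : w • ((d * d) • Q) = (d * d) • Q := by
    have : w * (d * d) = (d * d) * w := by
      rw [← mul_assoc, ← hd, mul_assoc, ← hd, mul_assoc]
    rw [← mul_smul, this, mul_smul, hwQ]
  have hdd : (d * d) • Q = Q → d • Q = Q := by
    intro h2
    obtain ⟨m, hm⟩ := hdo
    have h3 : d = (d * d) ^ (m + 1) := by
      rw [← pow_two, ← pow_mul]
      have : 2 * (m + 1) = orderOf d + 1 := by omega
      rw [this, pow_succ, pow_orderOf_eq_one, one_mul]
    have hs : d * d ∈ MulAction.stabilizer G Q := h2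
    have h4 := (MulAction.stabilizer G Q).pow_mem hs (m + 1)
    rw [← h3] at h4
    exact h4
  by_cases h1 : d • Q = Q
  · exact h1
  · by_cases h2 : (d * d) • Q = Q
    · exact hdd h2
    · exfalso
      have h3 := key (d • Q) ((d * d) • Q) h1 h2 hw_d hw_d2
      rw [mul_smul] at h3
      exact h1 (smul_left_cancel d h3).symm

/-- **PIECE EMC of S3282**. -/
theorem bsw_final_minus {G : Type*} [Group G] [Finite G] {t s : G} {K : Subgroup G}
    (h : BswHyp t s K) (hF5 : BswF5 K) (q p : ℕ) [Fact p.Prime] (hout : BswOutMinus K q)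
    (hZ : BswMinusZ K q p)
    (hTI : ∀ P : Sylow p G, ∀ x ∈ P, x ≠ 1 → centralizer ({x} : Set G) = P) : BswGoal G := by
  classical
  obtain ⟨hq1, hG, hcase, hcount, -⟩ := hout
  obtain ⟨hp, ⟨a, hqa⟩, hZiff, hZcent⟩ := hZ
  have hk2 : 2 ∣ Nat.card K := by
    have := orderOf_dvd_natCard (⟨t, h.htK⟩ : K)
    rw [Subgroup.orderOf_mk, h.ht] at this
    exact this
  obtain ⟨j, hj⟩ : ∃ j, Nat.card K = j + 1 :=
    ⟨Nat.card K - 1, by have := Nat.card_pos (α := K); omega⟩
  have hq : q = 2 * j + 1 := by omega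
  have hjodd : Odd j := by
    obtain ⟨c, hc⟩ := hk2
    exact ⟨c - 1, by omega⟩
  have hj1 : 1 ≤ j := by obtain ⟨c, hc⟩ := hjodd; omega
  have ha : a ≠ 0 := by
    rintro rfl
    rw [pow_zero] at hqa
    omega
  have hpq : p ∣ q := by rw [hqa]; exact dvd_pow_self p ha
  have hpG : p ∣ Nat.card G := by
    have h1 : p ∣ 2 * Nat.card G := by
      rw [hG]; exact Dvd.dvd.mul_right (Dvd.dvd.mul_right hpq _) _
    rcases (Nat.Prime.dvd_mul hp).mp h1 with h2 | h2
    · exfalso
      have : p = 2 := (Nat.prime_dvd_prime_iff_eq hp Nat.prime_two).mp h2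
      rw [this] at hpq
      omega
    · exact h2
  have hcardP := emc_sylow_card q p a ha hqa hpG hZcent hTI
  have hn := emc_card_sylow K q p a hqa (by omega) hcount hZiff hTI hcardP
  obtain ⟨Q⟩ : Nonempty (Sylow p G) := inferInstance
  have hNcard : Nat.card (normalizer ((Q : Subgroup G) : Set G)) = q * j := by
    have h1 : Nat.card (Sylow p G) = (normalizer ((Q : Subgroup G) : Set G)).index :=
      Sylow.card_eq_index_normalizer Q
    rw [hn] at h1
    have h2 := Subgroup.index_mul_card (normalizer ((Q : Subgroup G) : Set G))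
    rw [← h1] at h2
    have h3 : (q + 1) * (2 * Nat.card (normalizer ((Q : Subgroup G) : Set G))) =
        (q + 1) * (2 * (q * j)) := by
      calc (q + 1) * (2 * Nat.card (normalizer ((Q : Subgroup G) : Set G)))
          = 2 * ((q + 1) * Nat.card (normalizer ((Q : Subgroup G) : Set G))) := by ring
        _ = 2 * Nat.card G := by rw [h2]
        _ = q * (q + 1) * (q - 1) := hG
        _ = (q + 1) * (2 * (q * j)) := by rw [show q - 1 = 2 * j by omega]; ring
    have h4 := Nat.eq_of_mul_eq_mul_left (by omega : 0 < q + 1) h3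
    omega
  by_cases hj' : j = 1
  · refine ⟨Q, ⊥, ?_, ?_, ?_, ?_, ?_, ?_, ?_⟩
    · rw [hcardP Q]; exact hG
    · exact fun x hx hx1 => hTI Q x hx hx1
    · exact ⟨⟨fun a b => Subsingleton.elim _ _⟩⟩
    · rw [Subgroup.card_bot, hcardP Q]; omega
    · exact inf_bot_eq _
    · rw [sup_bot_eq]
      symm
      exact eq_of_le_of_card_ge le_normalizer (by rw [hNcard, hcardP Q, hj', mul_one])
    · intro X hX hX1
      exact absurd (le_bot_iff.mp hX) hX1
  · obtain ⟨r, hr, hrj⟩ := Nat.exists_prime_and_dvd hj'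
    haveI : Fact r.Prime := ⟨hr⟩
    have hrN : r ∣ Nat.card (normalizer ((Q : Subgroup G) : Set G)) := by
      rw [hNcard]; exact Dvd.dvd.mul_left hrj q
    obtain ⟨w', hw'⟩ := exists_prime_orderOf_dvd_card' r hrN
    obtain ⟨w, hwdef⟩ : ∃ w : G, w = (w' : G) := ⟨_, rfl⟩
    have hwo : orderOf w = r := by rw [hwdef, Subgroup.orderOf_coe]; exact hw'
    have hwN : w ∈ normalizer ((Q : Subgroup G) : Set G) := by rw [hwdef]; exact w'.2
    have hwQ : w • Q = Q := Sylow.smul_eq_iff_mem_normalizer.mpr hwN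
    have hw1 : w ≠ 1 := by
      intro h1
      rw [h1, orderOf_one] at hwo
      exact hr.one_lt.ne hwo
    have hr2 : 2 ≤ r := hr.two_le
    have hrk : ¬ r ∣ j + 1 := by
      intro h1
      have h2 := (Nat.dvd_add_right hrj).mp h1
      have := Nat.le_of_dvd one_pos h2
      omega
    have hrq : ¬ r ∣ q := by
      intro h1
      rw [hq] at h1
      have h2 : r ∣ 2 * j := Dvd.dvd.mul_left hrj 2
      have h3 := (Nat.dvd_add_right h2).mp h1
      have := Nat.le_of_dvd one_pos h3
      omega
    have hwCl : w ∉ bswCl K := by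
      intro hc
      have h1 := h.pow_card_of_cl hc
      rw [hj] at h1
      have h2 := orderOf_dvd_of_pow_eq_one h1
      rw [hwo] at h2
      exact hrk h2
    have hwq : w ^ q ≠ 1 := by
      intro hc
      have h2 := orderOf_dvd_of_pow_eq_one hc
      rw [hwo] at h2
      exact hrq h2
    have haw : bswA w = j := by
      rcases hcase w hwCl with h0 | h0
      · exact absurd ((hZiff w).mp ⟨hwCl, h0⟩).2 hwq
      · omega
    obtain ⟨hF1, hF2, u, x, L, hu, huinv, huL, hLK, hDL, hND, hLdvd⟩ :=
      hF5 w hwCl (by omega)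
    have hwD : w ∈ centralizer ({w} : Set G) := mem_centralizer_singleton_iff.mpr rfl
    have hDcard : Nat.card (centralizer ({w} : Set G)) = j := by
      rw [← (hF2 w hwD hw1).2.2, haw]
    have hwoq : (orderOf w).Coprime q := by
      rw [hwo]; exact (Nat.Prime.coprime_iff_not_dvd hr).mpr hrq
    have hDN : centralizer ({w} : Set G) ≤ normalizer ((Q : Subgroup G) : Set G) := by
      intro d hd
      have hdo : Odd (orderOf d) := by
        have := orderOf_dvd_natCard (⟨d, hd⟩ : centralizer ({w} : Set G))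
        rw [hDcard, Subgroup.orderOf_mk] at this
        exact hjodd.of_dvd_nat this
      exact Sylow.smul_eq_iff_mem_normalizer.mp
        (emc_cent_normalizes q p hTI hcardP hn Q w hwQ hwoq hw1 d
          (mem_centralizer_singleton_iff.mp hd) hdo)
    have hcop : (Nat.card (Q : Subgroup G)).Coprime
        (Nat.card (centralizer ({w} : Set G))) := by
      rw [hcardP Q, hDcard, hq]
      apply Nat.coprime_of_dvd'
      intro c hc h1 h2
      have h3 : c ∣ 2 * j := Dvd.dvd.mul_left h2 2
      exact (Nat.dvd_add_right h3).mp h1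
    have hQD : (Q : Subgroup G) ⊓ centralizer ({w} : Set G) = ⊥ :=
      (Subgroup.disjoint_of_coprime_natCard hcop).eq_bot
    have hNQ : normalizer ((Q : Subgroup G) : Set G) =
        (Q : Subgroup G) ⊔ centralizer ({w} : Set G) := by
      symm
      apply eq_of_le_of_card_ge (sup_le le_normalizer hDN)
      rw [hNcard]
      have hinj : Function.Injective
          (fun x : ↥(Q : Subgroup G) × ↥(centralizer ({w} : Set G)) =>
            (⟨(x.1 : G) * (x.2 : G), mul_mem_sup x.1.2 x.2.2⟩ :
              ↥((Q : Subgroup G) ⊔ centralizer ({w} : Set G)))) := by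
        rintro ⟨a1, b1⟩ ⟨a2, b2⟩ hh
        have h1 : (a1 : G) * (b1 : G) = (a2 : G) * (b2 : G) := congrArg Subtype.val hh
        have h2 : (a2 : G)⁻¹ * (a1 : G) = (b2 : G) * (b1 : G)⁻¹ := by
          calc (a2 : G)⁻¹ * (a1 : G)
              = (a2 : G)⁻¹ * ((a1 : G) * (b1 : G)) * (b1 : G)⁻¹ := by group
            _ = (a2 : G)⁻¹ * ((a2 : G) * (b2 : G)) * (b1 : G)⁻¹ := by rw [h1]
            _ = (b2 : G) * (b1 : G)⁻¹ := by group
        have h3 : (a2 : G)⁻¹ * (a1 : G) ∈ (Q : Subgroup G) ⊓ centralizer ({w} : Set G) :=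
          mem_inf.mpr ⟨mul_mem (inv_mem a2.2) a1.2, by
            rw [h2]; exact mul_mem b2.2 (inv_mem b1.2)⟩
        rw [hQD, mem_bot] at h3
        have h4 : (b2 : G) * (b1 : G)⁻¹ = 1 := by rw [← h2]; exact h3
        exact Prod.ext (Subtype.ext (inv_mul_eq_one.mp h3).symm)
          (Subtype.ext (mul_inv_eq_one.mp h4).symm)
      have := Nat.card_le_card_of_injective _ hinj
      rw [Nat.card_prod, hcardP Q, hDcard] at this
      exact this
    have hu1 : u ≠ 1 := bsw_ne_one_of_order_two hu
    have hLcard : Nat.card L = 2 := by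
      have h1 : Nat.card L ∣ j + 1 := by
        have := Subgroup.card_dvd_of_le hLK
        rw [Subgroup.card_map_of_injective (MulEquiv.injective _), hj] at this
        exact this
      rw [hDcard] at hLdvd
      have h2 : Nat.card L ∣ 2 := by
        have := Nat.dvd_sub h1 hLdvd
        rw [show j + 1 - (j - 1) = 2 by omega] at this
        exact this
      have h3 : 1 < Nat.card L := (Subgroup.one_lt_card_iff_ne_bot L).mpr (by
        intro hb
        rw [hb, mem_bot] at huL
        exact hu1 huL)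
      have := Nat.le_of_dvd (by norm_num) h2
      omega
    have hLu : zpowers u = L :=
      eq_of_le_of_card_ge (zpowers_le.mpr huL) (by rw [hLcard, Nat.card_zpowers, hu])
    rw [← hLu] at hND
    have huD : u ∉ centralizer ({w} : Set G) := by
      intro hc
      have := orderOf_dvd_natCard (⟨u, hc⟩ : centralizer ({w} : Set G))
      rw [hDcard, Subgroup.orderOf_mk, hu] at this
      obtain ⟨c, hc⟩ := hjodd
      omega
    refine ⟨Q, centralizer ({w} : Set G), ?_, ?_, ?_, ?_, hQD, hNQ, ?_⟩
    · rw [hcardP Q]; exact hG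
    · exact fun x hx hx1 => hTI Q x hx hx1
    · exact ⟨⟨fun a b => Subtype.ext (hF1 a a.2 b b.2)⟩⟩
    · rw [hDcard, hcardP Q]; omega
    · intro X hX hX1
      obtain ⟨⟨x0, hx0⟩, hx01⟩ := (Subgroup.ne_bot_iff_exists_ne_one (H := X)).1 hX1
      have hx01' : x0 ≠ 1 := fun e => hx01 (Subtype.ext e)
      have hCx0 := (hF2 x0 (hX hx0) hx01').2.1
      constructor
      · apply le_antisymm
        · intro n hn
          rw [mem_normalizer_iff] at hn ⊢
          have hx1X : n * x0 * n⁻¹ ∈ X := (hn x0).mp hx0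
          have hx11 : n * x0 * n⁻¹ ≠ 1 := by
            intro e
            apply hx01'
            calc x0 = n⁻¹ * (n * x0 * n⁻¹) * n := by group
              _ = 1 := by rw [e]; group
          have hCx1 := (hF2 _ (hX hx1X) hx11).2.1
          intro g
          constructor
          · intro hg
            rw [← hCx0] at hg
            rw [← hCx1]
            rw [mem_centralizer_singleton_iff] at hg ⊢
            calc n * g * n⁻¹ * (n * x0 * n⁻¹) = n * (g * x0) * n⁻¹ := by group
              _ = n * (x0 * g) * n⁻¹ := by rw [hg]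
              _ = n * x0 * n⁻¹ * (n * g * n⁻¹) := by group
          · intro hg
            rw [← hCx1] at hg
            rw [← hCx0]
            rw [mem_centralizer_singleton_iff] at hg ⊢
            calc g * x0 = n⁻¹ * (n * g * n⁻¹ * (n * x0 * n⁻¹)) * n := by group
              _ = n⁻¹ * (n * x0 * n⁻¹ * (n * g * n⁻¹)) * n := by rw [hg]
              _ = x0 * g := by group
        · rw [hND]
          apply sup_le
          · intro d hd
            have hfix : ∀ d' ∈ centralizer ({w} : Set G), ∀ g ∈ X, d' * g * d'⁻¹ = g := by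
              intro d' hd' g hg
              rw [hF1 d' hd' g (hX hg)]; group
            rw [mem_normalizer_iff]
            intro g
            constructor
            · intro hg; rw [hfix d hd g hg]; exact hg
            · intro hg
              have h1 := hfix d⁻¹ (inv_mem hd) _ hg
              rw [inv_inv] at h1
              have h2 : d⁻¹ * (d * g * d⁻¹) * d = g := by group
              rw [h2] at h1
              rw [h1]; exact hg
          · rw [zpowers_le, mem_normalizer_iff]
            intro g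
            constructor
            · intro hg; rw [huinv g (hX hg)]; exact inv_mem hg
            · intro hg
              have h1 := huinv _ (hX hg)
              have huu := bsw_sq_of_order_two hu
              have h2 : u * (u * g * u⁻¹) * u⁻¹ = g := by
                calc u * (u * g * u⁻¹) * u⁻¹ = (u * u) * g * (u * u)⁻¹ := by group
                  _ = g := by rw [huu]; group
              rw [h2] at h1
              rw [h1]; exact inv_mem hg
      · exact ⟨u, hu, huD, huinv, hND⟩

end Cfsg.Agent.Helper88
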