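import Mathlib
import Cfsg.Agent.Helper95.OSylDefs
import Cfsg.Agent.Helper43.QuadFin2

set_option autoImplicit false

/-!
# Piece DIAG of CALL S4629: diagonalisation of an even-dimensional quadratic form over a finite
field of odd characteristic into the model forms `mQ m ![]` / `mQ (m-1) ![1, δ]`.
-/

namespace Cfsg.Agent.Helper88

open Matrix Cfsg
open Cfsg.Agent.Helper95.OSyl

universe u

variable {F : Type u} [Field F] {k r : ℕ}

/-- An orthogonal family of the right size with nonzero values gives a change of basis to the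
weighted sum of squares. -/
theorem osyl_diag_of_family {ι κ : Type} [Fintype ι] [DecidableEq ι] [Fintype κ] [DecidableEq κ]
    (h2 : (2 : F) ≠ 0) (Q : QuadraticForm F (ι → F)) (hcard : Fintype.card κ = Fintype.card ι)
    (u : κ → ι → F) (hu : ∀ i j, i ≠ j → QuadraticMap.polar Q (u i) (u j) = 0)
    (wt : κ → F) (hwt : ∀ i, Q (u i) = wt i) (hne : ∀ i, wt i ≠ 0) :
    ∃ (P : Matrix ι κ F) (P' : Matrix κ ι F), P * P' = 1 ∧ P' * P = 1 ∧
      ∀ w, Q (P *ᵥ w) = ∑ x, wt x * (w x * w x) := by
  have hli := Helper43.linIndep_of_ortho Q h2 u hu (fun i => by rw [hwt]; exact hne i)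
  have hfr : Fintype.card κ = Module.finrank F (ι → F) := by
    rw [Module.finrank_fintype_fun_eq_card, hcard]
  have hsp : ⊤ ≤ Submodule.span F (Set.range u) :=
    (hli.span_eq_top_of_card_eq_finrank' hfr).ge
  refine ⟨(Pi.basisFun F ι).toMatrix (Module.Basis.mk hli hsp),
    (Module.Basis.mk hli hsp).toMatrix (Pi.basisFun F ι), ?_, ?_, ?_⟩
  · exact Module.Basis.toMatrix_mul_toMatrix_flip _ _
  · exact Module.Basis.toMatrix_mul_toMatrix_flip _ _
  · intro w
    have h1 : (Pi.basisFun F ι).toMatrix (Module.Basis.mk hli hsp) *ᵥ w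
        = ∑ x, w x • u x := by
      ext i
      simp [Matrix.mulVec, dotProduct, Module.Basis.toMatrix_apply, mul_comm]
    rw [h1, Helper43.map_sum_of_ortho Q Finset.univ u hu w]
    refine Finset.sum_congr rfl fun x _ => ?_
    rw [hwt]
    ring

theorem osyl_diag_even {ι : Type} [Fintype ι] [DecidableEq ι] [Fintype F] (h2 : (2 : F) ≠ 0)
    (Q : QuadraticForm F (ι → F)) (hQ : (QuadraticMap.polarBilin Q).Nondegenerate) (m : ℕ) (hm : 1 ≤ m)
    (hcard : Fintype.card ι = 2 * m) :
    (∃ (P : Matrix ι (MI m 0) F) (P' : Matrix (MI m 0) ι F), P * P' = 1 ∧ P' * P = 1 ∧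
        ∀ w, Q (P *ᵥ w) = mQ m (fun _ : Fin 0 => (1 : F)) w) ∨
      (∃ (δ : F) (P : Matrix ι (MI (m - 1) 2) F) (P' : Matrix (MI (m - 1) 2) ι F), ¬ IsSquare δ ∧
        P * P' = 1 ∧ P' * P = 1 ∧ ∀ w, Q (P *ᵥ w) = mQ (m - 1) (![1, δ] : Fin 2 → F) w) := by
  classical
  obtain ⟨n, hn⟩ : ∃ n, 2 * m = n + 1 := ⟨2 * m - 1, by omega⟩
  obtain ⟨v, hv, hv1, hd⟩ := Helper43.diag_family h2 n (ι → F) Q
    (by rw [Module.finrank_fintype_fun_eq_card, hcard, hn])
    (Helper43.polarNondeg_of_nondegenerate Q hQ)
  by_cases hsq : IsSquare (Q (v (Fin.last n)))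
  · left
    obtain ⟨s, hs⟩ := hsq
    have hs0 : s ≠ 0 := by
      rintro rfl
      apply hd
      rw [hs, mul_zero]
    have hc : Fintype.card (MI m 0) = Fintype.card (Fin (n + 1)) := by
      simp only [MI, Fintype.card_sum, Fintype.card_prod, Fintype.card_fin]
      omega
    let e : MI m 0 ≃ Fin (n + 1) := Fintype.equivOfCardEq hc
    obtain ⟨P, P', hP1, hP2, hP3⟩ := osyl_diag_of_family h2 Q (by rw [hc, Fintype.card_fin, hcard, hn])
      (fun x => if e x = Fin.last n then s⁻¹ • v (e x) else v (e x))
      (by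
        intro i j hij
        have hne : e i ≠ e j := fun h => hij (e.injective h)
        split_ifs
        · rw [QuadraticMap.polar_smul_left, QuadraticMap.polar_smul_right, hv _ _ hne]
          simp
        · rw [QuadraticMap.polar_smul_left, hv _ _ hne]
          simp
        · rw [QuadraticMap.polar_smul_right, hv _ _ hne]
          simp
        · exact hv _ _ hne)
      (fun _ => 1)
      (by
        intro i
        split_ifs with h
        · rw [QuadraticMap.map_smul, h, hs, smul_eq_mul]
          field_simp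
        · exact hv1 _ h)
      (fun _ => one_ne_zero)
    refine ⟨P, P', hP1, hP2, fun w => ?_⟩
    rw [hP3, mQ_apply]
    refine Finset.sum_congr rfl fun x _ => ?_
    rcases x with x | x
    · rfl
    · exact x.elim0
  · right
    have hc : Fintype.card (MI (m - 1) 2) = Fintype.card (Fin (n + 1)) := by
      simp only [MI, Fintype.card_sum, Fintype.card_prod, Fintype.card_fin]
      omega
    let e0 : MI (m - 1) 2 ≃ Fin (n + 1) := Fintype.equivOfCardEq hc
    let e : MI (m - 1) 2 ≃ Fin (n + 1) := e0.trans (Equiv.swap (e0 (Sum.inr 1)) (Fin.last n))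
    have he : e (Sum.inr 1) = Fin.last n := by
      simp [e]
    have he' : ∀ x, x ≠ Sum.inr 1 → e x ≠ Fin.last n := by
      intro x hx h
      apply hx
      apply e.injective
      rw [h, he]
    obtain ⟨P, P', hP1, hP2, hP3⟩ := osyl_diag_of_family h2 Q (by rw [hc, Fintype.card_fin, hcard, hn])
      (fun x => v (e x))
      (by
        intro i j hij
        exact hv _ _ (fun h => hij (e.injective h)))
      (mW (m - 1) (![1, Q (v (Fin.last n))] : Fin 2 → F))
      (by
        intro x
        rcases x with x | x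
        · rw [hv1 _ (he' _ (by simp))]
          rfl
        · fin_cases x
          · rw [hv1 _ (he' _ (by simp))]
            rfl
          · change Q (v (e (Sum.inr 1))) = _
            rw [he]
            rfl)
      (by
        intro x
        rcases x with x | x
        · exact one_ne_zero
        · fin_cases x
          · exact one_ne_zero
          · exact hd)
    refine ⟨Q (v (Fin.last n)), P, P', hsq, hP1, hP2, fun w => ?_⟩
    rw [hP3, mQ_apply]

end Cfsg.Agent.Helper88
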