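import Mathlib
import Cfsg.Agent.Helper96.OHDefs
import Cfsg.Agent.Helper95.OTSDefs
import Cfsg.Agent.Helper84.OTSBADAB
import Cfsg.Agent.Helper11.C3OFIXDIM

set_option autoImplicit false

/-!
# CALL S5992 (helper96), piece OBAD (helper88): an isometry of order `r` of the standard odd form
with fixed space of dimension exactly `(2d+1) % c`.

The construction is the one of `Cfsg.Agent.Helper84.OTS.obad_ab` (copied), with the lower bound
`Cfsg.Agent.Helper11.c3o_fixdim` added.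
-/

namespace Cfsg.Agent.Helper88.OH5992

open Module Polynomial Cfsg Cfsg.Geo
open Cfsg.Agent.Helper13.TIu Cfsg.Agent.Helper96.OH

/-- an element of order `r` with prescribed characteristic polynomial: the fixed space -/
theorem obad_key_eq88 {F : Type*} [Field F] [Fintype F] (p : ℕ) [Fact p.Prime] [CharP F p]
    (h2 : (2 : F) ≠ 0) (r : ℕ) [Fact r.Prime] (hrp : r ≠ p) (d e' : ℕ)
    (cfun : F[X] → ℕ)
    (hsym : ∀ P ∈ Cfsg.Agent.Helper43.CycFactors.cycJ F r,
      cfun (Cfsg.Agent.Helper43.SpReal.star P) = cfun P)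
    (hnz : ∃ P ∈ Cfsg.Agent.Helper43.CycFactors.cycJ F r, cfun P ≠ 0)
    (hdeg : (2 * e' + 1) + orderOf ((Fintype.card F : ℕ) : ZMod r) *
      ∑ P ∈ Cfsg.Agent.Helper43.CycFactors.cycJ F r, cfun P = 2 * d + 1) :
    ∃ g : ↥(Cfsg.isometryGroup F (Cfsg.quadFormOdd d F)), orderOf g = r ∧
      finrank F (LinearMap.ker (Cfsg.Agent.Helper95.OTS.oEnd g - 1)) = 2 * e' + 1 := by
  have hr : r.Prime := Fact.out
  have hrF : (r : F) ≠ 0 := Cfsg.Agent.Helper43.CycFactors.natCast_ne_zero_of_ne (p := p) hr hrp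
  obtain ⟨g, hg, hch⟩ := Cfsg.Agent.Helper43.PrimeOrdO.oexists_of_psi_odd (p := p)
    (rfl : Fintype.card F = Fintype.card F) h2 hr hrp (2 * e' + 1) cfun hsym hnz hdeg
  refine ⟨g, hg, le_antisymm ?_ ?_⟩
  · have h1 := LinearMap.finrank_eigenspace_le (Cfsg.Agent.Helper95.OTS.oEnd g) (1 : F)
    rw [Matrix.charpoly_toLin', hch, Cfsg.Agent.Helper84.OTS.obadab_rootmult hr hrF] at h1
    have h2' : Module.End.eigenspace (Cfsg.Agent.Helper95.OTS.oEnd g) (1 : F) =
        LinearMap.ker (Cfsg.Agent.Helper95.OTS.oEnd g - 1) := by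
      ext v
      rw [Module.End.mem_eigenspace_iff, LinearMap.mem_ker, LinearMap.sub_apply, sub_eq_zero,
        one_smul]
      rfl
    rw [h2'] at h1
    exact h1
  · have hM : ((g : Matrix.GeneralLinearGroup (Unit ⊕ (Fin d ⊕ Fin d)) F) :
        Matrix (Unit ⊕ (Fin d ⊕ Fin d)) (Unit ⊕ (Fin d ⊕ Fin d)) F) ^ r = 1 := by
      have h := pow_orderOf_eq_one g
      rw [hg] at h
      have h' := congrArg (fun x : ↥(Cfsg.isometryGroup F (Cfsg.quadFormOdd d F)) =>
        ((x : Matrix.GeneralLinearGroup (Unit ⊕ (Fin d ⊕ Fin d)) F) :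
          Matrix (Unit ⊕ (Fin d ⊕ Fin d)) (Unit ⊕ (Fin d ⊕ Fin d)) F)) h
      simpa using h'
    exact Cfsg.Agent.Helper11.c3o_fixdim p hr hrp _ hM (2 * e' + 1) cfun hch

/-- `Cfsg.Agent.Helper84.OTS.obad_ab` with equality -/
theorem obad_ab_eq88 {F : Type*} [Field F] [Fintype F] (p : ℕ) [Fact p.Prime] [CharP F p]
    (h2 : (2 : F) ≠ 0) (r : ℕ) [Fact r.Prime] (hr2 : 2 < r)
    (hrp : r ≠ p) (i c : ℕ) (hi : i = orderOf ((Fintype.card F : ℕ) : ZMod r))
    (hc : c = if Even i then i else 2 * i) (d u e' : ℕ) (hu : 1 ≤ u)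
    (hdim : 2 * d = c * u + 2 * e') :
    ∃ g : ↥(Cfsg.isometryGroup F (Cfsg.quadFormOdd d F)), orderOf g = r ∧
      finrank F (LinearMap.ker (Cfsg.Agent.Helper95.OTS.oEnd g - 1)) = 2 * e' + 1 := by
  classical
  have hr : r.Prime := Fact.out
  have hrF : (r : F) ≠ 0 := Cfsg.Agent.Helper43.CycFactors.natCast_ne_zero_of_ne (p := p) hr hrp
  have hcard := Cfsg.Agent.Helper43.CycFactors.cycJ_card_mul (p := p)
    (rfl : Fintype.card F = Fintype.card F) hr hrp
  have hne : (Cfsg.Agent.Helper43.CycFactors.cycJ F r).Nonempty := by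
    rw [Finset.nonempty_iff_ne_empty]
    intro h
    rw [h, Finset.card_empty, zero_mul] at hcard
    omega
  obtain ⟨P₀, hP₀⟩ := hne
  by_cases hev : Even i
  · rw [if_pos hev] at hc
    subst hc
    refine obad_key_eq88 p h2 r hrp d e' (fun P => if P = P₀ then u else 0) ?_
      ⟨P₀, hP₀, ?_⟩ ?_
    · intro P hP
      show (if Cfsg.Agent.Helper43.SpReal.star P = P₀ then u else 0) = if P = P₀ then u else 0
      rw [Cfsg.Agent.Helper43.StarPoly.star_eq_self_of_even (p := p)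
        (rfl : Fintype.card F = Fintype.card F) hr hrp (hi ▸ hev) hP]
    · show (if P₀ = P₀ then u else 0) ≠ 0
      rw [if_pos rfl]
      omega
    · rw [Finset.sum_ite_eq', if_pos hP₀, ← hi]
      omega
  · rw [if_neg hev] at hc
    subst hc
    have hP₀' := Cfsg.Agent.Helper43.CycFactors.mem_cycJ.mp hP₀
    have hsP₀ : Cfsg.Agent.Helper43.SpReal.star P₀ ∈ Cfsg.Agent.Helper43.CycFactors.cycJ F r :=
      Cfsg.Agent.Helper43.StarPoly.star_mem_cycJ hr hrF hP₀
    have hss₀ : Cfsg.Agent.Helper43.SpReal.star (Cfsg.Agent.Helper43.SpReal.star P₀) = P₀ :=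
      Cfsg.Agent.Helper43.StarPoly.star_star hP₀'.1
        (Cfsg.Agent.Helper43.StarPoly.coeff_zero_ne_of_mem hr hP₀)
    refine obad_key_eq88 p h2 r hrp d e'
      (fun P => (if P = P₀ then u else 0) +
        (if P = Cfsg.Agent.Helper43.SpReal.star P₀ then u else 0)) ?_ ⟨P₀, hP₀, ?_⟩ ?_
    · intro P hP
      have hP' := Cfsg.Agent.Helper43.CycFactors.mem_cycJ.mp hP
      have hss : Cfsg.Agent.Helper43.SpReal.star (Cfsg.Agent.Helper43.SpReal.star P) = P :=
        Cfsg.Agent.Helper43.StarPoly.star_star hP'.1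
          (Cfsg.Agent.Helper43.StarPoly.coeff_zero_ne_of_mem hr hP)
      have e1 : Cfsg.Agent.Helper43.SpReal.star P = P₀ ↔
          P = Cfsg.Agent.Helper43.SpReal.star P₀ := by
        constructor
        · intro h
          rw [← h, hss]
        · intro h
          rw [h, hss₀]
      have e2 : Cfsg.Agent.Helper43.SpReal.star P = Cfsg.Agent.Helper43.SpReal.star P₀ ↔
          P = P₀ := by
        constructor
        · intro h
          rw [← hss, h, hss₀]
        · intro h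
          rw [h]
      show (if Cfsg.Agent.Helper43.SpReal.star P = P₀ then u else 0) +
        (if Cfsg.Agent.Helper43.SpReal.star P = Cfsg.Agent.Helper43.SpReal.star P₀ then u
          else 0) = (if P = P₀ then u else 0) +
        (if P = Cfsg.Agent.Helper43.SpReal.star P₀ then u else 0)
      rw [if_congr e1 rfl rfl, if_congr e2 rfl rfl, add_comm]
    · show (if P₀ = P₀ then u else 0) +
        (if P₀ = Cfsg.Agent.Helper43.SpReal.star P₀ then u else 0) ≠ 0
      rw [if_pos rfl]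
      omega
    · rw [Finset.sum_add_distrib, Finset.sum_ite_eq', Finset.sum_ite_eq', if_pos hP₀,
        if_pos hsP₀, ← hi]
      have h3 : i * (u + u) = 2 * i * u := by ring
      omega


variable {ι : Type} [Fintype ι] [DecidableEq ι] {F : Type*} [Field F] (Q : (ι → F) → F)

/-- OBAD: an isometry of order `r` of the standard form with fixed space of dimension `(2d+1) % c`. -/
theorem o_bad [Fintype F] (p : ℕ) [Fact p.Prime] [CharP F p] (h2 : (2 : F) ≠ 0) (d : ℕ) (r : ℕ)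
    [Fact r.Prime] (hr2 : 2 < r) (hrp : r ≠ p) (i c : ℕ)
    (hi : i = orderOf ((Fintype.card F : ℕ) : ZMod r)) (hc : c = if Even i then i else 2 * i)
    (hcn : c ≤ 2 * d + 1) :
    ∃ g : Matrix.GeneralLinearGroup (Unit ⊕ (Fin d ⊕ Fin d)) F,
      g ∈ Cfsg.isometryGroup F (Cfsg.quadFormOdd d F) ∧ orderOf g = r ∧
      finrank F (LinearMap.ker (Matrix.toLin'
        (g : Matrix (Unit ⊕ (Fin d ⊕ Fin d)) (Unit ⊕ (Fin d ⊕ Fin d)) F) - 1)) =
        (2 * d + 1) % c := by
  have hr : r.Prime := Fact.out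
  -- `i > 0`
  have hi0 : 0 < i := by
    rw [hi, orderOf_pos_iff, isOfFinOrder_iff_isUnit, ZMod.isUnit_iff_coprime]
    obtain ⟨n, hpn, hcard⟩ := FiniteField.card F p
    rw [hcard]
    apply Nat.Coprime.pow_left
    exact (Nat.coprime_primes hpn hr).mpr (fun h => hrp h.symm)
  have hc0 : 0 < c := by
    rw [hc]
    split_ifs <;> omega
  obtain ⟨c', hc'⟩ : ∃ c', c = 2 * c' := by
    by_cases hev : Even i
    · rw [if_pos hev] at hc
      obtain ⟨t, ht⟩ := hev
      exact ⟨t, by omega⟩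
    · rw [if_neg hev] at hc
      exact ⟨i, hc⟩
  have hu : 1 ≤ (2 * d + 1) / c := Nat.div_pos hcn hc0
  have hdm := Nat.div_add_mod (2 * d + 1) c
  obtain ⟨w, hw⟩ : ∃ w, c * ((2 * d + 1) / c) = 2 * w :=
    ⟨c' * ((2 * d + 1) / c), by rw [hc']; ring⟩
  have hdim : 2 * d = c * ((2 * d + 1) / c) + 2 * ((2 * d + 1) % c / 2) := by omega
  obtain ⟨g, hg, hfix⟩ := obad_ab_eq88 p h2 r hr2 hrp i c hi hc d ((2 * d + 1) / c)
    ((2 * d + 1) % c / 2) hu hdim
  refine ⟨(g : Matrix.GeneralLinearGroup (Unit ⊕ (Fin d ⊕ Fin d)) F), g.2, ?_, ?_⟩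
  · rw [Subgroup.orderOf_coe]
    exact hg
  · have h3 : finrank F (LinearMap.ker (Matrix.toLin'
        ((g : Matrix.GeneralLinearGroup (Unit ⊕ (Fin d ⊕ Fin d)) F) :
          Matrix (Unit ⊕ (Fin d ⊕ Fin d)) (Unit ⊕ (Fin d ⊕ Fin d)) F) - 1)) =
        2 * ((2 * d + 1) % c / 2) + 1 := hfix
    rw [h3]
    omega

end Cfsg.Agent.Helper88.OH5992
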