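import Mathlib

set_option autoImplicit false

namespace Cfsg.Agent.Helper88

open Matrix

/-- In a field with three elements, `3 = 0`. -/
theorem sou3_three_eq_zero {F : Type*} [Field F] [Fintype F] (hF : Fintype.card F = 3) :
    (3 : F) = 0 := by
  have h := Nat.cast_card_eq_zero F
  rw [hF] at h
  exact_mod_cast h

/-- In a field with three elements, `-1` is not a square. -/
theorem sou3_sq_ne_neg_one {F : Type*} [Field F] [Fintype F] (hF : Fintype.card F = 3)
    (a : F) : a * a ≠ -1 := by
  have h3 := sou3_three_eq_zero hF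
  have hpow : a ^ 3 = a := by
    have := FiniteField.pow_card a
    rwa [hF] at this
  intro h
  have h1 : a * (a * a) = a := by
    calc a * (a * a) = a ^ 3 := by ring
      _ = a := hpow
  rw [h] at h1
  have h2 : (2 : F) * a = 0 := by linear_combination -h1
  have h4 : a = 0 := by linear_combination (-1 : F) * h2 + a * h3
  rw [h4] at h
  have : (1 : F) = 0 := by linear_combination h
  exact one_ne_zero this

theorem sou3_entries88 {F : Type*} [Field F] (L : Matrix (Fin 2) (Fin 2) F)
    (hL : L * L = -1) :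
    L 0 0 * L 0 0 + L 0 1 * L 1 0 = -1 ∧ L 1 0 * L 0 0 + L 1 1 * L 1 0 = 0 := by
  have h00 := congrFun (congrFun hL 0) 0
  have h10 := congrFun (congrFun hL 1) 0
  simp [Matrix.mul_apply, Fin.sum_univ_two] at h00 h10
  exact ⟨h00, h10⟩

theorem sou3_conj_lower {F : Type*} [Field F] [Fintype F] (hF : Fintype.card F = 3)
    (L : Matrix (Fin 2) (Fin 2) F) (hL : L * L = -1) :
    ∃ X : Matrix (Fin 3) (Fin 3) F, X.det ≠ 0 ∧
      !![1, 0, 0; 1, L 0 0, L 0 1; 0, L 1 0, L 1 1] =
        X * !![1, 0, 0; 0, 0, -1; 0, 1, 0] * X⁻¹ := by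
  have h3 := sou3_three_eq_zero hF
  obtain ⟨h00, h10⟩ := sou3_entries88 L hL
  have hc : L 1 0 ≠ 0 := by
    intro hc
    rw [hc] at h00
    apply sou3_sq_ne_neg_one hF (L 0 0)
    linear_combination h00
  refine ⟨!![1, 0, 0; -(1 + L 0 0), 1, L 0 0; -(L 1 0), 0, L 1 0], ?_, ?_⟩
  · rw [Matrix.det_fin_three]
    simp only [Matrix.of_apply, Matrix.cons_val', Matrix.cons_val_zero, Matrix.cons_val_one,
      Matrix.cons_val_two, Matrix.head_cons, Matrix.tail_cons, Matrix.empty_val',
      Matrix.cons_val_fin_one, Matrix.head_fin_const]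
    intro h
    apply hc
    linear_combination h
  · have hdet : IsUnit (!![1, 0, 0; -(1 + L 0 0), 1, L 0 0; -(L 1 0), 0, L 1 0] :
        Matrix (Fin 3) (Fin 3) F).det := by
      rw [Matrix.det_fin_three]
      simp only [Matrix.of_apply, Matrix.cons_val', Matrix.cons_val_zero, Matrix.cons_val_one,
        Matrix.cons_val_two, Matrix.head_cons, Matrix.tail_cons, Matrix.empty_val',
        Matrix.cons_val_fin_one, Matrix.head_fin_const]
      apply IsUnit.mk0
      intro h
      apply hc
      linear_combination h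
    have key : !![1, 0, 0; 1, L 0 0, L 0 1; 0, L 1 0, L 1 1] *
        !![1, 0, 0; -(1 + L 0 0), 1, L 0 0; -(L 1 0), 0, L 1 0] =
        !![1, 0, 0; -(1 + L 0 0), 1, L 0 0; -(L 1 0), 0, L 1 0] *
          !![1, 0, 0; 0, 0, -1; 0, 1, 0] := by
      ext i j
      fin_cases i <;> fin_cases j <;>
        simp [Matrix.mul_apply, Fin.sum_univ_three]
      · linear_combination (-1 : F) * h00 + h3
      · linear_combination h00
      · linear_combination (-1 : F) * h10
      · linear_combination h10
    rw [← key, Matrix.mul_nonsing_inv_cancel_right _ _ hdet]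

theorem sou3_conj_upper {F : Type*} [Field F] [Fintype F] (hF : Fintype.card F = 3)
    (U : Matrix (Fin 2) (Fin 2) F) (hU : U * U = -1) (r1 r2 : F) :
    ∃ Y : Matrix (Fin 3) (Fin 3) F, Y.det ≠ 0 ∧
      !![1, r1, r2; 0, U 0 0, U 0 1; 0, U 1 0, U 1 1] =
        Y * !![1, 0, 0; 0, 0, -1; 0, 1, 0] * Y⁻¹ := by
  have h3 := sou3_three_eq_zero hF
  obtain ⟨h00, h10⟩ := sou3_entries88 U hU
  have hc : U 1 0 ≠ 0 := by
    intro hc
    rw [hc] at h00
    apply sou3_sq_ne_neg_one hF (U 0 0)
    linear_combination h00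
  set y0 : F := r1 * (U 0 0 + 1) + r2 * U 1 0 with hy0
  set y1 : F := r1 * U 0 1 + r2 * (U 1 1 + 1) with hy1
  refine ⟨!![1, y0, y0 * U 0 0 + y1 * U 1 0; 0, 1, U 0 0; 0, 0, U 1 0], ?_, ?_⟩
  · rw [Matrix.det_fin_three]
    simp only [Matrix.of_apply, Matrix.cons_val', Matrix.cons_val_zero, Matrix.cons_val_one,
      Matrix.cons_val_two, Matrix.head_cons, Matrix.tail_cons, Matrix.empty_val',
      Matrix.cons_val_fin_one, Matrix.head_fin_const]
    intro h
    apply hc
    linear_combination h
  · have hdet : IsUnit (!![1, y0, y0 * U 0 0 + y1 * U 1 0; 0, 1, U 0 0; 0, 0, U 1 0] :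
        Matrix (Fin 3) (Fin 3) F).det := by
      rw [Matrix.det_fin_three]
      simp only [Matrix.of_apply, Matrix.cons_val', Matrix.cons_val_zero, Matrix.cons_val_one,
        Matrix.cons_val_two, Matrix.head_cons, Matrix.tail_cons, Matrix.empty_val',
        Matrix.cons_val_fin_one, Matrix.head_fin_const]
      apply IsUnit.mk0
      intro h
      apply hc
      linear_combination h
    have key : !![1, r1, r2; 0, U 0 0, U 0 1; 0, U 1 0, U 1 1] *
        !![1, y0, y0 * U 0 0 + y1 * U 1 0; 0, 1, U 0 0; 0, 0, U 1 0] =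
        !![1, y0, y0 * U 0 0 + y1 * U 1 0; 0, 1, U 0 0; 0, 0, U 1 0] *
          !![1, 0, 0; 0, 0, -1; 0, 1, 0] := by
      ext i j
      fin_cases i <;> fin_cases j <;>
        simp [Matrix.mul_apply, Fin.sum_univ_three]
      · rw [hy0, hy1]
        linear_combination (-r1) * h00 + (-r2) * h10 + r1 * h3
      · rw [hy0, hy1]
        linear_combination r1 * h00 + r2 * h10 + (r1 * U 0 0 + r2 * U 1 0) * h3
      · linear_combination h00
      · linear_combination h10
    rw [← key, Matrix.mul_nonsing_inv_cancel_right _ _ hdet]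

end Cfsg.Agent.Helper88
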