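import Mathlib
import Cfsg.Agent.Helper40.KGLDefs

/-!
Helper88: PIECE P6c of CALL S2478 (helper40): for an injective endomorphism, no prime of a
primary decomposition of its `F[X]`-module is divisible by `X`.
-/

set_option autoImplicit false

namespace Cfsg.Agent.Helper88

open Polynomial Cfsg.Agent.Helper40.KGL
open scoped DirectSum

universe u v

theorem coeff_zero_ne_of_injective {F : Type u} [Field F] {V : Type v} [AddCommGroup V]
    [Module F V] (φ : Module.End F V) (hφ : Function.Injective φ) {ι : Type u} [Fintype ι]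
    (p : ι → F[X]) (e : ι → ℕ) (hp : ∀ i, Irreducible (p i) ∧ 1 ≤ e i)
    (h : Nonempty (Module.AEval' φ ≃ₗ[F[X]] ⨁ i, F[X] ⧸ Submodule.span F[X] {p i ^ e i})) :
    ∀ i, (p i).coeff 0 ≠ 0 := by
  classical
  intro i h0
  obtain ⟨ψ⟩ := h
  obtain ⟨u, hu⟩ : (X : F[X]) ∣ p i := Polynomial.X_dvd_iff.mpr h0
  have hirr := (hp i).1
  have huu : IsUnit u := by
    rcases hirr.isUnit_or_isUnit hu with hX | hu'
    · exact absurd hX Polynomial.not_isUnit_X
    · exact hu'
  have hpne : p i ≠ 0 := hirr.ne_zero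
  have he : e i = (e i - 1) + 1 := by have := (hp i).2; omega
  -- the element
  obtain ⟨w, hw⟩ : ∃ w : ⨁ j, F[X] ⧸ Submodule.span F[X] {p j ^ e j},
      w = DirectSum.lof F[X] ι (fun j => F[X] ⧸ Submodule.span F[X] {p j ^ e j}) i
        (Submodule.Quotient.mk (u * p i ^ (e i - 1))) := ⟨_, rfl⟩
  have hXw : (X : F[X]) • w = 0 := by
    rw [hw, ← map_smul, ← Submodule.Quotient.mk_smul, smul_eq_mul]
    have h1 : (X : F[X]) * (u * p i ^ (e i - 1)) = p i ^ e i := by
      rw [← mul_assoc, ← hu]
      conv_rhs => rw [he, pow_succ']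
    rw [h1]
    have h2 : (Submodule.Quotient.mk (p i ^ e i) : F[X] ⧸ Submodule.span F[X] {p i ^ e i}) = 0 := by
      rw [Submodule.Quotient.mk_eq_zero]
      exact Submodule.mem_span_singleton_self _
    rw [h2, map_zero]
  have hwne : w ≠ 0 := by
    intro hw0
    rw [hw] at hw0
    have h1 : (Submodule.Quotient.mk (u * p i ^ (e i - 1)) :
        F[X] ⧸ Submodule.span F[X] {p i ^ e i}) = 0 := by
      have h2 := DirectSum.lof_eq_of (R := F[X]) (ι := ι)
        (M := fun j => F[X] ⧸ Submodule.span F[X] {p j ^ e j}) i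
        (Submodule.Quotient.mk (u * p i ^ (e i - 1)))
      rw [h2] at hw0
      exact (DirectSum.of_injective (β := fun j => F[X] ⧸ Submodule.span F[X] {p j ^ e j}) i)
        (by rw [hw0, map_zero])
    rw [Submodule.Quotient.mk_eq_zero, Submodule.mem_span_singleton] at h1
    obtain ⟨c, hc⟩ := h1
    rw [smul_eq_mul] at hc
    -- c * p^e = u * p^(e-1), so c * p * p^(e-1) = u * p^(e-1), so c * p = u, so p is a unit
    have h3 : (c * p i) * p i ^ (e i - 1) = u * p i ^ (e i - 1) := by
      rw [← hc]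
      conv_rhs => rw [he, pow_succ']
      ring
    have h4 : c * p i = u := mul_right_cancel₀ (pow_ne_zero _ hpne) h3
    have h5 : IsUnit (p i) := isUnit_of_mul_isUnit_right (by rw [h4]; exact huu)
    exact hirr.not_isUnit h5
  -- transport to `V`
  have hv : (Module.AEval'.of φ).symm (ψ.symm w) ≠ 0 := by
    intro h1
    apply hwne
    have h2 : ψ.symm w = 0 := by
      have := (Module.AEval'.of φ).symm.injective (by rw [h1, map_zero] :
        (Module.AEval'.of φ).symm (ψ.symm w) = (Module.AEval'.of φ).symm 0)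
      exact this
    have h3 := ψ.symm.injective (by rw [h2, map_zero] : ψ.symm w = ψ.symm 0)
    exact h3
  apply hv
  apply hφ
  rw [map_zero, ← Module.AEval'.of_symm_X_smul, ← map_smul, hXw, map_zero, map_zero]

end Cfsg.Agent.Helper88
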