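import Mathlib
import Cfsg.Agent.Helper40.KGLDefs

/-!
Helper88: PIECE P8 of CALL S2478 (helper40): an isomorphism of the `F[X]`-modules attached to
two invertible matrices makes them conjugate.
-/

set_option autoImplicit false

namespace Cfsg.Agent.Helper88

open Polynomial Cfsg.Agent.Helper40.KGL
open scoped DirectSum

universe u v

theorem isConj_of_aeval_equiv {F : Type u} [Field F] {n : ℕ} (g g' : GL (Fin n) F)
    (h : Nonempty (Module.AEval' (Matrix.toLin' (g : Matrix (Fin n) (Fin n) F)) ≃ₗ[F[X]]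
      Module.AEval' (Matrix.toLin' (g' : Matrix (Fin n) (Fin n) F)))) :
    IsConj g g' := by
  obtain ⟨ψ⟩ := h
  obtain ⟨θ, hθ⟩ : ∃ θ : (Fin n → F) ≃ₗ[F] (Fin n → F), ∀ v,
      θ (Matrix.toLin' (g : Matrix (Fin n) (Fin n) F) v) =
        Matrix.toLin' (g' : Matrix (Fin n) (Fin n) F) (θ v) := by
    refine ⟨((Module.AEval'.of (Matrix.toLin' (g : Matrix (Fin n) (Fin n) F))).trans
      (ψ.restrictScalars F)).trans
        (Module.AEval'.of (Matrix.toLin' (g' : Matrix (Fin n) (Fin n) F))).symm, fun v => ?_⟩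
    change (Module.AEval'.of (Matrix.toLin' (g' : Matrix (Fin n) (Fin n) F))).symm
        (ψ (Module.AEval'.of (Matrix.toLin' (g : Matrix (Fin n) (Fin n) F))
          (Matrix.toLin' (g : Matrix (Fin n) (Fin n) F) v))) =
      Matrix.toLin' (g' : Matrix (Fin n) (Fin n) F)
        ((Module.AEval'.of (Matrix.toLin' (g' : Matrix (Fin n) (Fin n) F))).symm
          (ψ (Module.AEval'.of (Matrix.toLin' (g : Matrix (Fin n) (Fin n) F)) v)))
    rw [← Module.AEval'.X_smul_of, map_smul, Module.AEval'.of_symm_X_smul]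
  have h1 : LinearMap.toMatrix' (θ : (Fin n → F) →ₗ[F] (Fin n → F)) *
      LinearMap.toMatrix' (θ.symm : (Fin n → F) →ₗ[F] (Fin n → F)) = 1 := by
    rw [← LinearMap.toMatrix'_comp]
    have : (θ : (Fin n → F) →ₗ[F] (Fin n → F)) ∘ₗ (θ.symm : (Fin n → F) →ₗ[F] (Fin n → F)) =
        LinearMap.id := by
      ext x; simp
    rw [this, LinearMap.toMatrix'_id]
  have h2 : LinearMap.toMatrix' (θ.symm : (Fin n → F) →ₗ[F] (Fin n → F)) *
      LinearMap.toMatrix' (θ : (Fin n → F) →ₗ[F] (Fin n → F)) = 1 := by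
    rw [← LinearMap.toMatrix'_comp]
    have : (θ.symm : (Fin n → F) →ₗ[F] (Fin n → F)) ∘ₗ (θ : (Fin n → F) →ₗ[F] (Fin n → F)) =
        LinearMap.id := by
      ext x; simp
    rw [this, LinearMap.toMatrix'_id]
  have h3 : LinearMap.toMatrix' (θ : (Fin n → F) →ₗ[F] (Fin n → F)) *
      (g : Matrix (Fin n) (Fin n) F) =
      (g' : Matrix (Fin n) (Fin n) F) * LinearMap.toMatrix' (θ : (Fin n → F) →ₗ[F] (Fin n → F)) := by
    have e1 : (g : Matrix (Fin n) (Fin n) F) =
        LinearMap.toMatrix' (Matrix.toLin' (g : Matrix (Fin n) (Fin n) F)) :=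
      (LinearMap.toMatrix'_toLin' _).symm
    have e2 : (g' : Matrix (Fin n) (Fin n) F) =
        LinearMap.toMatrix' (Matrix.toLin' (g' : Matrix (Fin n) (Fin n) F)) :=
      (LinearMap.toMatrix'_toLin' _).symm
    rw [e1, e2, ← LinearMap.toMatrix'_comp, ← LinearMap.toMatrix'_comp]
    congr 1
    apply LinearMap.ext
    intro v
    exact hθ v
  rw [isConj_iff]
  refine ⟨⟨LinearMap.toMatrix' (θ : (Fin n → F) →ₗ[F] (Fin n → F)),
    LinearMap.toMatrix' (θ.symm : (Fin n → F) →ₗ[F] (Fin n → F)), h1, h2⟩, ?_⟩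
  rw [mul_inv_eq_iff_eq_mul]
  apply Units.ext
  exact h3

end Cfsg.Agent.Helper88
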