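import Mathlib
import Cfsg.Agent.Helper53.Quat2
import Cfsg.Agent.Helper70.FrattiniAut2
import Cfsg.Agent.Helper1.BurnsideBasis

/-!
# PIECE D of CALL S4840 (helper73): automorphisms of a 2-group with a unique involution
-/

set_option autoImplicit false
set_option linter.unusedSectionVars false

namespace Cfsg.Agent.Helper88

/-- An odd power congruent to `1` modulo `2 ^ k` forces the base to be `1` modulo `2 ^ k`. -/
theorem uia_pow_odd_mod (k i m : ℕ) (hm : Odd m) (h : i ^ m ≡ 1 [MOD 2 ^ k]) :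
    i ≡ 1 [MOD 2 ^ k] := by
  haveI : NeZero (2 ^ k) := ⟨by positivity⟩
  have hx : ((i : ZMod (2 ^ k))) ^ m = 1 := by
    have := (ZMod.natCast_eq_natCast_iff (i ^ m) 1 (2 ^ k)).mpr h
    simpa using this
  have hm0 : m ≠ 0 := by
    rintro rfl
    simp at hm
  obtain ⟨u, hu⟩ := IsUnit.of_pow_eq_one hx hm0
  have hum : u ^ m = 1 := by
    apply Units.ext
    rw [Units.val_pow_eq_pow_val, hu, hx]
    rfl
  have h1 : orderOf u ∣ m := orderOf_dvd_iff_pow_eq_one.mpr hum
  have h2 : orderOf u ∣ 2 ^ k := by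
    have h3 : orderOf u ∣ Fintype.card (ZMod (2 ^ k))ˣ := orderOf_dvd_card
    rw [ZMod.card_units_eq_totient] at h3
    rcases Nat.eq_zero_or_pos k with rfl | hk
    · simpa using h3
    · rw [Nat.totient_prime_pow Nat.prime_two hk] at h3
      simp only [Nat.add_one_sub_one, mul_one] at h3
      exact h3.trans (pow_dvd_pow 2 (Nat.sub_le k 1))
  obtain ⟨j, -, hj⟩ := (Nat.dvd_prime_pow Nat.prime_two).mp h2
  have hj0 : j = 0 := by
    by_contra hne
    have h2' : 2 ∣ orderOf u := by
      rw [hj]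
      exact dvd_pow_self 2 hne
    obtain ⟨c, hc⟩ := hm
    have := h2'.trans h1
    omega
  rw [hj0, pow_zero, orderOf_eq_one_iff] at hj
  have hx1 : (i : ZMod (2 ^ k)) = 1 := by
    rw [← hu, hj]
    rfl
  have : ((i : ℕ) : ZMod (2 ^ k)) = ((1 : ℕ) : ZMod (2 ^ k)) := by
    rw [hx1]; simp
  exact (ZMod.natCast_eq_natCast_iff i 1 (2 ^ k)).mp this

/-- In a generalized quaternion group of order at least 16 every automorphism of odd order is
trivial. -/
theorem uia_part2_quat {S : Type*} [Group S] [Finite S] (a y z : S) (k : ℕ) (hk : 3 ≤ k)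
    (hoa : orderOf a = 2 ^ k) (hya : y ∉ Subgroup.zpowers a) (hyy : y * y = z)
    (hzz : z * z = 1)
    (hcov : ∀ g : S, g ∈ Subgroup.zpowers a ∨ g * y⁻¹ ∈ Subgroup.zpowers a)
    (hinv : ∀ u ∈ Subgroup.zpowers a, y * u * y⁻¹ = u⁻¹)
    (σ : MulAut S) (hσ : Odd (orderOf σ)) : σ = 1 := by
  -- (1) elements outside `⟨a⟩` have fourth power 1
  have h1 : ∀ g : S, g ∉ Subgroup.zpowers a → g ^ 4 = 1 := by
    intro g hg
    have hu : g * y⁻¹ ∈ Subgroup.zpowers a := (hcov g).resolve_left hg
    have h2 : g * g = z := by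
      have h3 := hinv _ hu
      calc g * g = (g * y⁻¹) * (y * (g * y⁻¹) * y⁻¹) * (y * y) := by group
        _ = z := by rw [h3, hyy]; group
    calc g ^ 4 = (g * g) * (g * g) := by
          rw [show (4 : ℕ) = 2 + 2 from rfl, pow_add, pow_two]
      _ = 1 := by rw [h2, hzz]
  -- (2) σ a ∈ ⟨a⟩
  have h2 : σ a ∈ Subgroup.zpowers a := by
    by_contra hn
    have h3 := h1 _ hn
    have h4 : a ^ 4 = 1 := by
      apply σ.injective
      rw [map_pow, h3, map_one]
    have h5 : orderOf a ∣ 4 := orderOf_dvd_iff_pow_eq_one.mpr h4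
    rw [hoa] at h5
    have h6 : 2 ^ 3 ≤ 2 ^ k := Nat.pow_le_pow_right (by norm_num) hk
    have h7 := Nat.le_of_dvd (by norm_num) h5
    omega
  -- (3) σ a = a ^ i
  obtain ⟨i, hi⟩ : ∃ i : ℕ, a ^ i = σ a := by
    have := mem_powers_iff_mem_zpowers.mpr h2
    exact (Submonoid.mem_powers_iff _ _).mp this
  -- (4)
  have h4 : ∀ j : ℕ, (σ ^ j) a = a ^ (i ^ j) := by
    intro j
    induction j with
    | zero => simp
    | succ j ih =>
      rw [pow_succ', MulAut.mul_apply, ih, map_pow, ← hi, ← pow_mul, pow_succ']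
  -- (5)
  have h5 : σ a = a := by
    have h6 := h4 (orderOf σ)
    rw [pow_orderOf_eq_one, MulAut.one_apply] at h6
    have h7 : a ^ (i ^ orderOf σ) = a ^ 1 := by rw [← h6, pow_one]
    have h8 := pow_eq_pow_iff_modEq.mp h7
    rw [hoa] at h8
    have h9 := uia_pow_odd_mod k i (orderOf σ) hσ h8
    rw [← hoa] at h9
    have h10 := pow_eq_pow_iff_modEq.mpr h9
    rw [pow_one] at h10
    rw [← hi, h10]
  -- (6)
  have h6 : ∀ u ∈ Subgroup.zpowers a, σ u = u := by
    intro u hu
    obtain ⟨j, rfl⟩ := Subgroup.mem_zpowers_iff.mp hu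
    rw [map_zpow, h5]
  -- (7)
  have h7 : σ y ∉ Subgroup.zpowers a := by
    intro hc
    have h8 := h6 _ hc
    have h9 : σ y = y := σ.injective h8
    rw [h9] at hc
    exact hya hc
  -- (8)
  obtain ⟨u, hu⟩ : ∃ u, u = σ y * y⁻¹ := ⟨_, rfl⟩
  have hu_mem : u ∈ Subgroup.zpowers a := by
    rw [hu]; exact (hcov _).resolve_left h7
  have h8 : σ y = u * y := by rw [hu]; group
  have h9 : ∀ j : ℕ, (σ ^ j) y = u ^ j * y := by
    intro j
    induction j with
    | zero => simp
    | succ j ih =>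
      rw [pow_succ', MulAut.mul_apply, ih, map_mul, map_pow, h6 u hu_mem, h8, pow_succ]
      group
  -- (9)
  have h10 : u = 1 := by
    have h11 := h9 (orderOf σ)
    rw [pow_orderOf_eq_one, MulAut.one_apply] at h11
    have h12 : u ^ orderOf σ = 1 := by
      calc u ^ orderOf σ = u ^ orderOf σ * y * y⁻¹ := by group
        _ = 1 := by rw [← h11]; group
    have h13 : orderOf u ∣ orderOf σ := orderOf_dvd_iff_pow_eq_one.mpr h12
    have h14 : orderOf u ∣ 2 ^ k := by
      rw [← hoa]; exact orderOf_dvd_of_mem_zpowers hu_mem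
    obtain ⟨j, -, hj⟩ := (Nat.dvd_prime_pow Nat.prime_two).mp h14
    have hj0 : j = 0 := by
      by_contra hne
      have h2' : 2 ∣ orderOf u := by
        rw [hj]
        exact dvd_pow_self 2 hne
      obtain ⟨c, hc⟩ := hσ
      have := h2'.trans h13
      omega
    rw [hj0, pow_zero, orderOf_eq_one_iff] at hj
    exact hj
  have h11 : σ y = y := by rw [h8, h10, one_mul]
  -- (10)
  ext g
  rw [MulAut.one_apply]
  rcases hcov g with hg | hg
  · exact h6 g hg
  · calc σ g = σ (g * y⁻¹ * y) := by congr 1; group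
      _ = g * y⁻¹ * y := by rw [map_mul, h6 _ hg, h11]
      _ = g := by group

/-- A 2-group generated by at most two elements: the order of its automorphism group. -/
theorem uia_aut_card_dvd {S : Type*} [Group S] [Finite S] (hS : IsPGroup 2 S) (n : ℕ)
    (hn : Nat.card S = 2 ^ n) (T : Finset S) (hT : T.card ≤ 2)
    (hgen : Subgroup.closure (T : Set S) = ⊤) :
    ∃ r, r ≤ 2 ∧ r ≤ n ∧
      Nat.card (MulAut S) ∣ 2 ^ (r * (n - r)) * ∏ i ∈ Finset.range r, (2 ^ r - 2 ^ i) := by
  haveI : Fact (Nat.Prime 2) := ⟨Nat.prime_two⟩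
  have h1 : (frattini S).index ∣ 2 ^ n := by
    rw [← hn]; exact Subgroup.index_dvd_card _
  obtain ⟨r, hr, hr'⟩ := (Nat.dvd_prime_pow Nat.prime_two).mp h1
  have h2 := (Cfsg.Agent.Helper1.burnside_basis 2 r hS hr').2 T hgen
  exact ⟨r, h2.trans hT, hr, Cfsg.Agent.Helper70.card_mulAut_dvd hn hr'⟩

/-- Arithmetic of the bound `2 ^ (r (n - r)) * |GL_r(2)|` for `r ≤ 2`. -/
theorem uia_bound_dvd (n r : ℕ) (hr : r ≤ 2) (hrn : r ≤ n) :
    2 ^ (r * (n - r)) * ∏ i ∈ Finset.range r, (2 ^ r - 2 ^ i) ∣ 2 ^ (2 * n) * 3 ∧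
    (n = 3 → 2 ^ (r * (n - r)) * ∏ i ∈ Finset.range r, (2 ^ r - 2 ^ i) ∣ 24) := by
  interval_cases r
  · refine ⟨?_, fun _ => ?_⟩ <;> simp
  · refine ⟨?_, fun h => ?_⟩
    · simp only [one_mul, Finset.prod_range_one, pow_one, pow_zero]
      exact Dvd.dvd.mul_right (by
        simpa using (pow_dvd_pow 2 (show n - 1 ≤ 2 * n by omega))) 3
    · subst h
      norm_num
  · refine ⟨?_, fun h => ?_⟩
    · have h1 : ∏ i ∈ Finset.range 2, (2 ^ 2 - 2 ^ i) = 2 * 3 := by
        rw [Finset.prod_range_succ, Finset.prod_range_one]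
        norm_num
      rw [h1, ← mul_assoc, ← pow_succ]
      have h2 : 2 * (n - 2) + 1 ≤ 2 * n := by omega
      exact Nat.mul_dvd_mul (pow_dvd_pow 2 h2) (dvd_refl 3)
    · subst h
      rw [Finset.prod_range_succ, Finset.prod_range_one]
      norm_num

theorem two_group_unique_invol_aut {S : Type*} [Group S] [Finite S] (hS : IsPGroup 2 S)
    (huniq : ∀ H K : Subgroup S, Nat.card H = 2 → Nat.card K = 2 → H = K) :
    (∀ (q : ℕ) (P : Subgroup (MulAut S)), q.Prime → q ≠ 2 → IsPGroup q P → Nat.card P ∣ 3) ∧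
    (Nat.card S ≠ 8 → ∀ σ : MulAut S, Odd (orderOf σ) → σ = 1) ∧
    (Nat.card S = 8 → Nat.card (MulAut S) ∣ 24) ∧
    (Nat.card S = 8 → (∃ σ : MulAut S, orderOf σ = 3) →
      ∃ a b z : S, a * a = z ∧ b * b = z ∧ a * b = b * a * z ∧ orderOf z = 2 ∧
        Nat.card (Subgroup.center S) = 2) := by
  classical
  haveI : Fact (Nat.Prime 2) := ⟨Nat.prime_two⟩
  obtain ⟨n, hn⟩ := IsPGroup.iff_card.mp hS
  -- a `q`-subgroup of `Aut S` when `|Aut S|` divides `2 ^ e * 3`
  have hq3 : ∀ (e : ℕ), Nat.card (MulAut S) ∣ 2 ^ e * 3 →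
      ∀ (q : ℕ) (P : Subgroup (MulAut S)), q.Prime → q ≠ 2 → IsPGroup q P →
        Nat.card P ∣ 3 := by
    intro e he q P hq hq2 hP
    haveI : Fact q.Prime := ⟨hq⟩
    obtain ⟨j, hj⟩ := IsPGroup.iff_card.mp hP
    have h1 : Nat.card P ∣ 2 ^ e * 3 := (Subgroup.card_subgroup_dvd_card P).trans he
    have hcop : (Nat.card P).Coprime (2 ^ e) := by
      rw [hj]
      exact Nat.Coprime.pow _ _ ((Nat.coprime_primes hq Nat.prime_two).mpr hq2)
    exact hcop.dvd_of_dvd_mul_left h1
  -- an odd order element when `|Aut S|` is a power of 2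
  have hodd1 : ∀ (e : ℕ), Nat.card (MulAut S) ∣ 2 ^ e →
      ∀ σ : MulAut S, Odd (orderOf σ) → σ = 1 := by
    intro e he σ hσ
    have h1 : orderOf σ ∣ 2 ^ e := (orderOf_dvd_natCard σ).trans he
    obtain ⟨j, -, hj⟩ := (Nat.dvd_prime_pow Nat.prime_two).mp h1
    have hj0 : j = 0 := by
      by_contra hne
      have h2' : 2 ∣ orderOf σ := by rw [hj]; exact dvd_pow_self 2 hne
      obtain ⟨c, hc⟩ := hσ
      omega
    rw [hj0, pow_zero, orderOf_eq_one_iff] at hj
    exact hj
  have h8n : Nat.card S = 8 → n = 3 := by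
    intro h8
    rw [hn] at h8
    exact Nat.pow_right_injective (le_refl 2) (h8.trans (by norm_num))
  -- structure
  have hstruct : IsCyclic S ∨ ∃ (a y z : S) (k : ℕ), 2 ≤ k ∧ orderOf a = 2 ^ k ∧
      Nat.card S = 2 ^ (k + 1) ∧ y ∉ Subgroup.zpowers a ∧ y * a * y⁻¹ = a⁻¹ ∧ y * y = z ∧
      a ^ (2 ^ (k - 1)) = z ∧
      (∀ g : S, g ∈ Subgroup.zpowers a ∨ g * y⁻¹ ∈ Subgroup.zpowers a) ∧
      (∀ u ∈ Subgroup.zpowers a, y * u * y⁻¹ = u⁻¹) ∧ orderOf z = 2 ∧
      (∀ w : S, (∀ g : S, g * w = w * g) → w = 1 ∨ w = z) ∧ (∀ g : S, g * z = z * g) := by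
    rcases Nat.eq_zero_or_pos n with rfl | hn0
    · left
      rw [pow_zero] at hn
      haveI : Subsingleton S := (Nat.card_eq_one_iff_unique.mp hn).1
      exact isCyclic_of_subsingleton
    · have h2 : 2 ∣ Nat.card S := by rw [hn]; exact dvd_pow_self 2 hn0.ne'
      obtain ⟨z, hz⟩ := exists_prime_orderOf_dvd_card' 2 h2
      have hu : ∀ t : S, orderOf t = 2 → t = z := by
        intro t ht
        have h3 : Subgroup.zpowers t = Subgroup.zpowers z :=
          huniq _ _ (by rw [Nat.card_zpowers, ht]) (by rw [Nat.card_zpowers, hz])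
        have h4 : t ∈ Subgroup.zpowers z := by rw [← h3]; exact Subgroup.mem_zpowers t
        obtain ⟨j, hj⟩ := Subgroup.mem_zpowers_iff.mp h4
        rw [← zpow_mod_orderOf, hz] at hj
        rcases Int.emod_two_eq_zero_or_one j with h5 | h5
        · rw [Nat.cast_ofNat, h5, zpow_zero] at hj
          rw [← hj, orderOf_one] at ht
          omega
        · rw [Nat.cast_ofNat, h5, zpow_one] at hj
          exact hj.symm
      have hzc : ∀ g : S, g * z = z * g := by
        intro g
        have h1 : orderOf (g * z * g⁻¹) = 2 := by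
          rw [← MulAut.conj_apply, MulEquiv.orderOf_eq]; exact hz
        have h2 := hu _ h1
        calc g * z = g * z * g⁻¹ * g := by group
          _ = z * g := by rw [h2]
      by_cases hnc : ∃ g h : S, g * h ≠ h * g
      · right
        obtain ⟨a, y, k, hk2, hka, hcard, hya, hyinv, hyy, haz, hcov, hinv⟩ :=
          Cfsg.Agent.Helper53.unique_invol_structure' hS z hz hu hnc
        exact ⟨a, y, z, k, hk2, hka, hcard, hya, hyinv, hyy, haz, hcov, hinv, hz,
          fun w hw => Cfsg.Agent.Helper53.central_eq_one_or_of_unique_invol hS z hz hu hnc w hw,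
          hzc⟩
      · left
        push Not at hnc
        rcases Cfsg.Agent.Helper53.unique_invol_structure hS z hz hu with
          ⟨x, hx⟩ | ⟨a, y, k, hk2, hka, hcard, hya, hyinv, hyy, haz⟩
        · exact isCyclic_iff_exists_zpowers_eq_top.mpr
            ⟨x, by rw [eq_top_iff]; intro g _; exact hx g⟩
        · exfalso
          have h3 : y * a * y⁻¹ = a := by rw [hnc y a]; group
          rw [h3] at hyinv
          have h4 : a ^ 2 = 1 := by
            rw [pow_two]
            nth_rewrite 2 [hyinv]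
            exact mul_inv_cancel a
          have h5 : orderOf a ∣ 2 := orderOf_dvd_iff_pow_eq_one.mpr h4
          rw [hka] at h5
          have h6 : 2 ^ 2 ≤ 2 ^ k := Nat.pow_le_pow_right (by norm_num) hk2
          have h7 := Nat.le_of_dvd (by norm_num) h5
          omega
  rcases hstruct with hcyc | ⟨a, y, z, k, hk2, hka, hcard, hya, hyinv, hyy, haz, hcov, hinv, hz,
    hcen, hzc⟩
  · -- cyclic case
    have hc : Nat.card (MulAut S) = (2 ^ n).totient := by rw [IsCyclic.card_mulAut, hn]
    obtain ⟨e, he, he3⟩ : ∃ e, Nat.card (MulAut S) = 2 ^ e ∧ (n = 3 → e = 2) := by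
      rcases Nat.eq_zero_or_pos n with rfl | hn0
      · exact ⟨0, by rw [hc]; simp, by omega⟩
      · exact ⟨n - 1, by rw [hc, Nat.totient_prime_pow Nat.prime_two hn0]; simp, by omega⟩
    refine ⟨hq3 e (by rw [he]; exact dvd_mul_right _ _), fun _ => hodd1 e (by rw [he]), ?_, ?_⟩
    · intro h8
      rw [he, he3 (h8n h8)]
      norm_num
    · rintro h8 ⟨σ, hσ⟩
      exfalso
      have h1 := orderOf_dvd_natCard σ
      rw [hσ, he, he3 (h8n h8)] at h1
      omega
  · -- generalized quaternion case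
    have hnk : n = k + 1 := Nat.pow_right_injective (le_refl 2) (hn.symm.trans hcard)
    have hgen : Subgroup.closure ((({a, y} : Finset S)) : Set S) = ⊤ := by
      rw [eq_top_iff]
      intro g _
      have ha : a ∈ Subgroup.closure ((({a, y} : Finset S)) : Set S) :=
        Subgroup.subset_closure (by simp)
      have hy : y ∈ Subgroup.closure ((({a, y} : Finset S)) : Set S) :=
        Subgroup.subset_closure (by simp)
      have hza : Subgroup.zpowers a ≤ Subgroup.closure ((({a, y} : Finset S)) : Set S) := by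
        rw [Subgroup.zpowers_le]; exact ha
      rcases hcov g with hg | hg
      · exact hza hg
      · have h1 := Subgroup.mul_mem _ (hza hg) hy
        have h2 : g * y⁻¹ * y = g := by group
        rw [h2] at h1
        exact h1
    obtain ⟨r, hr2, hrn, hdvd⟩ := uia_aut_card_dvd hS n hn {a, y} Finset.card_le_two hgen
    obtain ⟨hb1, hb2⟩ := uia_bound_dvd n r hr2 hrn
    have hzz : z * z = 1 := by
      rw [← pow_two, ← hz]; exact pow_orderOf_eq_one z
    refine ⟨hq3 (2 * n) (hdvd.trans hb1), ?_, fun h8 => hdvd.trans (hb2 (h8n h8)), ?_⟩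
    · intro h8 σ hσ
      have hk3 : 3 ≤ k := by
        rcases Nat.lt_or_ge 2 k with h | h
        · exact h
        · exfalso
          have hk : k = 2 := le_antisymm h hk2
          apply h8
          rw [hcard, hk]
          norm_num
      exact uia_part2_quat a y z k hk3 hka hya hyy hzz hcov hinv σ hσ
    · intro h8 _
      have hk : k = 2 := by have := h8n h8; omega
      subst hk
      have haa : a * a = z := by
        rw [← haz]
        simp [pow_two]
      refine ⟨a, y, z, haa, hyy, ?_, hz, ?_⟩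
      · calc a * y = a⁻¹ * (a * a) * y := by group
          _ = a⁻¹ * (y * y) * y := by rw [haa, hyy]
          _ = (y * a * y⁻¹) * (y * y) * y := by rw [hyinv]
          _ = y * a * (y * y) := by group
          _ = y * a * z := by rw [hyy]
      · have hcz : Subgroup.center S = Subgroup.zpowers z := by
          apply le_antisymm
          · intro w hw
            rw [Subgroup.mem_center_iff] at hw
            rcases hcen w hw with h | h
            · rw [h]; exact Subgroup.one_mem _
            · rw [h]; exact Subgroup.mem_zpowers z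
          · rw [Subgroup.zpowers_le, Subgroup.mem_center_iff]
            exact hzc
        rw [hcz, Nat.card_zpowers, hz]

end Cfsg.Agent.Helper88
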