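import Mathlib
import Cfsg.Agent.Helper88.S2788EVCore
import Cfsg.Agent.Helper67.S2788I
import Cfsg.Agent.Helper37.S2788O

/-!
Helper88: PIECE EV of CALL S2788 (helper87): the case `p = 2`.
-/

set_option autoImplicit false

namespace Cfsg.Agent.Helper88

theorem s2788_even {F : Type*} [Field F] [Fintype F] [CharP F 2] (n : ℕ) (hn : 2 ≤ n)
    (hF : Fintype.card F = 2 ^ n)
    {M : Type*} [AddCommGroup M] [Finite M]
    [DistribMulAction (Matrix.SpecialLinearGroup (Fin 2) F) M]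
    (h2 : ∀ m : M, 2 • m = 0)
    (hfaith : ∀ g : Matrix.SpecialLinearGroup (Fin 2) F, (∀ m : M, g • m = m) → g = 1)
    (s : F) (hs : s ≠ 0) :
    2 ^ n * Nat.card {m : M // Helper5.uSL s • m = m} ≤ Nat.card M := by
  have : Fact (Nat.Prime 2) := ⟨Nat.prime_two⟩
  refine s2788_even_core n hn hF hfaith s ?_ ?_
  · intro g k hk hgk hkq hg1
    exact Cfsg.Agent.Helper67.s2788_inverted s hs g k hk hgk hkq hg1
  · intro g r e hr hr2 he hg
    obtain ⟨j, hj, hdiv⟩ := Cfsg.Agent.Helper37.s2788_orbit (M := M) 2 h2 ⊤ g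
      (fun m _ => AddSubgroup.mem_top _) r e hr hr2 he hg
    refine ⟨j, ?_, hdiv⟩
    have e1 : Nat.card (⊤ : AddSubgroup M) = Nat.card M :=
      Nat.card_congr (AddSubgroup.topEquiv (G := M)).toEquiv
    have e2 : Nat.card {m : M // m ∈ (⊤ : AddSubgroup M) ∧ g ^ (r ^ (e - 1)) • m = m}
        = Nat.card {m : M // g ^ (r ^ (e - 1)) • m = m} :=
      Nat.card_congr (Equiv.subtypeEquivRight (fun m => by simp))
    rw [← e1, ← e2]
    exact hj

end Cfsg.Agent.Helper88
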