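import Mathlib
import Cfsg.Agent.Helper9.OrdTools
import Cfsg.Agent.Helper8.SylFix

/-!
# S0984 piece S7A (helper88): a simple group of order 2520 does not have 15 Sylow 7-subgroups.
-/

set_option autoImplicit false
set_option linter.style.haveILetI false
open Cfsg

universe u

namespace Cfsg.Agent.Helper88

/-- A simple group of order 2520 is not abelian. -/
theorem a7_nonabelian88 {G : Type u} [Group G] [Finite G] [IsSimpleGroup G]
    (hG : Nat.card G = 2520) : ∃ a b : G, a * b ≠ b * a := by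
  haveI : Fact (Nat.Prime 7) := ⟨by norm_num⟩
  obtain ⟨P⟩ : Nonempty (Sylow 7 G) := inferInstance
  have hP : Nat.card (P : Subgroup G) = 7 := by
    have h := Cfsg.Agent.Helper9.OrdTools.sylow_card (p := 7) 1 360 (by rw [hG]; norm_num) (by norm_num) P
    simpa using h
  by_contra hcon
  have hcomm : ∀ a b : G, a * b = b * a := by
    intro a b
    by_contra hab
    exact hcon ⟨a, b, hab⟩
  have hn : (P : Subgroup G).Normal :=
    ⟨fun n hn g => by rw [hcomm g n, mul_inv_cancel_right]; exact hn⟩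
  rcases hn.eq_bot_or_eq_top with h | h
  · rw [h, Subgroup.card_bot] at hP
    omega
  · rw [h, Subgroup.card_top, hG] at hP
    omega

/-- PIECE S7A -/
theorem a7_n7_ne_15 {G : Type u} [Group G] [Finite G] [IsSimpleGroup G]
    (hG : Nat.card G = 2520) : Nat.card (Sylow 7 G) ≠ 15 := by
  classical
  intro h15
  haveI : Fact (Nat.Prime 7) := ⟨by norm_num⟩
  haveI : Fact (Nat.Prime 2) := ⟨Nat.prime_two⟩
  obtain ⟨P⟩ : Nonempty (Sylow 7 G) := inferInstance
  have hP : Nat.card (P : Subgroup G) = 7 := by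
    have h := Cfsg.Agent.Helper9.OrdTools.sylow_card (p := 7) 1 360 (by rw [hG]; norm_num) (by norm_num) P
    simpa using h
  obtain ⟨-, -, -, hN⟩ := Cfsg.Agent.Helper9.OrdTools.sylow_num P (by rw [hP]; norm_num)
    (by rw [hP, hG]; norm_num)
  rw [h15, hG] at hN
  obtain ⟨e, he, he1, hNC, -⟩ := Cfsg.Agent.Helper9.OrdTools.normalizer_centralizer_prime P hP
    (by rw [hG]; norm_num)
  have h2C : 2 ∣ Nat.card (Subgroup.centralizer ((P : Subgroup G) : Set G)) := by
    have he6 : e ≤ 6 := Nat.le_of_dvd (by norm_num) he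
    generalize Nat.card (Subgroup.centralizer ((P : Subgroup G) : Set G)) = cc at hNC
    generalize Nat.card (Subgroup.normalizer ((P : Subgroup G) : Set G)) = nn at hN hNC
    have hnn : nn = 168 := by omega
    subst hnn
    interval_cases e <;> omega
  obtain ⟨c, hc⟩ := exists_prime_orderOf_dvd_card' (G := Subgroup.centralizer
    ((P : Subgroup G) : Set G)) 2 h2C
  obtain ⟨y, hy⟩ : ∃ y : G, y = (c : G) := ⟨_, rfl⟩
  have hyo : orderOf y = 2 := by rw [hy, Subgroup.orderOf_coe]; exact hc
  have hy1 : y ≠ 1 := by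
    intro h
    rw [h, orderOf_one] at hyo
    omega
  have hcomm : ∀ x ∈ (P : Subgroup G), x * y = y * x := fun x hx => by
    rw [hy]
    exact Subgroup.mem_centralizer_iff.mp c.2 x hx
  have hf1 := Cfsg.Agent.Helper8.SylFix.card_fixedBy_modEq_one P y hcomm
  have hf2 := Cfsg.Agent.Helper8.SylFix.card_fixedBy_modEq (p := 7) (q := 2) (k := 1) y
    (by rw [pow_one]; exact hyo)
  have hlt := Cfsg.Agent.Helper8.SylFix.card_fixedBy_lt (p := 7) (by rw [h15]; norm_num) y hy1
  rw [h15] at hf2 hlt
  have hf : Nat.card (MulAction.fixedBy (Sylow 7 G) y) = 1 := by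
    unfold Nat.ModEq at hf1 hf2
    omega
  haveI : Fintype (Sylow 7 G) := Fintype.ofFinite _
  have hσ2 : (MulAction.toPermHom G (Sylow 7 G) y) ^ 2 = 1 := by
    rw [← map_pow, ← hyo, pow_orderOf_eq_one, map_one]
  have hNfp : Nat.card (Function.fixedPoints (MulAction.toPermHom G (Sylow 7 G) y)) = 1 := by
    rw [← hf]
    rfl
  have hsign := Cfsg.Agent.Helper8.SylFix.sign_of_involution
    (MulAction.toPermHom G (Sylow 7 G) y) hσ2 7
    (by rw [← Nat.card_eq_fintype_card, ← Nat.card_eq_fintype_card, hNfp, h15]) (by decide)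
  have htriv := Cfsg.Agent.Helper9.OrdTools.hom_trivial (a7_nonabelian88 hG)
    (Equiv.Perm.sign.comp (MulAction.toPermHom G (Sylow 7 G))) y
  rw [MonoidHom.comp_apply, hsign] at htriv
  exact absurd htriv (by decide)

end Cfsg.Agent.Helper88
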