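import Mathlib
import Cfsg.Agent.Helper9.OrdTools
import Cfsg.Agent.Helper9.OrdTools2
import Cfsg.Agent.Helper8.SylFix
import Cfsg.Agent.Helper88.A7S7A

/-!
# S0984 piece S7B (helper88): a simple group of order 2520 does not have 36 Sylow 7-subgroups.

`|N(P)| = 70`, `|C(P)| = 35`; `C(P)` acts regularly on the 35 Sylow 7-subgroups other than `P`;
an involution `s ∈ N(P)` fixes `1 + |C_{C(P)}(s)| ∈ {2, 6}` of the 36 points, so it is an odd
permutation of them.
-/

set_option autoImplicit false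
set_option linter.style.haveILetI false
set_option maxHeartbeats 1000000
open Cfsg

universe u

namespace Cfsg.Agent.Helper88

/-- PIECE S7B -/
theorem a7_n7_ne_36 {G : Type u} [Group G] [Finite G] [IsSimpleGroup G]
    (hG : Nat.card G = 2520) : Nat.card (Sylow 7 G) ≠ 36 := by
  classical
  intro h36
  haveI : Fact (Nat.Prime 7) := ⟨by norm_num⟩
  haveI : Fact (Nat.Prime 5) := ⟨by norm_num⟩
  haveI : Fact (Nat.Prime 2) := ⟨Nat.prime_two⟩
  obtain ⟨P⟩ : Nonempty (Sylow 7 G) := inferInstance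
  have hP : Nat.card (P : Subgroup G) = 7 := by
    have h := Cfsg.Agent.Helper9.OrdTools.sylow_card (p := 7) 1 360 (by rw [hG]; norm_num)
      (by norm_num) P
    simpa using h
  obtain ⟨-, -, -, hN⟩ := Cfsg.Agent.Helper9.OrdTools.sylow_num P (by rw [hP]; norm_num)
    (by rw [hP, hG]; norm_num)
  rw [h36, hG] at hN
  obtain ⟨e, he, he1, hNC, -⟩ := Cfsg.Agent.Helper9.OrdTools.normalizer_centralizer_prime P hP
    (by rw [hG]; norm_num)
  obtain ⟨N, hNdef⟩ : ∃ N : Subgroup G, N = Subgroup.normalizer ((P : Subgroup G) : Set G) :=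
    ⟨_, rfl⟩
  obtain ⟨C, hCdef⟩ : ∃ C : Subgroup G, C = Subgroup.centralizer ((P : Subgroup G) : Set G) :=
    ⟨_, rfl⟩
  rw [← hNdef] at hN hNC
  rw [← hCdef] at hNC
  have hNcard : Nat.card N = 70 := by omega
  have hCcard : Nat.card C = 35 := by
    have he6 : e ≤ 6 := Nat.le_of_dvd (by norm_num) he
    rw [hNcard] at hNC
    interval_cases e <;> omega
  have hCN : C ≤ N := by
    rw [hCdef, hNdef]
    exact Subgroup.centralizer_le_normalizer _
  have hNfix : ∀ n ∈ N, n • P = P := fun n hn => by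
    rw [hNdef] at hn
    exact Sylow.smul_eq_iff_mem_normalizer.mpr hn
  have hCcomm : ∀ c ∈ C, ∀ x ∈ (P : Subgroup G), x * c = c * x := fun c hc x hx => by
    rw [hCdef] at hc
    exact Subgroup.mem_centralizer_iff.mp hc x hx
  have hpow : ∀ (c : G) (Q : Sylow 7 G) (k : ℕ), c • Q = Q → c ^ k • Q = Q := by
    intro c Q k hQ
    have hcs : c ∈ MulAction.stabilizer G Q := MulAction.mem_stabilizer_iff.mpr hQ
    exact MulAction.mem_stabilizer_iff.mp ((MulAction.stabilizer G Q).pow_mem hcs k)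
  -- elements of order 7 of `N` generate `P`
  have hz7 : ∀ z ∈ N, orderOf z = 7 → Subgroup.zpowers z = (P : Subgroup G) := by
    intro z hzN hzo
    have hpg : IsPGroup 7 (Subgroup.zpowers z) :=
      IsPGroup.of_card (n := 1) (by rw [Nat.card_zpowers, hzo, pow_one])
    have hle : Subgroup.zpowers z ≤ Subgroup.normalizer ((P : Subgroup G) : Set G) := by
      rw [← hNdef]
      exact Subgroup.zpowers_le.mpr hzN
    have hleP := Cfsg.Agent.Helper9.OrdTools.mem_sylow_of_mem_normalizer P hpg hle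
    exact Subgroup.eq_of_le_of_card_ge hleP (by rw [Nat.card_zpowers, hzo, hP])
  -- (L1) a nonidentity element of `C` fixes only `P`
  have hfixC : ∀ c ∈ C, ∀ Q : Sylow 7 G, c • Q = Q → Q ≠ P → c = 1 := by
    intro c hc Q hQ hQP
    have hc35 : c ^ 35 = 1 := by
      have h := pow_card_eq_one' (G := C) (x := ⟨c, hc⟩)
      rw [hCcard] at h
      exact congrArg Subtype.val h
    have hr : c ^ 7 = 1 := by
      by_contra hr1
      have hro : orderOf (c ^ 7) = 5 :=
        orderOf_eq_prime (by rw [← pow_mul]; exact hc35) hr1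
      have hrC : c ^ 7 ∈ C := C.pow_mem hc 7
      have hf1 := Cfsg.Agent.Helper8.SylFix.card_fixedBy_modEq_one P (c ^ 7) (hCcomm _ hrC)
      have hf2 := Cfsg.Agent.Helper8.SylFix.card_fixedBy_modEq (p := 7) (q := 5) (k := 1) (c ^ 7)
        (by rw [pow_one]; exact hro)
      have hlt := Cfsg.Agent.Helper8.SylFix.card_fixedBy_lt (p := 7) (by rw [h36]; norm_num)
        (c ^ 7) hr1
      rw [h36] at hf2 hlt
      have hf : Nat.card (MulAction.fixedBy (Sylow 7 G) (c ^ 7)) = 1 := by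
        unfold Nat.ModEq at hf1 hf2
        omega
      have hsub := (Nat.card_eq_one_iff_unique.mp hf).1
      have hPfix : P ∈ MulAction.fixedBy (Sylow 7 G) (c ^ 7) :=
        MulAction.mem_fixedBy.mpr (hNfix _ (hCN hrC))
      have hQfix : Q ∈ MulAction.fixedBy (Sylow 7 G) (c ^ 7) :=
        MulAction.mem_fixedBy.mpr (hpow c Q 7 hQ)
      exact hQP (congrArg Subtype.val (hsub.elim ⟨Q, hQfix⟩ ⟨P, hPfix⟩))
    have hz : c ^ 5 = 1 := by
      by_contra hz1
      have hzo : orderOf (c ^ 5) = 7 :=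
        orderOf_eq_prime (by rw [← pow_mul]; exact hc35) hz1
      have hzP := hz7 (c ^ 5) (hCN (C.pow_mem hc 5)) hzo
      have hPQ : (P : Subgroup G) ≤ Subgroup.normalizer ((Q : Subgroup G) : Set G) := by
        rw [← hzP, Subgroup.zpowers_le]
        exact Sylow.smul_eq_iff_mem_normalizer.mp (hpow c Q 5 hQ)
      exact hQP (Cfsg.Agent.Helper8.SylFix.eq_of_le_normalizer P Q hPQ)
    have h15 : c ^ 15 = 1 := by
      rw [show 15 = 5 * 3 from rfl, pow_mul, hz, one_pow]
    have h14 : c ^ 14 = 1 := by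
      rw [show 14 = 7 * 2 from rfl, pow_mul, hr, one_pow]
    have hc1 : c ^ 15 = c ^ 14 * c := pow_succ c 14
    rw [h15, h14, one_mul] at hc1
    exact hc1.symm
  -- (L2) an involution of `N`
  obtain ⟨s', hs'⟩ := exists_prime_orderOf_dvd_card' (G := N) 2 (by rw [hNcard]; norm_num)
  obtain ⟨s, hs⟩ : ∃ s : G, s = (s' : G) := ⟨_, rfl⟩
  have hsN : s ∈ N := by rw [hs]; exact s'.2
  have hso : orderOf s = 2 := by rw [hs, Subgroup.orderOf_coe]; exact hs'
  have hs1 : s ≠ 1 := by
    intro h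
    rw [h, orderOf_one] at hso
    omega
  have hss : s * s = 1 := by
    have h := pow_orderOf_eq_one s
    rw [hso, pow_two] at h
    exact h
  have hsinv : s⁻¹ = s := inv_eq_of_mul_eq_one_left hss
  have hsC : s ∉ C := by
    intro hsC
    have h := orderOf_dvd_natCard (⟨s, hsC⟩ : C)
    rw [Subgroup.orderOf_mk, hso, hCcard] at h
    omega
  -- `C` is normalized by `s`
  have hconjC : ∀ c ∈ C, s * c * s⁻¹ ∈ C := by
    intro c hc
    rw [hCdef, Subgroup.mem_centralizer_iff]
    intro x hx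
    have hx' : s⁻¹ * x * s ∈ (P : Subgroup G) := by
      have hsN' : s⁻¹ ∈ Subgroup.normalizer ((P : Subgroup G) : Set G) := by
        rw [← hNdef]
        exact N.inv_mem hsN
      have h := (Subgroup.mem_normalizer_iff.mp hsN' x).mp hx
      rwa [inv_inv] at h
    have hcomm := hCcomm c hc _ hx'
    calc x * (s * c * s⁻¹) = s * ((s⁻¹ * x * s) * c) * s⁻¹ := by group
      _ = s * (c * (s⁻¹ * x * s)) * s⁻¹ := by rw [hcomm]
      _ = s * c * s⁻¹ * x := by group
  -- (L3) a second fixed point of `s`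
  have hfs2 := Cfsg.Agent.Helper8.SylFix.card_fixedBy_modEq (p := 7) (q := 2) (k := 1) s
    (by rw [pow_one]; exact hso)
  have hslt := Cfsg.Agent.Helper8.SylFix.card_fixedBy_lt (p := 7) (by rw [h36]; norm_num) s hs1
  rw [h36] at hfs2 hslt
  have hPs : P ∈ MulAction.fixedBy (Sylow 7 G) s := MulAction.mem_fixedBy.mpr (hNfix s hsN)
  obtain ⟨Q₀, hQ₀s, hQ₀P⟩ : ∃ Q₀ : Sylow 7 G, s • Q₀ = Q₀ ∧ Q₀ ≠ P := by
    by_contra hno
    push Not at hno
    have h1 : Nat.card (MulAction.fixedBy (Sylow 7 G) s) = 1 := by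
      rw [Nat.card_eq_one_iff_unique]
      refine ⟨⟨fun a b => Subtype.ext ?_⟩, ⟨⟨P, hPs⟩⟩⟩
      rw [hno a.1 (MulAction.mem_fixedBy.mp a.2), hno b.1 (MulAction.mem_fixedBy.mp b.2)]
    rw [h1] at hfs2
    unfold Nat.ModEq at hfs2
    omega
  -- (L4) `C` acts regularly on the Sylow subgroups other than `P`
  have hinj : ∀ c ∈ C, ∀ c' ∈ C, c • Q₀ = c' • Q₀ → c = c' := by
    intro c hc c' hc' h
    have h1 : (c'⁻¹ * c) • Q₀ = Q₀ := by
      rw [mul_smul, h, inv_smul_smul]
    have h2 := hfixC (c'⁻¹ * c) (C.mul_mem (C.inv_mem hc') hc) Q₀ h1 hQ₀P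
    exact (inv_mul_eq_one.mp h2).symm
  have hinjOn : Set.InjOn (fun c : G => c • Q₀) (C : Set G) := fun c hc c' hc' h => hinj c hc c' hc' h
  have himgP : ∀ c ∈ C, c • Q₀ ≠ P := by
    intro c hc h
    apply hQ₀P
    have h1 : c⁻¹ • P = P := hNfix _ (hCN (C.inv_mem hc))
    rw [← h, inv_smul_smul] at h1
    exact h1.trans h
  have hsurj : ∀ Q : Sylow 7 G, Q ≠ P → ∃ c ∈ C, c • Q₀ = Q := by
    have hsub : (fun c : G => c • Q₀) '' (C : Set G) ⊆ ({P} : Set (Sylow 7 G))ᶜ := by
      rintro _ ⟨c, hc, rfl⟩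
      exact himgP c hc
    have hcard1 : ((fun c : G => c • Q₀) '' (C : Set G)).ncard = 35 := by
      rw [Set.InjOn.ncard_image hinjOn, ← Nat.card_coe_set_eq]
      exact hCcard
    have hcard2 : (({P} : Set (Sylow 7 G))ᶜ).ncard = 35 := by
      rw [Set.ncard_compl _ (Set.toFinite _) (Set.toFinite _), Set.ncard_singleton, h36]
    have heq := Set.eq_of_subset_of_ncard_le hsub (by rw [hcard1, hcard2]) (Set.toFinite _)
    intro Q hQ
    have hQmem : Q ∈ ({P} : Set (Sylow 7 G))ᶜ := hQ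
    rw [← heq] at hQmem
    obtain ⟨c, hc, hcQ⟩ := hQmem
    exact ⟨c, hc, hcQ⟩
  -- (L5) the fixed points of `s`
  obtain ⟨K, hKdef⟩ : ∃ K : Subgroup G, K = C ⊓ Subgroup.centralizer ({s} : Set G) := ⟨_, rfl⟩
  have hKC : K ≤ C := by rw [hKdef]; exact inf_le_left
  have hKs : ∀ c ∈ K, c * s = s * c := by
    intro c hc
    rw [hKdef] at hc
    exact Subgroup.mem_centralizer_singleton_iff.mp hc.2
  have hSeq : MulAction.fixedBy (Sylow 7 G) s = insert P ((fun c : G => c • Q₀) '' (K : Set G)) := by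
    ext Q
    rw [MulAction.mem_fixedBy, Set.mem_insert_iff]
    constructor
    · intro hQ
      by_cases hQP : Q = P
      · exact Or.inl hQP
      · right
        obtain ⟨c, hc, rfl⟩ := hsurj Q hQP
        refine ⟨c, ?_, rfl⟩
        have h1 : (s * c * s⁻¹) • Q₀ = c • Q₀ := by
          rw [mul_smul, mul_smul, hsinv, hQ₀s]
          exact hQ
        have h2 := hinj _ (hconjC c hc) c hc h1
        rw [hKdef]
        refine ⟨hc, Subgroup.mem_centralizer_singleton_iff.mpr ?_⟩
        calc c * s = (s * c * s⁻¹) * s := by rw [h2]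
          _ = s * c := by group
    · rintro (rfl | ⟨c, hc, rfl⟩)
      · exact hNfix s hsN
      · show s • c • Q₀ = c • Q₀
        rw [← mul_smul, ← hKs c hc, mul_smul, hQ₀s]
  have hcardS : Nat.card (MulAction.fixedBy (Sylow 7 G) s) = Nat.card K + 1 := by
    rw [Nat.card_coe_set_eq, hSeq, Set.ncard_insert_of_notMem _ (Set.toFinite _),
      Set.InjOn.ncard_image (hinjOn.mono hKC), ← Nat.card_coe_set_eq]
    · rfl
    · rintro ⟨c, hc, hcP⟩
      exact himgP c (hKC hc) hcP
  -- (L6) `|K| ∈ {1, 5}`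
  have hKdvd : Nat.card K ∣ 35 := hCcard ▸ Subgroup.card_dvd_of_le hKC
  have hK7 : ¬ 7 ∣ Nat.card K := by
    intro h7
    obtain ⟨z', hz'⟩ := exists_prime_orderOf_dvd_card' (G := K) 7 h7
    have hzo : orderOf (z' : G) = 7 := by rw [Subgroup.orderOf_coe]; exact hz'
    have hzP := hz7 (z' : G) (hCN (hKC z'.2)) hzo
    apply hsC
    rw [hCdef, Subgroup.mem_centralizer_iff]
    intro x hx
    rw [← hzP] at hx
    obtain ⟨k, rfl⟩ := Subgroup.mem_zpowers_iff.mp hx
    have hcomm : Commute (z' : G) s := hKs _ z'.2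
    exact (hcomm.zpow_left k).eq
  have hKcases : Nat.card K = 1 ∨ Nat.card K = 5 := by
    have hle : Nat.card K ≤ 35 := Nat.le_of_dvd (by norm_num) hKdvd
    generalize Nat.card K = k at hKdvd hK7 hle
    interval_cases k <;> omega
  -- (L7) the sign of `s` on the 36 points
  haveI : Fintype (Sylow 7 G) := Fintype.ofFinite _
  have hσ2 : (MulAction.toPermHom G (Sylow 7 G) s) ^ 2 = 1 := by
    rw [← map_pow, ← hso, pow_orderOf_eq_one, map_one]
  have hNfp : Nat.card (Function.fixedPoints (MulAction.toPermHom G (Sylow 7 G) s))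
      = Nat.card K + 1 := by
    rw [← hcardS]
    rfl
  obtain ⟨t, ht, htodd⟩ : ∃ t : ℕ, Nat.card K + 1 + 2 * t = 36 ∧ Odd t := by
    rcases hKcases with h | h
    · exact ⟨17, by rw [h], by decide⟩
    · exact ⟨15, by rw [h], by decide⟩
  have hsign := Cfsg.Agent.Helper8.SylFix.sign_of_involution
    (MulAction.toPermHom G (Sylow 7 G) s) hσ2 t
    (by rw [← Nat.card_eq_fintype_card, ← Nat.card_eq_fintype_card, hNfp, h36]; exact ht) htodd
  have htriv := Cfsg.Agent.Helper9.OrdTools.hom_trivial (a7_nonabelian88 hG)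
    (Equiv.Perm.sign.comp (MulAction.toPermHom G (Sylow 7 G))) s
  rw [MonoidHom.comp_apply, hsign] at htriv
  exact absurd htriv (by decide)

end Cfsg.Agent.Helper88
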