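import Cfsg.Agent.Helper88.ChainStab

set_option autoImplicit false

namespace Cfsg.Agent.Helper88

universe u

/-! ### The flag `Ω₁ ∩ ℧^k` of a finite abelian `p`-group -/

/-- `Ω₁(X) ∩ ℧^k(X)`: the elements of order dividing `p` that are `p^k`-th powers. -/
def Vk (X : Type*) [CommGroup X] (p k : ℕ) : Subgroup X where
  carrier := {x | x ^ p = 1 ∧ ∃ g, x = g ^ (p ^ k)}
  mul_mem' := by
    rintro x y ⟨hx, g, rfl⟩ ⟨hy, g', rfl⟩
    exact ⟨by rw [mul_pow, hx, hy, one_mul], g * g', (mul_pow _ _ _).symm⟩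
  one_mem' := ⟨one_pow _, 1, (one_pow _).symm⟩
  inv_mem' := by
    rintro x ⟨hx, g, rfl⟩
    exact ⟨by rw [inv_pow, hx, inv_one], g⁻¹, (inv_pow _ _).symm⟩

theorem mem_Vk {X : Type*} [CommGroup X] {p k : ℕ} {x : X} :
    x ∈ Vk X p k ↔ x ^ p = 1 ∧ ∃ g, x = g ^ (p ^ k) := Iff.rfl

theorem Vk_succ_le (X : Type*) [CommGroup X] (p k : ℕ) : Vk X p (k + 1) ≤ Vk X p k := by
  rintro x ⟨hx, g, rfl⟩
  exact ⟨hx, g ^ p, by rw [← pow_mul, pow_succ']⟩

theorem Vk_equiv {X Y : Type*} [CommGroup X] [CommGroup Y] (e : X ≃* Y) {p k : ℕ} {x : X} :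
    x ∈ Vk X p k ↔ e x ∈ Vk Y p k := by
  constructor
  · rintro ⟨hx, g, rfl⟩
    exact ⟨by rw [← map_pow, hx, map_one], e g, map_pow e g _⟩
  · rintro ⟨hx, g, hg⟩
    refine ⟨e.injective (by rw [map_pow, hx, map_one]), e.symm g, e.injective ?_⟩
    rw [hg, map_pow, e.apply_symm_apply]

theorem Vk_pi {ι : Type*} (A : ι → Type*) [∀ i, CommGroup (A i)] {p k : ℕ} {f : ∀ i, A i} :
    f ∈ Vk (∀ i, A i) p k ↔ ∀ i, f i ∈ Vk (A i) p k := by
  constructor
  · rintro ⟨hf, g, rfl⟩ i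
    exact ⟨congrFun hf i, g i, rfl⟩
  · intro h
    choose h1 g hg using h
    exact ⟨funext h1, g, funext hg⟩

theorem Vk_le_succ_of_cyclic {X : Type*} [CommGroup X] [Finite X] [IsCyclic X] {p : ℕ} [Fact p.Prime]
    {m k : ℕ} (hcard : Nat.card X = p ^ m) (hk : k + 1 ≠ m) : Vk X p k ≤ Vk X p (k + 1) := by
  have hp : p.Prime := Fact.out
  rintro x ⟨hx, g, rfl⟩
  rcases Nat.lt_or_ge k m with hlt | hge
  · have hm : k + 2 ≤ m := by omega
    obtain ⟨t, ht⟩ := IsCyclic.exists_generator (α := X)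
    obtain ⟨c, rfl⟩ := Subgroup.mem_zpowers_iff.mp (ht g)
    have hot : orderOf t = p ^ m := by
      rw [orderOf_eq_card_of_forall_mem_zpowers ht, hcard]
    have h1 : t ^ (c * (p ^ (k + 1) : ℕ)) = 1 := by
      rw [zpow_mul, zpow_natCast, pow_succ, pow_mul]
      exact hx
    have h2 : ((p ^ m : ℕ) : ℤ) ∣ c * (p ^ (k + 1) : ℕ) := by
      rw [← hot]
      exact orderOf_dvd_iff_zpow_eq_one.mpr h1
    have h3 : ((p : ℕ) : ℤ) * (p ^ (k + 1) : ℕ) ∣ c * (p ^ (k + 1) : ℕ) := by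
      refine dvd_trans ?_ h2
      have : p * p ^ (k + 1) ∣ p ^ m := by
        rw [← pow_succ']
        exact pow_dvd_pow p hm
      exact_mod_cast this
    have h4 : ((p : ℕ) : ℤ) ∣ c := by
      apply Int.dvd_of_mul_dvd_mul_right _ h3
      exact_mod_cast (pow_pos hp.pos (k + 1)).ne'
    obtain ⟨c', rfl⟩ := h4
    refine ⟨hx, t ^ c', ?_⟩
    have e5 : (t ^ p) ^ c' = (t ^ c') ^ p := by
      rw [← zpow_natCast t p, ← zpow_mul, ← zpow_natCast (t ^ c') p, ← zpow_mul, mul_comm]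
    rw [zpow_mul, zpow_natCast, e5, ← pow_mul, ← pow_succ']
  · have : g ^ (p ^ k) = 1 := by
      apply orderOf_dvd_iff_pow_eq_one.mp
      exact (orderOf_dvd_natCard g).trans (hcard ▸ pow_dvd_pow p hge)
    rw [this]
    exact Subgroup.one_mem _

theorem exists_gen_Vk_of_cyclic (X : Type*) [CommGroup X] [IsCyclic X] (p k : ℕ) :
    ∃ x₀ ∈ Vk X p k, ∀ a ∈ Vk X p k, a ∈ Subgroup.zpowers x₀ := by
  obtain ⟨g, hg⟩ := IsCyclic.exists_generator (α := Vk X p k)
  refine ⟨g, g.2, fun a ha => ?_⟩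
  obtain ⟨j, hj⟩ := Subgroup.mem_zpowers_iff.mp (hg ⟨a, ha⟩)
  refine Subgroup.mem_zpowers_iff.mpr ⟨j, ?_⟩
  have := congrArg Subtype.val hj
  rw [Subgroup.coe_zpow] at this
  exact this

theorem Vk_pi_step {ι : Type*} [DecidableEq ι] (A : ι → Type*) [∀ i, CommGroup (A i)] [∀ i, Finite (A i)]
    [∀ i, IsCyclic (A i)] {p : ℕ} [Fact p.Prime] (m : ι → ℕ) (hcard : ∀ i, Nat.card (A i) = p ^ m i)
    (hinj : Function.Injective m) (k : ℕ) :
    ∃ x ∈ Vk (∀ i, A i) p k, Vk (∀ i, A i) p k = Vk (∀ i, A i) p (k + 1) ⊔ Subgroup.zpowers x := by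
  by_cases h : ∃ i₀, m i₀ = k + 1
  · obtain ⟨i₀, hi₀⟩ := h
    obtain ⟨x₀, hx₀, hgen⟩ := exists_gen_Vk_of_cyclic (A i₀) p k
    have hxV : Pi.mulSingle i₀ x₀ ∈ Vk (∀ i, A i) p k := by
      rw [Vk_pi]
      intro i
      by_cases hi : i = i₀
      · subst hi
        rw [Pi.mulSingle_eq_same]
        exact hx₀
      · rw [Pi.mulSingle_eq_of_ne hi]
        exact Subgroup.one_mem _
    refine ⟨_, hxV, le_antisymm ?_ (sup_le (Vk_succ_le _ _ _) (by rw [Subgroup.zpowers_le]; exact hxV))⟩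
    intro f hf
    have hf' := (Vk_pi A).mp hf
    obtain ⟨j, hj⟩ := Subgroup.mem_zpowers_iff.mp (hgen _ (hf' i₀))
    have h1 : f * (Pi.mulSingle i₀ x₀ ^ j)⁻¹ ∈ Vk (∀ i, A i) p (k + 1) := by
      rw [Vk_pi]
      intro i
      by_cases hi : i = i₀
      · subst hi
        simp only [Pi.mul_apply, Pi.inv_apply, Pi.pow_apply, Pi.mulSingle_eq_same]
        rw [hj, mul_inv_cancel]
        exact Subgroup.one_mem _
      · simp only [Pi.mul_apply, Pi.inv_apply, Pi.pow_apply, Pi.mulSingle_eq_of_ne hi, one_zpow, inv_one,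
          mul_one]
        exact Vk_le_succ_of_cyclic (hcard i) (fun h' => hi (hinj (hi₀.trans h').symm)) (hf' i)
    have e : f = f * (Pi.mulSingle i₀ x₀ ^ j)⁻¹ * Pi.mulSingle i₀ x₀ ^ j := by
      rw [inv_mul_cancel_right]
    rw [e]
    exact Subgroup.mul_mem_sup h1 (Subgroup.zpow_mem _ (Subgroup.mem_zpowers _) j)
  · push Not at h
    refine ⟨1, Subgroup.one_mem _, le_antisymm ?_ (sup_le (Vk_succ_le _ _ _) (by simp))⟩
    intro f hf
    apply Subgroup.mem_sup_left
    rw [Vk_pi] at hf ⊢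
    intro i
    exact Vk_le_succ_of_cyclic (hcard i) (fun h' => h i h'.symm) (hf i)

/-- Splitting two coordinates off a product of groups. -/
def piSplitTwo {ι : Type*} [DecidableEq ι] (A : ι → Type*) [∀ i, Group (A i)] {i j : ι} (hij : i ≠ j) :
    (∀ k, A k) ≃* (A i × A j) × (∀ k : {k // k ≠ i ∧ k ≠ j}, A k) where
  toFun f := ((f i, f j), fun k => f k.1)
  invFun g := fun k => if h1 : k = i then h1 ▸ g.1.1 else if h2 : k = j then h2 ▸ g.1.2 else g.2 ⟨k, h1, h2⟩
  left_inv f := by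
    funext k
    by_cases h1 : k = i
    · subst h1
      simp
    · by_cases h2 : k = j
      · subst h2
        simp [h1]
      · simp [h1, h2]
  right_inv g := by
    refine Prod.ext (Prod.ext ?_ ?_) (funext fun k => ?_)
    · simp
    · simp [hij.symm]
    · simp [k.2.1, k.2.2]
  map_mul' f g := rfl

/-- A finite abelian `p`-group without a direct factor `C_{p^n} × C_{p^n}`: the flag `Ω₁ ∩ ℧^k` has cyclic
steps. -/
theorem exists_steps_of_no_factor {P : Type u} [CommGroup P] [Finite P] {p : ℕ} [Fact p.Prime]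
    (hP : IsPGroup p P)
    (hno : ¬∃ (n : ℕ) (H : Type) (_ : CommGroup H), 0 < n ∧
      Nonempty (P ≃* (Multiplicative (ZMod (p ^ n)) × Multiplicative (ZMod (p ^ n))) × H)) (k : ℕ) :
    ∃ x ∈ Vk P p k, Vk P p k = Vk P p (k + 1) ⊔ Subgroup.zpowers x := by
  classical
  have hp : p.Prime := Fact.out
  obtain ⟨ι, _, n, hn1, ⟨e⟩⟩ := CommGroup.equiv_prod_multiplicative_zmod_of_finite P
  obtain ⟨N, hN⟩ := IsPGroup.iff_card.mp hP
  have hcardi : ∀ i, Nat.card (Multiplicative (ZMod (n i))) = n i := fun i => Nat.card_zmod (n i)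
  have hcardpi : Nat.card P = ∏ i, n i := by
    rw [Nat.card_congr e.toEquiv, Nat.card_pi]
    exact Finset.prod_congr rfl (fun i _ => hcardi i)
  have hpow : ∀ i, ∃ m, n i = p ^ m := by
    intro i
    have hdvd : n i ∣ p ^ N := by
      rw [← hN, hcardpi]
      exact Finset.dvd_prod_of_mem n (Finset.mem_univ i)
    obtain ⟨m, -, hm⟩ := (Nat.dvd_prime_pow hp).mp hdvd
    exact ⟨m, hm⟩
  choose m hm using hpow
  have hinj : Function.Injective m := by
    intro i j hij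
    by_contra hne
    apply hno
    refine ⟨m i, (∀ k : {k // k ≠ i ∧ k ≠ j}, Multiplicative (ZMod (n k))), inferInstance, ?_, ⟨?_⟩⟩
    · rcases Nat.eq_zero_or_pos (m i) with h0 | h0
      · have := hn1 i
        rw [hm i, h0, pow_zero] at this
        omega
      · exact h0
    · have e1 : Multiplicative (ZMod (n i)) ≃* Multiplicative (ZMod (p ^ m i)) :=
        (ZMod.ringEquivCongr (hm i)).toAddEquiv.toMultiplicative
      have e2 : Multiplicative (ZMod (n j)) ≃* Multiplicative (ZMod (p ^ m i)) :=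
        (ZMod.ringEquivCongr ((hm j).trans (by rw [hij]))).toAddEquiv.toMultiplicative
      exact e.trans ((piSplitTwo (fun k => Multiplicative (ZMod (n k))) hne).trans
        (MulEquiv.prodCongr (MulEquiv.prodCongr e1 e2) (MulEquiv.refl _)))
  have hfin : ∀ i, Finite (Multiplicative (ZMod (n i))) := by
    intro i
    apply Nat.finite_of_card_ne_zero
    rw [hcardi i]
    have := hn1 i
    omega
  obtain ⟨x, hx, hstep⟩ := Vk_pi_step (fun i => Multiplicative (ZMod (n i))) m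
    (fun i => (hcardi i).trans (hm i)) hinj k
  refine ⟨e.symm x, (Vk_equiv e).mpr (by rw [e.apply_symm_apply]; exact hx), ?_⟩
  apply le_antisymm
  · intro y hy
    have h1 : e y ∈ Vk (∀ i, Multiplicative (ZMod (n i))) p (k + 1) ⊔ Subgroup.zpowers x :=
      hstep ▸ (Vk_equiv e).mp hy
    obtain ⟨a, ha, b, hb, hab⟩ := Subgroup.mem_sup.mp h1
    obtain ⟨j, rfl⟩ := Subgroup.mem_zpowers_iff.mp hb
    have e3 : y = e.symm a * (e.symm x) ^ j := by
      apply e.injective
      rw [map_mul, map_zpow, e.apply_symm_apply, e.apply_symm_apply, hab]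
    rw [e3]
    exact Subgroup.mul_mem_sup ((Vk_equiv e).mpr (by rw [e.apply_symm_apply]; exact ha))
      (Subgroup.zpow_mem _ (Subgroup.mem_zpowers _) j)
  · exact sup_le (Vk_succ_le _ _ _)
      (by rw [Subgroup.zpowers_le]; exact (Vk_equiv e).mpr (by rw [e.apply_symm_apply]; exact hx))

/-- Restriction of automorphisms to a characteristic subgroup. -/
def restrictAut {P : Type*} [Group P] (V : Subgroup P) (hV : ∀ (γ : MulAut P), ∀ x ∈ V, γ x ∈ V) :
    MulAut P →* MulAut V where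
  toFun γ :=
    { toFun := fun x => ⟨γ x, hV γ x x.2⟩
      invFun := fun x => ⟨γ⁻¹ x, hV γ⁻¹ x x.2⟩
      left_inv := fun x => Subtype.ext (MulAut.inv_apply_self _ γ x)
      right_inv := fun x => Subtype.ext (MulAut.apply_inv_self _ γ x)
      map_mul' := fun x y => Subtype.ext (map_mul γ (x : P) (y : P)) }
  map_one' := rfl
  map_mul' _ _ := rfl

theorem restrictAut_apply {P : Type*} [Group P] (V : Subgroup P) (hV : ∀ (γ : MulAut P), ∀ x ∈ V, γ x ∈ V)
    (γ : MulAut P) (x : V) : (((restrictAut V hV γ) x : V) : P) = γ (x : P) := rfl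

/-- An automorphism of order prime to `p` of a finite abelian `p`-group that fixes the elements of order
dividing `p` is trivial. -/
theorem mulAut_eq_one_of_fix_omega {P : Type*} [CommGroup P] [Finite P] {p : ℕ} [Fact p.Prime]
    (hP : IsPGroup p P) (γ : MulAut P) {n : ℕ} (hn : n.Coprime p) (hγn : γ ^ n = 1)
    (hfix : ∀ x : P, x ^ p = 1 → γ x = x) : γ = 1 := by
  have key : ∀ k : ℕ, ∀ x : P, x ^ (p ^ k) = 1 → γ x = x := by
    intro k
    induction k with
    | zero =>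
      intro x hx
      rw [pow_zero, pow_one] at hx
      rw [hx, map_one]
    | succ k ih =>
      intro x hx
      have h1 : γ (x ^ p) = x ^ p := ih _ (by rw [← pow_mul, ← pow_succ']; exact hx)
      have hz : (x⁻¹ * γ x) ^ p = 1 := by
        rw [mul_pow, inv_pow, ← map_pow, h1, inv_mul_cancel]
      have hγz := hfix _ hz
      have hpow : ∀ j : ℕ, (γ ^ j) x = x * (x⁻¹ * γ x) ^ j := by
        intro j
        induction j with
        | zero => simp
        | succ j ihj =>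
          rw [pow_succ', MulAut.mul_apply, ihj, map_mul, map_pow, hγz, pow_succ', ← mul_assoc,
            mul_inv_cancel_left]
      have h2 := hpow n
      rw [hγn, MulAut.one_apply] at h2
      have h3 : (x⁻¹ * γ x) ^ n = 1 := by
        have := congrArg (fun t => x⁻¹ * t) h2
        simpa using this.symm
      have h4 : x⁻¹ * γ x = 1 := by
        have := Nat.dvd_gcd (orderOf_dvd_of_pow_eq_one h3) (orderOf_dvd_of_pow_eq_one hz)
        rw [Nat.Coprime.gcd_eq_one hn] at this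
        exact orderOf_eq_one_iff.mp (Nat.dvd_one.mp this)
      exact (inv_mul_eq_one.mp h4).symm
  obtain ⟨N, hN⟩ := IsPGroup.iff_card.mp hP
  apply MulEquiv.ext
  intro x
  exact key N x (by rw [← hN]; exact pow_card_eq_one')

/-- In a finite abelian `p`-group whose flag `Ω₁ ∩ ℧^k` has cyclic steps, every group of automorphisms of
order prime to `p` is abelian of exponent dividing `p - 1`. -/
theorem autos_of_steps {P : Type u} [CommGroup P] [Finite P] {p : ℕ} [Fact p.Prime] (hP : IsPGroup p P)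
    (hstep : ∀ k, ∃ x ∈ Vk P p k, Vk P p k = Vk P p (k + 1) ⊔ Subgroup.zpowers x)
    (H : Subgroup (MulAut P)) (hH : (Nat.card H).Coprime p) :
    (∀ a ∈ H, ∀ b ∈ H, a * b = b * a) ∧ ∀ h ∈ H, h ^ (p - 1) = 1 := by
  have hp : p.Prime := Fact.out
  obtain ⟨N, hN⟩ := IsPGroup.iff_card.mp hP
  have hchar : ∀ (k : ℕ) (γ : MulAut P), ∀ x ∈ Vk P p k, γ x ∈ Vk P p k := by
    rintro k γ x ⟨hx, g, rfl⟩
    exact ⟨by rw [← map_pow, hx, map_one], γ g, map_pow γ g _⟩
  have hV0 : ∀ x : P, x ^ p = 1 → x ∈ Vk P p 0 := fun x hx => ⟨hx, x, by rw [pow_zero, pow_one]⟩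
  have hVN : Vk P p N = ⊥ := by
    rw [eq_bot_iff]
    rintro x ⟨-, g, rfl⟩
    rw [Subgroup.mem_bot, ← hN]
    exact pow_card_eq_one'
  have hD : CycChain (fun j => (Vk P p (N - j)).subgroupOf (Vk P p 0)) N := by
    refine ⟨?_, ?_, ?_, ?_, ?_⟩
    · show (Vk P p (N - 0)).subgroupOf (Vk P p 0) = ⊥
      rw [Nat.sub_zero, hVN, Subgroup.bot_subgroupOf]
    · show (Vk P p (N - N)).subgroupOf (Vk P p 0) = ⊤
      rw [Nat.sub_self, Subgroup.subgroupOf_self]
    · intro j hj y hy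
      have e : N - j = (N - (j + 1)) + 1 := by omega
      have hy' : (y : P) ∈ Vk P p (N - j) := Subgroup.mem_subgroupOf.mp hy
      rw [e] at hy'
      exact Subgroup.mem_subgroupOf.mpr (Vk_succ_le P p _ hy')
    · intro j hj
      infer_instance
    · intro j hj
      obtain ⟨x, hx, hxs⟩ := hstep (N - (j + 1))
      have e : N - j = (N - (j + 1)) + 1 := by omega
      have hxV : x ∈ Vk P p 0 := hV0 x hx.1
      refine ⟨⟨x, hxV⟩, Subgroup.mem_subgroupOf.mpr hx, fun y hy => ?_⟩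
      have hy' : (y : P) ∈ Vk P p (N - (j + 1)) := Subgroup.mem_subgroupOf.mp hy
      rw [hxs] at hy'
      obtain ⟨a, ha, b, hb, hab⟩ := Subgroup.mem_sup.mp hy'
      obtain ⟨i, rfl⟩ := Subgroup.mem_zpowers_iff.mp hb
      refine ⟨i, Subgroup.mem_subgroupOf.mpr ?_⟩
      have e2 : (((⟨x, hxV⟩ : Vk P p 0) ^ i)⁻¹ * y : Vk P p 0) = ((x ^ i)⁻¹ * (y : P) : P) := by
        simp
      rw [e2, ← hab, mul_comm a, inv_mul_cancel_left, e]
      exact ha
  have hinv : ∀ γ : MulAut P, restrictAut (Vk P p 0) (hchar 0) γ ∈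
      chainInv (fun j => (Vk P p (N - j)).subgroupOf (Vk P p 0)) N := by
    intro γ j hj y hy
    have hy' : (y : P) ∈ Vk P p (N - j) := Subgroup.mem_subgroupOf.mp hy
    refine ⟨Subgroup.mem_subgroupOf.mpr (hchar _ γ _ hy'), ?_⟩
    rw [← map_inv]
    exact Subgroup.mem_subgroupOf.mpr (hchar _ γ⁻¹ _ hy')
  have hK := chainStab_isPGroup (hP.to_subgroup (Vk P p 0)) hD.bot hD.top hD.mono
  have hpowH : ∀ γ ∈ H, γ ^ Nat.card H = 1 := by
    intro γ hγ
    have := pow_card_eq_one' (G := H) (x := ⟨γ, hγ⟩)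
    exact congrArg Subtype.val this
  have htriv : ∀ γ ∈ H, restrictAut (Vk P p 0) (hchar 0) γ ∈
      chainStab (fun j => (Vk P p (N - j)).subgroupOf (Vk P p 0)) N hD.mono → γ = 1 := by
    intro γ hγH hγK
    obtain ⟨k, hk⟩ := hK ⟨_, hγK⟩
    have h1 : (restrictAut (Vk P p 0) (hchar 0) γ) ^ (p ^ k) = 1 := congrArg Subtype.val hk
    have h2 : (restrictAut (Vk P p 0) (hchar 0) γ) ^ Nat.card H = 1 := by
      rw [← map_pow, hpowH γ hγH, map_one]
    have hcop : Nat.gcd (p ^ k) (Nat.card H) = 1 := Nat.Coprime.pow_left k hH.symm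
    have h3 := Nat.dvd_gcd (orderOf_dvd_of_pow_eq_one h1) (orderOf_dvd_of_pow_eq_one h2)
    rw [hcop] at h3
    have h4 : restrictAut (Vk P p 0) (hchar 0) γ = 1 := orderOf_eq_one_iff.mp (Nat.dvd_one.mp h3)
    apply mulAut_eq_one_of_fix_omega hP γ hH (hpowH γ hγH)
    intro x hx
    have h5 := congrArg (fun f : MulAut (Vk P p 0) => ((f ⟨x, hV0 x hx⟩ : Vk P p 0) : P)) h4
    exact h5
  refine ⟨fun a ha b hb => ?_, fun h hh => ?_⟩
  · have h1 := chain_comm_mem hD (hinv a) (hinv b)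
    rw [← map_inv, ← map_inv, ← map_mul, ← map_mul, ← map_mul] at h1
    have h2 := htriv _ (H.mul_mem (H.mul_mem (H.mul_mem ha hb) (H.inv_mem ha)) (H.inv_mem hb)) h1
    have h3 : a * b * a⁻¹ = b := by
      rw [mul_inv_eq_one] at h2
      exact h2
    calc a * b = (a * b * a⁻¹) * a := by group
      _ = b * a := by rw [h3]
  · have h1 := chain_pow_mem (hP.to_subgroup (Vk P p 0)) hD (hinv h) hH
      (by rw [← map_pow, hpowH h hh, map_one])
    rw [← map_pow] at h1
    exact htriv _ (H.pow_mem hh _) h1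

end Cfsg.Agent.Helper88
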