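import Mathlib
import Cfsg.Agent.Helper3.AicBasic
import Cfsg.Agent.Helper61.AicP10
import Cfsg.Agent.S0885

/-!
# PIECE P4b of CALL S2202 (helper3): the semiregular (Zassenhaus + Feit) case

`aic_semiregular_case`: if every involution of `G` has an abelian centralizer, a Sylow
2-subgroup `P` is neither cyclic nor normal, `C(Q)` acts semiregularly on the other Sylow
2-subgroups and three-point stabilizers are trivial, then `AicConcl G`.
-/

set_option autoImplicit false
set_option linter.unusedSectionVars false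

open Subgroup Cfsg.Agent.Helper3

namespace Cfsg.Agent.Helper88

variable {G : Type*} [Group G] [Finite G]

/-- `N(P) = C(P) D_R` with `C(P) ∩ D_R = 1`. -/
theorem p4b_card_stab (h : AbInvCent G)
    (hd : ∀ Q R : Sylow 2 G, Q ≠ R → ∀ x : G, x ∈ centralizer ((Q : Subgroup G) : Set G) →
      x • R = R → x = 1)
    {P R : Sylow 2 G} (hPR : P ≠ R) :
    Nat.card (MulAction.stabilizer G P) =
      Nat.card (centralizer ((P : Subgroup G) : Set G)) *
        Nat.card ↥(MulAction.stabilizer G P ⊓ MulAction.stabilizer G R : Subgroup G) := by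
  rw [← Nat.card_prod]
  symm
  have hmem : ∀ (c : ↥(centralizer ((P : Subgroup G) : Set G)))
      (d : ↥(MulAction.stabilizer G P ⊓ MulAction.stabilizer G R : Subgroup G)),
      (d : G) * (c : G) ∈ MulAction.stabilizer G P := by
    intro c d
    rw [MulAction.mem_stabilizer_iff, mul_smul, aic_smul_eq_of_centralizes c.2]
    exact MulAction.mem_stabilizer_iff.mp (Subgroup.mem_inf.mp d.2).1
  apply Nat.card_eq_of_bijective (fun x : ↥(centralizer ((P : Subgroup G) : Set G)) ×
      ↥(MulAction.stabilizer G P ⊓ MulAction.stabilizer G R : Subgroup G) =>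
      (⟨(x.2 : G) * (x.1 : G), hmem x.1 x.2⟩ : MulAction.stabilizer G P))
  constructor
  · rintro ⟨c, d⟩ ⟨c', d'⟩ hcd
    have hcd' : (d : G) * (c : G) = (d' : G) * (c' : G) := congrArg Subtype.val hcd
    have hx : (c' : G) * (c : G)⁻¹ = (d' : G)⁻¹ * (d : G) := by
      calc (c' : G) * (c : G)⁻¹ = (d' : G)⁻¹ * ((d' : G) * (c' : G)) * (c : G)⁻¹ := by group
        _ = (d' : G)⁻¹ * ((d : G) * (c : G)) * (c : G)⁻¹ := by rw [hcd']
        _ = (d' : G)⁻¹ * (d : G) := by group
    have hdR : (d : G) • R = R := MulAction.mem_stabilizer_iff.mp (Subgroup.mem_inf.mp d.2).2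
    have hd'R : (d' : G) • R = R := MulAction.mem_stabilizer_iff.mp (Subgroup.mem_inf.mp d'.2).2
    have hx1 := hd P R hPR ((c' : G) * (c : G)⁻¹) (mul_mem c'.2 (inv_mem c.2)) (by
      rw [hx, mul_smul, hdR, inv_smul_eq_iff, hd'R])
    have hc : (c' : G) = (c : G) := mul_inv_eq_one.mp hx1
    have hdd : (d' : G) = (d : G) := by
      rw [hx] at hx1
      exact inv_mul_eq_one.mp hx1
    exact Prod.ext (Subtype.ext hc.symm) (Subtype.ext hdd.symm)
  · rintro ⟨g, hg⟩
    obtain ⟨d, hdP, hdR, -, hdc⟩ := aic_normalizer_factor h hPR (MulAction.mem_stabilizer_iff.mp hg)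
    refine ⟨(⟨d⁻¹ * g, hdc⟩, ⟨d, Subgroup.mem_inf.mpr ⟨hdP, hdR⟩⟩), ?_⟩
    apply Subtype.ext
    show d * (d⁻¹ * g) = g
    group

/-- The sets `D_R \ {1}` are pairwise disjoint inside `N(P) \ C(P)`. -/
theorem p4b_count
    (hd : ∀ Q R : Sylow 2 G, Q ≠ R → ∀ x : G, x ∈ centralizer ((Q : Subgroup G) : Set G) →
      x • R = R → x = 1)
    (h3 : ∀ Q R T : Sylow 2 G, Q ≠ R → Q ≠ T → R ≠ T → ∀ d : G, d • Q = Q → d • R = R →
      d • T = T → d = 1)
    (P : Sylow 2 G) (e : ℕ)
    (he : ∀ R : Sylow 2 G, R ≠ P →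
      Nat.card ↥(MulAction.stabilizer G P ⊓ MulAction.stabilizer G R : Subgroup G) = e)
    (hN : Nat.card (MulAction.stabilizer G P) =
      Nat.card (centralizer ((P : Subgroup G) : Set G)) * e) :
    (Nat.card (Sylow 2 G) - 1) * (e - 1) ≤
      Nat.card (centralizer ((P : Subgroup G) : Set G)) * (e - 1) := by
  classical
  haveI : Fintype G := Fintype.ofFinite G
  haveI : Fintype (Sylow 2 G) := Fintype.ofFinite _
  obtain ⟨A, hAdef⟩ : ∃ A : Sylow 2 G → Finset G, A = fun R =>
      (((MulAction.stabilizer G P ⊓ MulAction.stabilizer G R : Subgroup G) : Set G) \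
        {1}).toFinset := ⟨_, rfl⟩
  have hAmem : ∀ R d, d ∈ A R ↔ (d • P = P ∧ d • R = R) ∧ d ≠ 1 := by
    intro R d
    rw [hAdef]
    simp only [Set.mem_toFinset, Set.mem_sdiff, SetLike.mem_coe, Subgroup.mem_inf,
      MulAction.mem_stabilizer_iff, Set.mem_singleton_iff]
  have hA : ∀ R, R ≠ P → (A R).card = e - 1 := by
    intro R hR
    rw [hAdef]
    simp only
    rw [← Set.ncard_eq_toFinset_card', Set.ncard_sdiff_singleton_of_mem (by
      exact Subgroup.one_mem _), ← Nat.card_coe_set_eq]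
    exact congrArg (· - 1) (he R hR)
  have hdisj : ((Finset.univ.erase P : Finset (Sylow 2 G)) : Set (Sylow 2 G)).PairwiseDisjoint
      A := by
    intro R hR R' hR' hne
    rw [Function.onFun, Finset.disjoint_left]
    intro d hd1 hd2
    rw [hAmem] at hd1 hd2
    have hRP : R ≠ P := Finset.ne_of_mem_erase hR
    have hR'P : R' ≠ P := Finset.ne_of_mem_erase hR'
    exact hd1.2 (h3 P R R' (Ne.symm hRP) (Ne.symm hR'P) hne d hd1.1.1 hd1.1.2 hd2.1.2)
  have hsub : (Finset.univ.erase P).biUnion A ⊆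
      (((MulAction.stabilizer G P : Subgroup G) : Set G) \
        ((centralizer ((P : Subgroup G) : Set G) : Subgroup G) : Set G)).toFinset := by
    intro d hd'
    rw [Finset.mem_biUnion] at hd'
    obtain ⟨R, hR, hdR⟩ := hd'
    rw [hAmem] at hdR
    have hRP : R ≠ P := Finset.ne_of_mem_erase hR
    simp only [Set.mem_toFinset, Set.mem_sdiff, SetLike.mem_coe, MulAction.mem_stabilizer_iff]
    exact ⟨hdR.1.1, fun hc => hdR.2 (hd P R (Ne.symm hRP) d hc hdR.1.2)⟩
  have hCN : ((centralizer ((P : Subgroup G) : Set G) : Subgroup G) : Set G) ⊆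
      ((MulAction.stabilizer G P : Subgroup G) : Set G) := by
    intro c hc
    exact MulAction.mem_stabilizer_iff.mpr (aic_smul_eq_of_centralizes hc)
  have hcard := Finset.card_le_card hsub
  rw [Finset.card_biUnion hdisj, Finset.sum_congr rfl (fun R hR => hA R (Finset.ne_of_mem_erase hR)),
    Finset.sum_const, Finset.card_erase_of_mem (Finset.mem_univ P), Finset.card_univ,
    smul_eq_mul, ← Set.ncard_eq_toFinset_card', Set.ncard_sdiff hCN, ← Nat.card_coe_set_eq,
    ← Nat.card_coe_set_eq, ← Nat.card_eq_fintype_card] at hcard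
  have h1 : Nat.card ↥((MulAction.stabilizer G P : Subgroup G) : Set G) =
      Nat.card (centralizer ((P : Subgroup G) : Set G)) * e := hN
  have h2 : Nat.card ↥((centralizer ((P : Subgroup G) : Set G) : Subgroup G) : Set G) =
      Nat.card (centralizer ((P : Subgroup G) : Set G)) := rfl
  rw [h1, h2, ← Nat.mul_sub_one] at hcard
  exact hcard

/-- `|C(P)| = n - 1` and `C(P)` is transitive on the Sylow 2-subgroups other than `P`. -/
theorem p4b_card_cent
    (hd : ∀ Q R : Sylow 2 G, Q ≠ R → ∀ x : G, x ∈ centralizer ((Q : Subgroup G) : Set G) →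
      x • R = R → x = 1)
    (P Q : Sylow 2 G) (hPQ : P ≠ Q) (e : ℕ) (he2 : 2 ≤ e)
    (hcount : (Nat.card (Sylow 2 G) - 1) * (e - 1) ≤
      Nat.card (centralizer ((P : Subgroup G) : Set G)) * (e - 1)) :
    Nat.card (centralizer ((P : Subgroup G) : Set G)) + 1 = Nat.card (Sylow 2 G) ∧
    ∀ R : Sylow 2 G, R ≠ P → ∃ c ∈ centralizer ((P : Subgroup G) : Set G), c • Q = R := by
  have hle : Nat.card (Sylow 2 G) - 1 ≤ Nat.card (centralizer ((P : Subgroup G) : Set G)) :=
    Nat.le_of_mul_le_mul_right hcount (by omega)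
  have hcardS : Nat.card {R : Sylow 2 G // R ≠ P} = Nat.card (Sylow 2 G) - 1 := by
    have h1 : {R : Sylow 2 G | R ≠ P} = Set.univ \ {P} := by
      ext R; simp
    rw [show Nat.card {R : Sylow 2 G // R ≠ P} = Nat.card ↥{R : Sylow 2 G | R ≠ P} from rfl,
      Nat.card_coe_set_eq, h1, Set.ncard_sdiff_singleton_of_mem (Set.mem_univ P),
      Set.ncard_univ]
  have hne : ∀ c : ↥(centralizer ((P : Subgroup G) : Set G)), (c : G) • Q ≠ P := by
    intro c hc
    apply hPQ
    have h1 := aic_smul_eq_of_centralizes c.2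
    exact (smul_left_cancel (c : G) (hc.trans h1.symm)).symm
  have hinj : Function.Injective (fun c : ↥(centralizer ((P : Subgroup G) : Set G)) =>
      (⟨(c : G) • Q, hne c⟩ : {R : Sylow 2 G // R ≠ P})) := by
    intro c c' hcc
    have h1 : (c : G) • Q = (c' : G) • Q := congrArg Subtype.val hcc
    have h2 : ((c' : G)⁻¹ * (c : G)) • Q = Q := by
      rw [mul_smul, h1, inv_smul_smul]
    have h3 := hd P Q hPQ _ (mul_mem (inv_mem c'.2) c.2) h2
    exact Subtype.ext (inv_mul_eq_one.mp h3).symm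
  have hbij := hinj.bijective_of_nat_card_le (by rw [hcardS]; exact hle)
  have hle2 := Nat.card_le_card_of_injective _ hinj
  rw [hcardS] at hle2
  have hpos : 0 < Nat.card (Sylow 2 G) := Nat.card_pos
  refine ⟨by omega, ?_⟩
  intro R hR
  obtain ⟨c, hc⟩ := hbij.2 ⟨R, hR⟩
  exact ⟨c, c.2, congrArg Subtype.val hc⟩

/-- 2-transitivity on the Sylow 2-subgroups. -/
theorem p4b_two_trans (P Q : Sylow 2 G)
    (htr : ∀ R : Sylow 2 G, R ≠ P → ∃ c ∈ centralizer ((P : Subgroup G) : Set G), c • Q = R) :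
    MulAction.IsMultiplyPretransitive G (Sylow 2 G) 2 := by
  haveI : Fact (Nat.Prime 2) := ⟨Nat.prime_two⟩
  rw [MulAction.is_two_pretransitive_iff]
  intro a b c d hab hcd
  obtain ⟨g1, hg1⟩ := MulAction.exists_smul_eq G a P
  obtain ⟨g2, hg2⟩ := MulAction.exists_smul_eq G c P
  have h1 : g1 • b ≠ P := by
    intro hh
    apply hab
    rw [← hg1] at hh
    exact (smul_left_cancel g1 hh).symm
  have h2 : g2 • d ≠ P := by
    intro hh
    apply hcd
    rw [← hg2] at hh
    exact (smul_left_cancel g2 hh).symm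
  obtain ⟨c0, hc0, hc0Q⟩ := htr _ h1
  obtain ⟨c1, hc1, hc1Q⟩ := htr _ h2
  refine ⟨g2⁻¹ * (c1 * c0⁻¹) * g1, ?_, ?_⟩
  · rw [mul_smul, mul_smul, hg1, aic_smul_eq_of_centralizes (mul_mem hc1 (inv_mem hc0)), ← hg2,
      inv_smul_smul]
  · rw [mul_smul, mul_smul, ← hc0Q, mul_smul, inv_smul_smul, hc1Q, inv_smul_smul]

/-- The action on the Sylow 2-subgroups makes `G` a Zassenhaus group. -/
theorem p4b_zassenhaus (h : AbInvCent G)
    (h3 : ∀ Q R T : Sylow 2 G, Q ≠ R → Q ≠ T → R ≠ T → ∀ d : G, d • Q = Q → d • R = R →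
      d • T = T → d = 1)
    (P Q : Sylow 2 G) (hPQ : P ≠ Q)
    (h2t : MulAction.IsMultiplyPretransitive G (Sylow 2 G) 2)
    (d0 : G) (hd0 : d0 ≠ 1) (hd0P : d0 • P = P) (hd0Q : d0 • Q = Q)
    (t t' : G) (ht : orderOf t = 2) (ht' : orderOf t' = 2) (htP : t ∈ P) (ht'P : t' ∈ P)
    (htt' : t ≠ t') :
    Cfsg.IsZassenhausGroup G (Sylow 2 G) := by
  have htPfix : ∀ u ∈ P, u • P = P := fun u hu =>
    Sylow.smul_eq_iff_mem_normalizer.mpr (Subgroup.le_normalizer hu)
  have hT1 : t • Q ≠ Q := by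
    intro hh
    exact hPQ (aic_inv_fix_unique h ht htP hh).symm
  have hT2 : t • Q ≠ P := by
    intro hh
    apply hPQ
    have := htPfix t htP
    exact (smul_left_cancel t (hh.trans this.symm)).symm
  refine ⟨⟨?_⟩, h2t, ?_, ⟨d0, hd0, P, Q, hPQ, hd0P, hd0Q⟩, ?_⟩
  · intro g1 g2 hh
    have key : ∀ R : Sylow 2 G, (g2⁻¹ * g1) • R = R := by
      intro R; rw [mul_smul, hh R, inv_smul_smul]
    have := h3 P Q (t • Q) hPQ (Ne.symm hT2) (Ne.symm hT1) _ (key _) (key _) (key _)
    exact (inv_mul_eq_one.mp this).symm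
  · intro g a b c hab hbc hac ha hb hc
    exact h3 a b c hab hac hbc g ha hb hc
  · intro M hM hMtr
    by_contra hcon
    push Not at hcon
    have hA : ∀ u ∈ P, orderOf u = 2 → ∀ x ∈ M, x * u = u * x → x = 1 := by
      intro u hu hou x hx hxu
      have h1 : u • (x • P) = x • P := by
        rw [← mul_smul, ← hxu, mul_smul, htPfix u hu]
      have h2 := aic_inv_fix_unique h hou hu h1
      have h3' : (⟨x, hx⟩ : M) ∈ MulAction.stabilizer M P := by
        rw [MulAction.mem_stabilizer_iff]; exact h2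
      rw [hcon P, Subgroup.mem_bot] at h3'
      exact congrArg Subtype.val h3'
    have hB : ∀ u ∈ P, orderOf u = 2 → ∀ m ∈ M, u * m * u⁻¹ = m⁻¹ := by
      intro u hu hou m hm
      have huu := aic_inv_sq hou
      have hφ : Function.Injective (fun a : M =>
          (⟨(a : G)⁻¹ * (u * (a : G) * u⁻¹),
            M.mul_mem (M.inv_mem a.2) (hM.conj_mem _ a.2 u)⟩ : M)) := by
        intro a b hab
        have h1 : (a : G)⁻¹ * (u * (a : G) * u⁻¹) = (b : G)⁻¹ * (u * (b : G) * u⁻¹) :=
          congrArg Subtype.val hab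
        have h2 : ((b : G) * (a : G)⁻¹) * u = u * ((b : G) * (a : G)⁻¹) := by
          calc ((b : G) * (a : G)⁻¹) * u
              = (b : G) * ((a : G)⁻¹ * (u * (a : G) * u⁻¹)) * u * (a : G)⁻¹ := by group
            _ = (b : G) * ((b : G)⁻¹ * (u * (b : G) * u⁻¹)) * u * (a : G)⁻¹ := by rw [h1]
            _ = u * ((b : G) * (a : G)⁻¹) := by group
        have h3' := hA u hu hou _ (M.mul_mem b.2 (M.inv_mem a.2)) h2
        exact Subtype.ext (mul_inv_eq_one.mp h3').symm
      obtain ⟨a, ha⟩ := (Finite.injective_iff_surjective.mp hφ) ⟨m, hm⟩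
      have ha' : (a : G)⁻¹ * (u * (a : G) * u⁻¹) = m := congrArg Subtype.val ha
      rw [← ha']
      have h1 : u * (u * (a : G) * u⁻¹) * u⁻¹ = (a : G) := by
        calc u * (u * (a : G) * u⁻¹) * u⁻¹ = (u * u) * (a : G) * (u * u)⁻¹ := by group
          _ = (a : G) := by rw [huu]; group
      calc u * ((a : G)⁻¹ * (u * (a : G) * u⁻¹)) * u⁻¹
          = (u * (a : G) * u⁻¹)⁻¹ * (u * (u * (a : G) * u⁻¹) * u⁻¹) := by group
        _ = (u * (a : G) * u⁻¹)⁻¹ * (a : G) := by rw [h1]
        _ = ((a : G)⁻¹ * (u * (a : G) * u⁻¹))⁻¹ := by group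
    have hcomm : t * t' = t' * t := aic_sylow_comm h P htP ht'P
    have htt : t * t = 1 := aic_inv_sq ht
    have ht't' : t' * t' = 1 := aic_inv_sq ht'
    have hu2 : orderOf (t * t') = 2 := by
      apply aic_orderOf_two
      · calc t * t' * (t * t') = t * (t' * t) * t' := by group
          _ = t * (t * t') * t' := by rw [hcomm]
          _ = (t * t) * (t' * t') := by group
          _ = 1 := by rw [htt, ht't', one_mul]
      · intro hh
        apply htt'
        rw [mul_eq_one_iff_eq_inv.mp hh, aic_inv_inv ht']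
    have hM1 : ∀ m ∈ M, m = 1 := by
      intro m hm
      apply hA (t * t') (mul_mem htP ht'P) hu2 m hm
      have h1 := hB t htP ht m hm
      have h2 := hB t' ht'P ht' m hm
      have h4 : (t * t') * m * (t * t')⁻¹ = m := by
        calc (t * t') * m * (t * t')⁻¹ = t * (t' * m * t'⁻¹) * t⁻¹ := by group
          _ = (t * m * t⁻¹)⁻¹ := by rw [h2]; group
          _ = m := by rw [h1, inv_inv]
      calc m * (t * t') = ((t * t') * m * (t * t')⁻¹) * (t * t') := by rw [h4]
        _ = (t * t') * m := by group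
    obtain ⟨m, hm⟩ := MulAction.exists_smul_eq M P Q
    have hm1 : m = 1 := Subtype.ext (hM1 m m.2)
    apply hPQ
    rw [← hm, hm1, one_smul]

/-- The elements of square one in an abelian Sylow 2-subgroup. -/
def p4bSq (P : Sylow 2 G) (hcomm : ∀ x ∈ P, ∀ y ∈ P, x * y = y * x) : Subgroup G where
  carrier := {x | x ∈ P ∧ x ^ 2 = 1}
  mul_mem' := by
    rintro a b ⟨ha, ha2⟩ ⟨hb, hb2⟩
    refine ⟨mul_mem ha hb, ?_⟩
    have hc : Commute a b := hcomm a ha b hb
    rw [hc.mul_pow, ha2, hb2, one_mul]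
  one_mem' := ⟨one_mem _, one_pow 2⟩
  inv_mem' := by
    rintro a ⟨ha, ha2⟩
    exact ⟨inv_mem ha, by rw [inv_pow, ha2, inv_one]⟩

/-- Feit's theorem gives `C(P) = P` elementary abelian. -/
theorem p4b_cent_elem (h : AbInvCent G)
    (hd : ∀ Q R : Sylow 2 G, Q ≠ R → ∀ x : G, x ∈ centralizer ((Q : Subgroup G) : Set G) →
      x • R = R → x = 1)
    (P Q : Sylow 2 G) (hPQ : P ≠ Q)
    (hZ : Cfsg.IsZassenhausGroup G (Sylow 2 G))
    (hcard : Nat.card (centralizer ((P : Subgroup G) : Set G)) + 1 = Nat.card (Sylow 2 G))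
    (t : G) (ht : orderOf t = 2) (htP : t ∈ P) :
    ∀ x ∈ centralizer ((P : Subgroup G) : Set G), x ∈ P ∧ x ^ 2 = 1 := by
  classical
  haveI : Fintype (Sylow 2 G) := Fintype.ofFinite _
  haveI : Fact (Nat.Prime 2) := ⟨Nat.prime_two⟩
  obtain ⟨e, he⟩ : ∃ e,
    Nat.card ↥(MulAction.stabilizer G P ⊓ MulAction.stabilizer G Q : Subgroup G) = e := ⟨_, rfl⟩
  have hodd : Odd e := by
    by_contra hev
    rw [Nat.not_odd_iff_even] at hev
    have h2 : 2 ∣ Nat.card ↥(MulAction.stabilizer G P ⊓ MulAction.stabilizer G Q : Subgroup G) := by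
      rw [he]; exact hev.two_dvd
    obtain ⟨d, hdo⟩ := exists_prime_orderOf_dvd_card' 2 h2
    have h1 := aic_odd_of_fix_two h hPQ
      (MulAction.mem_stabilizer_iff.mp (Subgroup.mem_inf.mp d.2).1)
      (MulAction.mem_stabilizer_iff.mp (Subgroup.mem_inf.mp d.2).2)
    rw [Subgroup.orderOf_coe, hdo] at h1
    exact absurd h1 (by decide)
  have hPbot : (P : Subgroup G) ≠ ⊥ := aic_ne_bot_of_ne hPQ
  have hfeit := Cfsg.Agent.S0885.result hZ hPQ
    (Nat.card (centralizer ((P : Subgroup G) : Set G))) e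
    (by rw [← Nat.card_eq_fintype_card, hcard]) he hodd
    (centralizer ((P : Subgroup G) : Set G))
    (fun c hc => MulAction.mem_stabilizer_iff.mpr (aic_smul_eq_of_centralizes hc))
    (by rw [← Nat.card_eq_fintype_card, hcard]) (by
      intro u hu hu1 c hc
      by_contra hne
      exact hu1 (hd P c (Ne.symm hne) u hu hc))
  have hle : Nat.card (centralizer ((P : Subgroup G) : Set G)) - 1 ≤ 2 * e := by
    rcases hfeit with h1 | ⟨-, ⟨u, v, huv⟩, -⟩
    · exact h1
    · exfalso
      apply huv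
      exact Subtype.ext (aic_centralizer_comm h hPbot u.2 v.2)
  obtain ⟨P2, hP2⟩ : ∃ P2 : Subgroup G, ∀ x, x ∈ P2 ↔ x ∈ P ∧ x ^ 2 = 1 :=
    ⟨p4bSq P (fun x hx y hy => aic_sylow_comm h P hx hy), fun x => Iff.rfl⟩
  have he_le : e ≤ Nat.card P2 - 1 := by
    have hconj : ∀ d : ↥(MulAction.stabilizer G P ⊓ MulAction.stabilizer G Q : Subgroup G),
        (d : G) * t * (d : G)⁻¹ ∈ ((P2 : Set G) \ {1}) := by
      intro d
      have hdP : (d : G) • P = P := MulAction.mem_stabilizer_iff.mp (Subgroup.mem_inf.mp d.2).1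
      have h1 : (d : G) * t * (d : G)⁻¹ ∈ P := by
        have := aic_conj_mem_smul (g := (d : G)) htP
        rw [hdP] at this; exact this
      refine ⟨(hP2 _).mpr ⟨h1, ?_⟩, ?_⟩
      · have ht2 : t ^ 2 = 1 := by rw [pow_two]; exact aic_inv_sq ht
        rw [conj_pow, ht2]; group
      · intro hh
        rw [Set.mem_singleton_iff] at hh
        have : t = 1 := by
          calc t = (d : G)⁻¹ * ((d : G) * t * (d : G)⁻¹) * (d : G) := by group
            _ = 1 := by rw [hh]; group
        exact aic_inv_ne_one ht this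
    have hinj : Function.Injective
        (fun d : ↥(MulAction.stabilizer G P ⊓ MulAction.stabilizer G Q : Subgroup G) =>
          (⟨(d : G) * t * (d : G)⁻¹, hconj d⟩ : ↥((P2 : Set G) \ {1}))) := by
      intro d d' hdd
      have h1 : (d : G) * t * (d : G)⁻¹ = (d' : G) * t * (d' : G)⁻¹ := congrArg Subtype.val hdd
      have h2 : ((d' : G)⁻¹ * (d : G)) * t = t * ((d' : G)⁻¹ * (d : G)) := by
        calc ((d' : G)⁻¹ * (d : G)) * t
            = (d' : G)⁻¹ * ((d : G) * t * (d : G)⁻¹) * (d : G) := by group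
          _ = (d' : G)⁻¹ * ((d' : G) * t * (d' : G)⁻¹) * (d : G) := by rw [h1]
          _ = t * ((d' : G)⁻¹ * (d : G)) := by group
      have h3 := aic_mem_centralizer_of_comm h ht htP h2
      have hdQ : (d : G) • Q = Q := MulAction.mem_stabilizer_iff.mp (Subgroup.mem_inf.mp d.2).2
      have hd'Q : (d' : G) • Q = Q :=
        MulAction.mem_stabilizer_iff.mp (Subgroup.mem_inf.mp d'.2).2
      have h4 := hd P Q hPQ _ h3 (by rw [mul_smul, hdQ, inv_smul_eq_iff, hd'Q])
      exact Subtype.ext (inv_mul_eq_one.mp h4).symm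
    have h5 := Nat.card_le_card_of_injective _ hinj
    rw [he, Nat.card_coe_set_eq, Set.ncard_sdiff_singleton_of_mem (by exact P2.one_mem),
      ← Nat.card_coe_set_eq] at h5
    exact h5
  have hP2C : P2 ≤ centralizer ((P : Subgroup G) : Set G) := by
    intro x hx
    rw [mem_centralizer_iff]
    intro y hy
    exact aic_sylow_comm h P hy ((hP2 x).mp hx).1
  have hdvd := Subgroup.card_dvd_of_le hP2C
  have hpos : 0 < Nat.card P2 := Nat.card_pos
  have hCpos : 0 < Nat.card (centralizer ((P : Subgroup G) : Set G)) := Nat.card_pos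
  have hCle : Nat.card (centralizer ((P : Subgroup G) : Set G)) ≤ Nat.card P2 := by
    obtain ⟨k, hk⟩ := hdvd
    rcases Nat.lt_or_ge k 2 with hk2 | hk2
    · interval_cases k
      · rw [hk] at hCpos; simp at hCpos
      · rw [hk, mul_one]
    · exfalso
      have h6 : Nat.card P2 * 2 ≤ Nat.card P2 * k := Nat.mul_le_mul_left _ hk2
      rw [← hk] at h6
      have h7 : Nat.card ↥(P2 : Set G) = Nat.card P2 := rfl
      omega
  have heq := Subgroup.eq_of_le_of_card_ge hP2C hCle
  intro x hx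
  rw [← heq] at hx
  exact (hP2 x).mp hx

/-- conjugating back a square -/
theorem p4b_sq_of_conj_sq (g x : G) (hsq : (g⁻¹ * x * g) ^ 2 = 1) : x ^ 2 = 1 := by
  have h3' : (g⁻¹ * x * g) ^ 2 = g⁻¹ * x ^ 2 * g := by
    have := conj_pow (a := g⁻¹) (b := x) (i := 2)
    rw [inv_inv] at this; exact this
  rw [h3'] at hsq
  calc x ^ 2 = g * (g⁻¹ * x ^ 2 * g) * g⁻¹ := by group
    _ = 1 := by rw [hsq]; group

/-- **P4b of S2202**: the semiregular case. -/
theorem aic_semiregular_case {G : Type*} [Group G] [Finite G] (h : AbInvCent G) (P : Sylow 2 G)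
    (hnc : ¬ IsCyclic (P : Subgroup G)) (hnn : ¬ (P : Subgroup G).Normal)
    (hd : ∀ Q R : Sylow 2 G, Q ≠ R → ∀ x : G, x ∈ centralizer ((Q : Subgroup G) : Set G) →
      x • R = R → x = 1)
    (h3 : ∀ Q R T : Sylow 2 G, Q ≠ R → Q ≠ T → R ≠ T → ∀ d : G, d • Q = Q → d • R = R →
      d • T = T → d = 1) :
    AicConcl G := by
  classical
  haveI : Fact (Nat.Prime 2) := ⟨Nat.prime_two⟩
  obtain ⟨Q, hPQ⟩ : ∃ Q : Sylow 2 G, P ≠ Q := by
    by_contra hcon
    push Not at hcon
    apply hnn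
    rw [← Subgroup.normalizer_eq_top_iff, eq_top_iff]
    intro g _
    exact Sylow.smul_eq_iff_mem_normalizer.mp (hcon (g • P)).symm
  obtain ⟨t, htP, t', ht'P, ht, ht', htt'⟩ :=
    Cfsg.Agent.Helper61.exists_two_involutions_of_not_cyclic (P : Subgroup G) P.isPGroup'
      (fun x hx y hy => aic_sylow_comm h P hx hy) hnc
  obtain ⟨d0, hd0P, hd0Q, hd0c, -⟩ := aic_exists_fix_conj h hPQ ht ht' htP ht'P
  have hd0 : d0 ≠ 1 := by
    rintro rfl
    apply htt'
    simpa using hd0c
  obtain ⟨e, he⟩ : ∃ e,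
    Nat.card ↥(MulAction.stabilizer G P ⊓ MulAction.stabilizer G Q : Subgroup G) = e := ⟨_, rfl⟩
  have hN := p4b_card_stab h hd hPQ
  rw [he] at hN
  have hCpos : 0 < Nat.card (centralizer ((P : Subgroup G) : Set G)) := Nat.card_pos
  have heR : ∀ R : Sylow 2 G, R ≠ P →
      Nat.card ↥(MulAction.stabilizer G P ⊓ MulAction.stabilizer G R : Subgroup G) = e := by
    intro R hR
    have h1 := p4b_card_stab h hd (Ne.symm hR)
    rw [hN] at h1
    exact (Nat.eq_of_mul_eq_mul_left hCpos h1).symm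
  have he2 : 2 ≤ e := by
    rw [← he]
    have : (MulAction.stabilizer G P ⊓ MulAction.stabilizer G Q : Subgroup G) ≠ ⊥ := by
      intro hb
      have hmem : d0 ∈ (MulAction.stabilizer G P ⊓ MulAction.stabilizer G Q : Subgroup G) :=
        Subgroup.mem_inf.mpr ⟨hd0P, hd0Q⟩
      rw [hb, Subgroup.mem_bot] at hmem
      exact hd0 hmem
    exact (Subgroup.one_lt_card_iff_ne_bot _).mpr this
  have hcount := p4b_count hd h3 P e heR hN
  obtain ⟨hcard, htr⟩ := p4b_card_cent hd P Q hPQ e he2 hcount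
  have h2t := p4b_two_trans P Q htr
  have hZ := p4b_zassenhaus h h3 P Q hPQ h2t d0 hd0 hd0P hd0Q t t' ht ht' htP ht'P htt'
  have hC := p4b_cent_elem h hd P Q hPQ hZ hcard t ht htP
  have hPC : ∀ x ∈ P, x ∈ centralizer ((P : Subgroup G) : Set G) := by
    intro x hx
    rw [mem_centralizer_iff]
    intro y hy
    exact aic_sylow_comm h P hy hx
  have hPel : ∀ x ∈ P, x ^ 2 = 1 := fun x hx => (hC x (hPC x hx)).2
  have hCP : centralizer ((P : Subgroup G) : Set G) = (P : Subgroup G) :=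
    le_antisymm (fun x hx => (hC x hx).1) (fun x hx => hPC x hx)
  have hconjP : ∀ R : Sylow 2 G, ∃ g : G, g • P = R := fun R => MulAction.exists_smul_eq G P R
  refine ⟨?_, ?_, ?_, ?_, ?_⟩
  · intro R x hx
    obtain ⟨g, rfl⟩ := hconjP R
    have h1 : g⁻¹ * x * g ∈ P := aic_mem_smul.mp hx
    exact p4b_sq_of_conj_sq g x (hPel _ h1)
  · intro s x hs hxs hxo
    obtain ⟨R, hR⟩ := (aic_isPGroup_zpowers_of_two hs).exists_le_sylow
    have hsR : s ∈ R := hR (mem_zpowers s)
    obtain ⟨g, rfl⟩ := hconjP R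
    have hs' : g⁻¹ * s * g ∈ P := aic_mem_smul.mp hsR
    have hos' : orderOf (g⁻¹ * s * g) = 2 := by
      have := aic_orderOf_conj g⁻¹ s
      rw [inv_inv] at this
      rw [this]; exact hs
    have hcomm : (g⁻¹ * x * g) * (g⁻¹ * s * g) = (g⁻¹ * s * g) * (g⁻¹ * x * g) := by
      have hxs' : x * s = s * x := hxs
      calc (g⁻¹ * x * g) * (g⁻¹ * s * g) = g⁻¹ * (x * s) * g := by group
        _ = g⁻¹ * (s * x) * g := by rw [hxs']
        _ = (g⁻¹ * s * g) * (g⁻¹ * x * g) := by group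
    have hmem := aic_mem_centralizer_of_comm h hos' hs' hcomm
    have hx2 : x ^ 2 = 1 := p4b_sq_of_conj_sq g x (hC _ hmem).2
    have hx1 : x = 1 := by
      have h1 : orderOf x ∣ 2 := orderOf_dvd_of_pow_eq_one hx2
      have h2 : orderOf x = 1 := by
        rcases (Nat.dvd_prime Nat.prime_two).mp h1 with h | h
        · exact h
        · rw [h] at hxo; exact absurd hxo (by decide)
      exact orderOf_eq_one_iff.mp h2
    rw [hx1]; exact one_mem _
  · have hcen : center G = ⊥ := by
      rw [eq_bot_iff]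
      intro z hz
      rw [mem_bot]
      by_contra hz1
      have hzc := mem_center_iff.mp hz
      have hzP : z ∈ P :=
        (hC z (by rw [mem_centralizer_iff]; intro y _; exact hzc y)).1
      have hzQ : z ∈ Q := by
        obtain ⟨g, rfl⟩ := hconjP Q
        rw [aic_mem_smul]
        have : g⁻¹ * z * g = z := by
          rw [mul_assoc, ← hzc g]; group
        rw [this]; exact hzP
      exact hPQ (aic_sylow_eq_of_mem h hz1 hzP hzQ)
    rw [hcen, inf_bot_eq]
  · have hinv : invClosure G = ⊤ := by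
      have hPle : ∀ x ∈ P, x ∈ invClosure G := by
        intro x hx
        by_cases hx1 : x = 1
        · rw [hx1]; exact one_mem _
        · exact subset_closure (aic_orderOf_two (by rw [← pow_two]; exact hPel x hx) hx1)
      have hNle : ∀ g : G, g • P = P → g ∈ invClosure G := by
        intro g hg
        obtain ⟨d, -, -, hdi, hdc⟩ := aic_normalizer_factor h hPQ hg
        have h1 := hPle _ (hC _ hdc).1
        have : g = d * (d⁻¹ * g) := by group
        rw [this]; exact mul_mem hdi h1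
      rw [eq_top_iff]
      intro g _
      by_cases hg : g • P = P
      · exact hNle g hg
      · obtain ⟨s, hsR, hs⟩ := aic_exists_inv_mem (aic_ne_bot_of_ne hg)
        obtain ⟨w, hw, hwc, -⟩ := aic_exists_swap h (Ne.symm hg) ht hs htP hsR
        have hsw := aic_swap_smul h ht htP hw (by rw [hwc]; exact hsR)
        have h1 : (w⁻¹ * g) • P = P := by rw [mul_smul, ← hsw.1, inv_smul_smul]
        have h2 := hNle _ h1
        have hwi : w ∈ invClosure G := subset_closure hw
        have : g = w * (w⁻¹ * g) := by group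
        rw [this]; exact mul_mem hwi h2
    rw [hinv, top_sup_eq]
  · intro R
    have h1 : Nat.card (R : Subgroup G) = Nat.card (P : Subgroup G) :=
      (Sylow.card_eq_multiplicity R).trans (Sylow.card_eq_multiplicity P).symm
    have h2 : Nat.card (centralizer ((P : Subgroup G) : Set G)) = Nat.card (P : Subgroup G) :=
      congrArg (fun H : Subgroup G => Nat.card H) hCP
    rw [← hcard, h2, ← h1]

end Cfsg.Agent.Helper88
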