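import Mathlib

set_option autoImplicit false

/-! CALL LM (helper21, row S4067), piece CENT (double): a commutator subgroup whose order is the
least prime divisor of `|G|` is central. -/

namespace Cfsg.Agent.Helper88.LM

/-- CENT: a commutator subgroup of order the least prime divisor is central. -/
theorem lm_cent {G : Type*} [Group G] [Finite G]
    (hc : Nat.card (commutator G) = (Nat.card G).minFac) :
    commutator G ≤ Subgroup.center G := by
  classical
  by_cases h1 : Nat.card G = 1
  · intro x _
    haveI : Subsingleton G := (Nat.card_eq_one_iff_unique.mp h1).1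
    rw [Subgroup.mem_center_iff]
    intro g
    exact Subsingleton.elim _ _
  have hpp : (Nat.card G).minFac.Prime := Nat.minFac_prime h1
  haveI : Fact (Nat.card G).minFac.Prime := ⟨hpp⟩
  haveI hcyc : IsCyclic (commutator G) := isCyclic_of_prime_card hc
  let f : G →* MulAut (commutator G) := MulAut.conjNormal
  have hrange : Nat.card f.range ∣ Nat.card G := Subgroup.card_range_dvd f
  have haut : Nat.card (MulAut (commutator G)) = (Nat.card G).minFac - 1 := by
    rw [IsCyclic.card_mulAut, hc, Nat.totient_prime hpp]
  have hrange2 : Nat.card f.range ∣ (Nat.card G).minFac - 1 :=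
    haut ▸ Subgroup.card_subgroup_dvd_card f.range
  have h1' : Nat.card f.range = 1 := by
    by_contra hne
    have hq := Nat.minFac_prime hne
    have hqd : (Nat.card f.range).minFac ∣ Nat.card G := (Nat.minFac_dvd _).trans hrange
    have hle : (Nat.card G).minFac ≤ (Nat.card f.range).minFac :=
      Nat.minFac_le_of_dvd hq.two_le hqd
    have h2le := hpp.two_le
    have hle2 : (Nat.card f.range).minFac ≤ (Nat.card G).minFac - 1 :=
      Nat.le_of_dvd (by omega) ((Nat.minFac_dvd _).trans hrange2)
    omega
  have hbot : f.range = ⊥ := Subgroup.card_eq_one.mp h1'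
  intro x hx
  rw [Subgroup.mem_center_iff]
  intro g
  have hfg : f g = 1 := by
    have hmem : f g ∈ f.range := ⟨g, rfl⟩
    rw [hbot] at hmem
    exact Subgroup.mem_bot.mp hmem
  have h2 : ((f g ⟨x, hx⟩ : commutator G) : G) = x := by
    rw [hfg]; rfl
  have h3 : g * x * g⁻¹ = x := h2
  calc g * x = g * x * g⁻¹ * g := by group
    _ = x * g := by rw [h3]

end Cfsg.Agent.Helper88.LM
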