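import Mathlib
import Cfsg.Prelude.Def_SporadicB

/-!
# S2132 piece TRANS (helper88): the statement of S2132 transfers along a group isomorphism.
-/

set_option autoImplicit false

namespace Cfsg.Agent.Helper88

open scoped Pointwise

/-- the centre is mapped onto the centre by an isomorphism -/
theorem map_center88 {H H' : Type*} [Group H] [Group H'] (f : H ≃* H') :
    (Subgroup.center H).map f.toMonoidHom = Subgroup.center H' := by
  ext x
  simp only [Subgroup.mem_map, Subgroup.mem_center_iff]
  constructor
  · rintro ⟨y, hy, rfl⟩ g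
    have h2 := congrArg f (hy (f.symm g))
    simpa using h2
  · intro hx
    refine ⟨f.symm x, fun g => ?_, by simp⟩
    apply f.injective
    simpa using hx (f g)

/-- being a non-split double cover is invariant under isomorphism of the covering group -/
theorem nsdc_congr88 {H H' K : Type*} [Group H] [Group H'] [Group K] (f : H ≃* H')
    (h : Cfsg.IsNonsplitDoubleCover H K) : Cfsg.IsNonsplitDoubleCover H' K := by
  obtain ⟨h1, ⟨φ⟩, h3⟩ := h
  refine ⟨?_, ⟨?_⟩, ?_⟩
  · rw [← h1]
    exact (Nat.card_congr (Subgroup.centerCongr f).toEquiv).symm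
  · exact (QuotientGroup.congr (Subgroup.center H) (Subgroup.center H') f
      (map_center88 f)).symm.trans φ
  · intro L' hc'
    apply h3 (L'.comap f.toMonoidHom)
    apply Subgroup.isComplement'_of_disjoint_and_mul_eq_univ
    · rw [Subgroup.disjoint_def]
      intro x hx hxL
      have hfx : f x ∈ Subgroup.center H' := by
        rw [← map_center88 f]
        exact Subgroup.mem_map_of_mem _ hx
      have h1' : f x = 1 := Subgroup.disjoint_def.1 hc'.disjoint hfx hxL
      exact f.injective (by rw [h1', map_one])
    · apply Set.eq_univ_of_forall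
      intro g
      have hg : f g ∈ ((Subgroup.center H' : Set H') * (L' : Set H')) := by
        rw [Subgroup.IsComplement.mul_eq hc']
        exact Set.mem_univ _
      obtain ⟨c, hc, l, hl, hcl⟩ := Set.mem_mul.1 hg
      refine Set.mem_mul.2 ⟨f.symm c, ?_, f.symm l, ?_, ?_⟩
      · have hmem : f.symm c ∈ (Subgroup.center H').map f.symm.toMonoidHom :=
          Subgroup.mem_map_of_mem _ hc
        rwa [map_center88 f.symm] at hmem
      · show f (f.symm l) ∈ L'
        simpa using hl
      · apply f.injective
        simp [hcl]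

/-- PIECE TRANS -/
theorem statement_transfer {G G' : Type*} [Group G] [Group G'] (e : G ≃* G')
    (h : (∀ x y : G, orderOf x = 2 → orderOf y = 2 → IsConj x y) ∧
      ∃ t : G, orderOf t = 2 ∧ Cfsg.IsNonsplitDoubleCover
        ↥(Subgroup.centralizer ({t} : Set G)) ↥(alternatingGroup (Fin 8))) :
    (∀ x y : G', orderOf x = 2 → orderOf y = 2 → IsConj x y) ∧
      ∃ t : G', orderOf t = 2 ∧ Cfsg.IsNonsplitDoubleCover
        ↥(Subgroup.centralizer ({t} : Set G')) ↥(alternatingGroup (Fin 8)) := by
  obtain ⟨h1, t, ht, hcov⟩ := h
  refine ⟨?_, e t, ?_, ?_⟩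
  · intro x y hx hy
    have hx' : orderOf (e.symm x) = 2 := by rw [MulEquiv.orderOf_eq]; exact hx
    have hy' : orderOf (e.symm y) = 2 := by rw [MulEquiv.orderOf_eq]; exact hy
    obtain ⟨c, hc⟩ := isConj_iff.1 (h1 _ _ hx' hy')
    refine isConj_iff.2 ⟨e c, ?_⟩
    have h2 := congrArg e hc
    simpa using h2
  · rw [MulEquiv.orderOf_eq]
    exact ht
  · have hmap : (Subgroup.centralizer ({t} : Set G)).map e.toMonoidHom =
        Subgroup.centralizer ({e t} : Set G') := by
      ext x
      simp only [Subgroup.mem_map, Subgroup.mem_centralizer_iff, Set.mem_singleton_iff, forall_eq]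
      constructor
      · rintro ⟨y, hy, rfl⟩
        have h2 := congrArg e hy
        simpa using h2
      · intro hx
        refine ⟨e.symm x, ?_, by simp⟩
        apply e.injective
        simpa using hx
    exact nsdc_congr88 ((e.subgroupMap _).trans (MulEquiv.subgroupCongr hmap)) hcov

end Cfsg.Agent.Helper88
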