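import Mathlib
import Cfsg.Agent.Helper96.OHDefs
import Cfsg.Agent.Helper37.OHOFIXCONGR
import Cfsg.Agent.Helper31.OHOFIX
import Cfsg.Agent.Helper37.OHOSTD
import Cfsg.Agent.Helper88.OHOBAD
import Cfsg.Agent.Helper70.OHOSUB
import Cfsg.Agent.Helper26.OHOCDVD
import Cfsg.Agent.Helper37.OHOTYPEODD
import Cfsg.Agent.Helper88.OHOTYPEEVEN

/-!
# helper88: CALL S5993 piece EBADDIR (double), general core (`oe_bad_dir_gen`) and the version
for the standard odd form with ENDSUBCARD passed in as a hypothesis (`oe_bad_dir_of`).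

Elliptic twin of helper31's `o_bad_dir_gen` / `o_bad_dir_of` (files Helper31/OHOBADDIRcore.lean,
OHOBADDIRmid.lean): the case analysis is copied from there with `OPl` replaced by `¬ OPl`.
-/

set_option autoImplicit false
set_option linter.unusedSectionVars false
set_option linter.unusedVariables false

namespace Cfsg.Agent.Helper88.OE5993

open Module Polynomial Cfsg Cfsg.Geo
open Cfsg.Agent.Helper13.TIu Cfsg.Agent.Helper96.OH

variable {ι : Type} [Fintype ι] [DecidableEq ι] {F : Type*} [Field F] (Q : (ι → F) → F)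

/-- the predicate "elliptic nondegenerate `m`-space" is stable under an injective isometry -/
theorem oebd_pred_map (hQ : IsNondegenerateQuadraticForm Q) (T : Module.End F (ι → F))
    (hT : OPres Q T) (hinj : Function.Injective T) (m : ℕ) (W : Submodule F (ι → F))
    (hW : finrank F W = m ∧ ONd Q W ∧ ¬ OPl Q W) :
    finrank F (W.map T) = m ∧ ONd Q (W.map T) ∧ ¬ OPl Q (W.map T) := by
  have hfin : ∀ U : Submodule F (ι → F), finrank F (U.map T) = finrank F U := fun U =>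
    (Submodule.equivMapOfInjective T hinj U).finrank_eq.symm
  have hpol : ∀ u v, QuadraticMap.polar Q (T u) (T v) = QuadraticMap.polar Q u v := by
    intro u v
    unfold QuadraticMap.polar
    rw [← map_add, hT, hT, hT]
  obtain ⟨h1, h2, h3⟩ := hW
  refine ⟨by rw [hfin, h1], ?_, ?_⟩
  · rintro w' ⟨w, hw, rfl⟩ hw0
    have hw0' : w ≠ 0 := by
      rintro rfl
      exact hw0 (map_zero T)
    obtain ⟨⟨x, hx, hx1⟩, ⟨y, hy, hy1⟩⟩ := h2 w hw hw0'
    exact ⟨⟨T x, Submodule.mem_map_of_mem hx, by rw [hpol]; exact hx1⟩,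
      ⟨T y, Submodule.mem_map_of_mem hy, by rw [hpol]; exact hy1⟩⟩
  · rintro ⟨U', hU'W, hU's, hU'd⟩
    apply h3
    have hmap : (U'.comap T ⊓ W).map T = U' := by
      apply le_antisymm
      · rintro _ ⟨u, hu, rfl⟩
        exact hu.1
      · intro u' hu'
        obtain ⟨w, hw, rfl⟩ := hU'W hu'
        exact ⟨w, ⟨hu', hw⟩, rfl⟩
    refine ⟨U'.comap T ⊓ W, inf_le_right, ?_, ?_⟩
    · intro u hu
      rw [← hT u]
      exact hU's (T u) hu.1
    · rw [← hfin (U'.comap T ⊓ W), hmap, hU'd, hfin]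

/-- EBADDIR, general core. -/
theorem oe_bad_dir_gen [Fintype F] (hQ : IsNondegenerateQuadraticForm Q) (n m r i c : ℕ)
    [Fact r.Prime] (hrF : (r : F) ≠ 0) (hi0 : 0 < i) (hc : c = if Even i then i else 2 * i)
    (hn : Fintype.card ι = n) (hnodd : Odd n) (hme : Even m) (hm2 : 2 ≤ m) (hmn : m < n)
    (hΩ : r ∣ Nat.card {W : Submodule F (ι → F) // finrank F W = m ∧ ONd Q W ∧ ¬ OPl Q W})
    (hbad : c ≤ n → ∃ T : Module.End F (ι → F), OPres Q T ∧ T ^ r = 1 ∧
      finrank F (LinearMap.ker (T - 1)) = n % c ∧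
      ∃ W : Submodule F (ι → F), (finrank F W = m ∧ ONd Q W ∧ ¬ OPl Q W) ∧ W.map T ≤ W)
    (hcdvd : ∀ T : Module.End F (ι → F), OPres Q T → T ^ r = 1 →
      ∀ N : Submodule F (ι → F), N.map T ≤ N → ONd Q N →
      c ∣ finrank F N - finrank F (N ⊓ LinearMap.ker (T - 1) : Submodule F (ι → F)))
    (hndsub : ∀ K : Submodule F (ι → F), ONd Q K → finrank F K < c →
      ∀ W₀ : Submodule F (ι → F), ((finrank F W₀ = m ∧ ONd Q W₀ ∧ ¬ OPl Q W₀) ∧ W₀ ≤ K) →
      ¬ r ∣ Nat.card {W : Submodule F (ι → F) //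
        (finrank F W = m ∧ ONd Q W ∧ ¬ OPl Q W) ∧ W ≤ K})
    (hsub : ∀ K : Submodule F (ι → F), ONd Q K → ∀ e : ℕ, Even e → 0 < e → e < finrank F K →
      ∀ b : Prop, ∃ X : Submodule F (ι → F), X ≤ K ∧ ONd Q X ∧ finrank F X = e ∧ (OPl Q X ↔ b))
    (htodd : ∀ T : Module.End F (ι → F), OPres Q T → T ^ r = 1 → Odd i →
      ∀ N : Submodule F (ι → F), N.map T ≤ N → ONd Q N → N ⊓ LinearMap.ker (T - 1) = ⊥ →
      OPl Q N)
    (hteven : ∀ T : Module.End F (ι → F), OPres Q T → T ^ r = 1 → Even i →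
      ∀ N : Submodule F (ι → F), N.map T ≤ N → ONd Q N → N ⊓ LinearMap.ker (T - 1) = ⊥ →
      (OPl Q N ↔ Even (finrank F N / i))) :
    c ≤ m ∧ m % c < n % c ∧ (0 < m % c ∨ (Even i ∧ Odd (m / i))) := by
  classical
  have hrpr : r.Prime := Fact.out
  have hcpos : 0 < c := by
    rw [hc]
    split_ifs <;> omega
  have hceven : 2 ∣ c := by
    rw [hc]
    split_ifs with hie
    · exact hie.two_dvd
    · exact dvd_mul_right 2 i
  have hfV : finrank F (ι → F) = n := by
    rw [Module.finrank_fintype_fun_eq_card, hn]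
  have hkodd : n % c % 2 = 1 := by
    rw [Nat.mod_mod_of_dvd _ hceven]
    exact Nat.odd_iff.1 hnodd
  have hmceven : m % c % 2 = 0 := by
    rw [Nat.mod_mod_of_dvd _ hceven]
    exact Nat.even_iff.1 hme
  have hklt : n % c < c := Nat.mod_lt _ hcpos
  have hana : ∀ T : Module.End F (ι → F), OPres Q T → T ^ r = 1 →
      ∀ W : Submodule F (ι → F), (finrank F W = m ∧ ONd Q W ∧ ¬ OPl Q W) → W.map T ≤ W →
      c ∣ m - finrank F (W ⊓ LinearMap.ker (T - 1) : Submodule F (ι → F)) := by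
    intro T hT hTr W hW hWT
    have h3 := hcdvd T hT hTr W hWT hW.2.1
    rwa [hW.1] at h3
  -- step 1
  have hcm : c ≤ m := by
    by_contra hlt
    rw [not_le] at hlt
    obtain ⟨K, hK, hKc, W₀, hW₀, hrK⟩ : ∃ K : Submodule F (ι → F), ONd Q K ∧ finrank F K < c ∧
        ∃ W₀ : Submodule F (ι → F), ((finrank F W₀ = m ∧ ONd Q W₀ ∧ ¬ OPl Q W₀) ∧ W₀ ≤ K) ∧
        r ∣ Nat.card {W : Submodule F (ι → F) //
          (finrank F W = m ∧ ONd Q W ∧ ¬ OPl Q W) ∧ W ≤ K} := by
      by_cases hcn : c ≤ n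
      · obtain ⟨T, hT, hTr, hfix, W₀, hW₀, hW₀T⟩ := hbad hcn
        have hin : ∀ W : Submodule F (ι → F), (finrank F W = m ∧ ONd Q W ∧ ¬ OPl Q W) →
            W.map T ≤ W → W ≤ LinearMap.ker (T - 1) := by
          intro W hW hWT
          have h4 := hana T hT hTr W hW hWT
          have h5 : finrank F (W ⊓ LinearMap.ker (T - 1) : Submodule F (ι → F)) ≤ finrank F W :=
            Submodule.finrank_mono inf_le_left
          have h6 := Nat.eq_zero_of_dvd_of_lt h4 (by omega)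
          have h7 : W ⊓ LinearMap.ker (T - 1) = W :=
            Submodule.eq_of_le_of_finrank_eq inf_le_left (by omega)
          rw [← h7]
          exact inf_le_right
        have hKnd : ONd Q (LinearMap.ker (T - 1)) := by
          have h := (Cfsg.Agent.Helper31.OH5992.o_fix Q hQ T hT r hrpr.pos hrF hTr ⊤ le_top
            (ond_top Q hQ)).1
          rwa [top_inf_eq] at h
        refine ⟨LinearMap.ker (T - 1), hKnd, by rw [hfix]; exact hklt, W₀,
          ⟨hW₀, hin W₀ hW₀ hW₀T⟩, ?_⟩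
        have hinj : Function.Injective T := by
          intro u v huv
          have h : T ^ (r - 1) * T = 1 := by
            rw [← pow_succ, Nat.sub_add_cancel hrpr.pos, hTr]
          have hu := congrArg (fun S : Module.End F (ι → F) => S u) h
          have hv := congrArg (fun S : Module.End F (ι → F) => S v) h
          simp only [Module.End.mul_apply, Module.End.one_apply] at hu hv
          rw [← hu, ← hv, huv]
        have h1 := Cfsg.Agent.Helper37.OH5992.o_fix_congr T r hTr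
          (fun W => finrank F W = m ∧ ONd Q W ∧ ¬ OPl Q W)
          (fun W hW => oebd_pred_map Q hQ T hT hinj m W hW)
        have h2' := (h1.dvd_iff (dvd_refl r)).mp hΩ
        have h3 : Nat.card {W : Submodule F (ι → F) //
            (finrank F W = m ∧ ONd Q W ∧ ¬ OPl Q W) ∧ W.map T ≤ W} =
            Nat.card {W : Submodule F (ι → F) //
            (finrank F W = m ∧ ONd Q W ∧ ¬ OPl Q W) ∧ W ≤ LinearMap.ker (T - 1)} := by
          apply Nat.card_congr
          apply Equiv.subtypeEquivRight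
          intro W
          constructor
          · rintro ⟨hW, hWT⟩
            exact ⟨hW, hin W hW hWT⟩
          · rintro ⟨hW, hWK⟩
            refine ⟨hW, ?_⟩
            rintro _ ⟨w, hw, rfl⟩
            have h8 := hWK hw
            rw [LinearMap.mem_ker, LinearMap.sub_apply, Module.End.one_apply, sub_eq_zero] at h8
            rw [h8]
            exact hw
        rw [← h3]
        exact h2'
      · rw [not_le] at hcn
        obtain ⟨X, -, hXnd, hXdim, hXpl⟩ := hsub ⊤ (ond_top Q hQ) m hme (by omega)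
          (by rw [finrank_top, hfV]; exact hmn) False
        refine ⟨⊤, ond_top Q hQ, by rw [finrank_top, hfV]; exact hcn, X,
          ⟨⟨hXdim, hXnd, fun h => hXpl.1 h⟩, le_top⟩, ?_⟩
        have h3 : Nat.card {W : Submodule F (ι → F) //
            (finrank F W = m ∧ ONd Q W ∧ ¬ OPl Q W) ∧ W ≤ ⊤} =
            Nat.card {W : Submodule F (ι → F) // finrank F W = m ∧ ONd Q W ∧ ¬ OPl Q W} := by
          apply Nat.card_congr
          apply Equiv.subtypeEquivRight
          intro W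
          exact and_iff_left le_top
        rw [h3]
        exact hΩ
    exact hndsub K hK hKc W₀ hW₀ hrK
  -- step 2
  have hcn : c ≤ n := by omega
  obtain ⟨T, hT, hTr, hfix, W, hW, hWT⟩ := hbad hcn
  have h4 := hana T hT hTr W hW hWT
  have h5 : finrank F (W ⊓ LinearMap.ker (T - 1) : Submodule F (ι → F)) ≤ finrank F W :=
    Submodule.finrank_mono inf_le_left
  have h6 : finrank F (W ⊓ LinearMap.ker (T - 1) : Submodule F (ι → F)) ≤
      finrank F (LinearMap.ker (T - 1)) := Submodule.finrank_mono inf_le_right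
  rw [hW.1] at h5
  rw [hfix] at h6
  obtain ⟨j, hj⟩ := h4
  have h7 : m = finrank F (W ⊓ LinearMap.ker (T - 1) : Submodule F (ι → F)) + c * j := by omega
  have h8 : m % c = finrank F (W ⊓ LinearMap.ker (T - 1) : Submodule F (ι → F)) := by
    conv_lhs => rw [h7]
    rw [Nat.add_mul_mod_self_left]
    exact Nat.mod_eq_of_lt (by omega)
  refine ⟨hcm, ?_, ?_⟩
  · have h9 : m % c ≤ n % c := by
      rw [h8]
      exact h6
    omega
  · by_cases h0 : 0 < m % c
    · exact Or.inl h0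
    · right
      have hf0 : finrank F (W ⊓ LinearMap.ker (T - 1) : Submodule F (ι → F)) = 0 := by omega
      have hbot : W ⊓ LinearMap.ker (T - 1) = ⊥ := Submodule.finrank_eq_zero.1 hf0
      by_cases hie : Even i
      · refine ⟨hie, ?_⟩
        have h9 := hteven T hT hTr hie W hWT hW.2.1 hbot
        rw [hW.1] at h9
        exact Nat.not_even_iff_odd.mp (fun hev => hW.2.2 (h9.2 hev))
      · exact absurd (htodd T hT hTr (Nat.not_even_iff_odd.mp hie) W hWT hW.2.1 hbot) hW.2.2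

/-- EBADDIR from ENDSUBCARD (for the standard odd form). -/
theorem oe_bad_dir_of [Fintype F] (p : ℕ) [Fact p.Prime] [CharP F p] (h2 : (2 : F) ≠ 0) (d m : ℕ)
    (hme : Even m) (hm2 : 2 ≤ m) (hmn : m ≤ 2 * d) (r : ℕ) [Fact r.Prime] (hr2 : 2 < r)
    (hrp : r ≠ p)
    (hΩ : r ∣ Nat.card {W : Submodule F (Unit ⊕ (Fin d ⊕ Fin d) → F) //
      finrank F W = m ∧ ONd (Cfsg.quadFormOdd d F) W ∧ ¬ OPl (Cfsg.quadFormOdd d F) W})
    (i c : ℕ) (hi : i = orderOf ((Fintype.card F : ℕ) : ZMod r))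
    (hc : c = if Even i then i else 2 * i)
    (hL : ∀ g : Matrix.GeneralLinearGroup (Unit ⊕ (Fin d ⊕ Fin d)) F,
      g ∈ Cfsg.isometryGroup F (Cfsg.quadFormOdd d F) → orderOf g = r →
      ∃ W : Submodule F (Unit ⊕ (Fin d ⊕ Fin d) → F),
        (finrank F W = m ∧ ONd (Cfsg.quadFormOdd d F) W ∧ ¬ OPl (Cfsg.quadFormOdd d F) W) ∧
        W.map (Matrix.toLin'
          (g : Matrix (Unit ⊕ (Fin d ⊕ Fin d)) (Unit ⊕ (Fin d ⊕ Fin d)) F)) ≤ W)
    (hndsub : ∀ K : Submodule F (Unit ⊕ (Fin d ⊕ Fin d) → F), ONd (Cfsg.quadFormOdd d F) K →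
      finrank F K < c → ∀ W₀ : Submodule F (Unit ⊕ (Fin d ⊕ Fin d) → F),
      ((finrank F W₀ = m ∧ ONd (Cfsg.quadFormOdd d F) W₀ ∧ ¬ OPl (Cfsg.quadFormOdd d F) W₀) ∧
        W₀ ≤ K) →
      ¬ r ∣ Nat.card {W : Submodule F (Unit ⊕ (Fin d ⊕ Fin d) → F) //
        (finrank F W = m ∧ ONd (Cfsg.quadFormOdd d F) W ∧ ¬ OPl (Cfsg.quadFormOdd d F) W) ∧
          W ≤ K}) :
    c ≤ m ∧ m % c < (2 * d + 1) % c ∧ (0 < m % c ∨ (Even i ∧ Odd (m / i))) := by
  classical
  have hrpr : r.Prime := Fact.out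
  obtain ⟨hrF, hrq⟩ := Cfsg.Agent.Helper13.TIsp.ti_char_facts (F := F) p r hrp
  obtain ⟨hi0, hir⟩ := Cfsg.Agent.Helper51.TI5955.ord_pos r (Fintype.card F) hrq
  rw [← hi] at hi0 hir
  have hQ := Cfsg.Agent.Helper37.OH5992.o_std_nondeg (F := F) h2 d
  have hcard : Fintype.card (Unit ⊕ (Fin d ⊕ Fin d)) = 2 * d + 1 := by
    simp
    ring
  refine oe_bad_dir_gen (Cfsg.quadFormOdd d F) hQ (2 * d + 1) m r i c hrF hi0 hc hcard ⟨d, rfl⟩
    hme hm2 (by omega) hΩ ?_
    (fun T hT hTr N hNT hN =>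
      Cfsg.Agent.Helper26.OH5992.o_cdvd (Cfsg.quadFormOdd d F) hQ h2 T hT r hr2 hrF hTr i c hi hc
        N hNT hN)
    hndsub
    (fun K hK e hev he0 heK b =>
      Cfsg.Agent.Helper70.OH5992.o_sub (Cfsg.quadFormOdd d F) hQ h2 K hK e hev he0 heK b)
    (fun T hT hTr hio N hNT hN hNk =>
      Cfsg.Agent.Helper37.OH5992.o_type_odd (Cfsg.quadFormOdd d F) hQ h2 T hT r hr2 hrF hTr
        (hi ▸ hio) N hNT hN hNk)
    (fun T hT hTr hie N hNT hN hNk => by
      rw [hi]
      exact Cfsg.Agent.Helper88.OH5992.o_type_even (Cfsg.quadFormOdd d F) hQ h2 T hT r hr2 hrF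
        hTr (hi ▸ hie) N hNT hN hNk)
  intro hcn
  obtain ⟨g, hg, hgr, hgfix⟩ := Cfsg.Agent.Helper88.OH5992.o_bad p h2 d r hr2 hrp i c hi hc hcn
  refine ⟨Matrix.toLin'
    (g : Matrix (Unit ⊕ (Fin d ⊕ Fin d)) (Unit ⊕ (Fin d ⊕ Fin d)) F), ?_, ?_, hgfix, hL g hg hgr⟩
  · intro v
    rw [Matrix.toLin'_apply]
    exact hg v v
  · rw [← Matrix.toLin'_pow]
    have h1 : g ^ r = 1 := by
      rw [← hgr]
      exact pow_orderOf_eq_one g
    have h3 : (g : Matrix (Unit ⊕ (Fin d ⊕ Fin d)) (Unit ⊕ (Fin d ⊕ Fin d)) F) ^ r = 1 := by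
      rw [← Units.val_pow_eq_pow_val, h1]
      rfl
    rw [h3, Matrix.toLin'_one]
    rfl

end Cfsg.Agent.Helper88.OE5993
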