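import Mathlib
import Cfsg.Agent.Helper95.OSylDefs
import Cfsg.Agent.Helper45.Spinor

set_option autoImplicit false

/-!
# Piece SD of CALL S4629: the determinant of an isometry is the product of its two spinor signs.
-/

namespace Cfsg.Agent.Helper88

open Matrix Cfsg
open Cfsg.Agent.Helper95.OSyl

universe u

variable {F : Type u} [Field F] {k r : ℕ}

theorem osyl_spin_det {ι : Type} [Fintype ι] [DecidableEq ι] [Fintype F] (Q : QuadraticForm F (ι → F))
    (h2 : (2 : F) ≠ 0) (hQ : (QuadraticMap.polarBilin Q).Nondegenerate) (hcard : 2 ≤ Fintype.card ι)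
    (ε : F) (hε : ¬ IsSquare ε) (g : ↥(isometryGroup F ⇑Q)) :
    ((g : GL ι F) : Matrix ι ι F).det =
      (((Cfsg.Agent.Helper45.spin ⇑Q 1 g * Cfsg.Agent.Helper45.spin ⇑Q ε g : ℤˣ) : ℤ) : F) := by
  classical
  let φ : ↥(isometryGroup F ⇑Q) →* Fˣ :=
    Matrix.GeneralLinearGroup.det.comp (isometryGroup F ⇑Q).subtype
  let ψ : ↥(isometryGroup F ⇑Q) →* Fˣ :=
    (Units.map ((Int.castRingHom F : ℤ →+* F) : ℤ →* F)).comp
      (Cfsg.Agent.Helper45.spin ⇑Q 1 * Cfsg.Agent.Helper45.spin ⇑Q ε)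
  have hφψ : φ = ψ := by
    apply MonoidHom.eq_of_eqOn_dense (Cfsg.Agent.Helper45.reflGroup_eq_top Q h2 hQ)
    rintro _ ⟨v, hv, rfl⟩
    apply Units.ext
    have h1 : ((φ (Cfsg.Agent.Helper45.reflO Q v hv) : Fˣ) : F) = -1 := by
      change (Cfsg.reflectionMatrix ⇑Q v).det = -1
      exact Helper13.reflection_det Q v hv
    have h3 : ((ψ (Cfsg.Agent.Helper45.reflO Q v hv) : Fˣ) : F) = -1 := by
      change (((Cfsg.Agent.Helper45.spin ⇑Q 1 (Cfsg.Agent.Helper45.reflO Q v hv) *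
        Cfsg.Agent.Helper45.spin ⇑Q ε (Cfsg.Agent.Helper45.reflO Q v hv) : ℤˣ) : ℤ) : F) = -1
      by_cases hsq : IsSquare (Q v)
      · rw [Cfsg.Agent.Helper45.spin_one_reflO_sq Q h2 v hv hsq,
          Cfsg.Agent.Helper45.spin_eps_reflO_sq Q h2 ε hε v hv hsq]
        simp
      · rw [Cfsg.Agent.Helper45.spin_one_reflO_nsq Q h2 v hv hsq,
          Cfsg.Agent.Helper45.spin_eps_reflO_nsq Q h2 ε hε v hv hsq]
        simp
    rw [h1, h3]
  have h := congrArg (fun f : ↥(isometryGroup F ⇑Q) →* Fˣ => ((f g : Fˣ) : F)) hφψ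
  exact h

end Cfsg.Agent.Helper88
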