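import Mathlib
import Cfsg.Agent.Helper95.OTSDefs

set_option autoImplicit false

/-!
# CALL OTS (helper95, S5972), piece TWOELT (helper88): for `q ≡ 3 (mod 4)` an involution of `Ω`
whose `(-1)`-eigenspace is an anisotropic plane.
-/

namespace Cfsg.Agent.Helper88.OTS

open Module Polynomial
open Cfsg.Agent.Helper13.TIsp Cfsg.Agent.Helper42.SpGroup Cfsg.Agent.Helper42.SpModels
open Cfsg.Agent.Helper95.OTS

section concrete

/-- the value of the odd form on `a e₀ + b (e₁ + f₁)` -/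
theorem twoelt_quad {F : Type*} [Field F] (d : ℕ) (i0 : Fin d) (a b : F) :
    Cfsg.quadFormOdd d F (a • (Pi.single (Sum.inl ()) 1 : Unit ⊕ (Fin d ⊕ Fin d) → F) +
      b • ((Pi.single (Sum.inr (Sum.inl i0)) 1 : Unit ⊕ (Fin d ⊕ Fin d) → F) +
        Pi.single (Sum.inr (Sum.inr i0)) 1)) = a ^ 2 + b ^ 2 := by
  classical
  obtain ⟨w, hw⟩ : ∃ w : Unit ⊕ (Fin d ⊕ Fin d) → F,
      w = a • (Pi.single (Sum.inl ()) 1 : Unit ⊕ (Fin d ⊕ Fin d) → F) +
      b • ((Pi.single (Sum.inr (Sum.inl i0)) 1 : Unit ⊕ (Fin d ⊕ Fin d) → F) +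
        Pi.single (Sum.inr (Sum.inr i0)) 1) := ⟨_, rfl⟩
  rw [← hw]
  unfold Cfsg.quadFormOdd
  have h1 : ∀ i : Fin d, w (Sum.inr (Sum.inl i)) = if i = i0 then b else 0 := by
    intro i
    rw [hw]
    by_cases hi : i = i0
    · subst hi
      simp
    · simp [hi]
  have h2 : ∀ i : Fin d, w (Sum.inr (Sum.inr i)) = if i = i0 then b else 0 := by
    intro i
    rw [hw]
    by_cases hi : i = i0
    · subst hi
      simp
    · simp [hi]
  have h0 : w (Sum.inl ()) = a := by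
    rw [hw]
    simp
  rw [h0, Finset.sum_congr rfl (fun i _ => by rw [h1 i, h2 i]), Finset.sum_eq_single i0]
  · simp
    ring
  · intro i _ hi
    simp [hi]
  · intro h
    exact absurd (Finset.mem_univ _) h

theorem otwo_elt {F : Type*} [Field F] [Fintype F] (hq3 : Fintype.card F % 4 = 3) (d : ℕ)
    (hd : 1 ≤ d) :
    ∃ g : ↥(Cfsg.isometryGroup F (Cfsg.quadFormOdd d F)),
      g ∈ Cfsg.Omega F (Cfsg.quadFormOdd d F) ∧ g ^ 2 = 1 ∧
      2 ≤ finrank F (LinearMap.range (oEnd g - 1)) ∧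
      ∀ v ∈ LinearMap.range (oEnd g - 1), Cfsg.quadFormOdd d F v = 0 → v = 0 := by
  classical
  have hm1 : ¬ IsSquare (-1 : F) := fun h => (FiniteField.isSquare_neg_one_iff.mp h) hq3
  have h2 : (2 : F) ≠ 0 := by
    intro h
    apply hm1
    have h1 : (-1 : F) = 1 := by linear_combination -h
    rw [h1]
    exact IsSquare.one
  have haniso : ∀ s t : F, s ^ 2 + t ^ 2 = 0 → s = 0 ∧ t = 0 := by
    intro s t hst
    by_cases ht : t = 0
    · rw [ht] at hst
      simp at hst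
      exact ⟨hst, ht⟩
    · exfalso
      apply hm1
      refine ⟨s / t, ?_⟩
      field_simp
      linear_combination -hst
  obtain ⟨Q, hQdef⟩ : ∃ Q : QuadraticForm F (Unit ⊕ (Fin d ⊕ Fin d) → F),
      Q = Cfsg.Agent.Helper43.oddQF d F := ⟨_, rfl⟩
  obtain ⟨e0, he0def⟩ : ∃ e0 : Unit ⊕ (Fin d ⊕ Fin d) → F, e0 = Pi.single (Sum.inl ()) 1 :=
    ⟨_, rfl⟩
  have i0 : Fin d := ⟨0, hd⟩
  obtain ⟨u2, hu2def⟩ : ∃ u2 : Unit ⊕ (Fin d ⊕ Fin d) → F,
      u2 = Pi.single (Sum.inr (Sum.inl i0)) 1 + Pi.single (Sum.inr (Sum.inr i0)) 1 :=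
    ⟨_, rfl⟩
  have hQ1 : ∀ a b : F, Q (a • e0 + b • u2) = a ^ 2 + b ^ 2 := by
    intro a b
    rw [hQdef, he0def, hu2def]
    exact twoelt_quad d i0 a b
  have hQe : Q e0 = 1 := by
    have h := hQ1 1 0
    simpa using h
  have hQu : Q u2 = 1 := by
    have h := hQ1 0 1
    simpa using h
  have hpol : QuadraticMap.polar ⇑Q e0 u2 = 0 := by
    have h := hQ1 1 1
    rw [one_smul, one_smul] at h
    unfold QuadraticMap.polar
    rw [h, hQe, hQu]
    ring
  have hpol' : QuadraticMap.polar ⇑Q u2 e0 = 0 := by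
    rw [QuadraticMap.polar_comm]
    exact hpol
  have hse : QuadraticMap.polar ⇑Q e0 e0 = 2 := by
    rw [QuadraticMap.polar_self, hQe]
    simp
  have hsu : QuadraticMap.polar ⇑Q u2 u2 = 2 := by
    rw [QuadraticMap.polar_self, hQu]
    simp
  have he0 : Q e0 ≠ 0 := by
    rw [hQe]
    exact one_ne_zero
  have hu2 : Q u2 ≠ 0 := by
    rw [hQu]
    exact one_ne_zero
  obtain ⟨g, hg⟩ : ∃ g : ↥(Cfsg.isometryGroup F ⇑Q),
      g = Cfsg.Agent.Helper45.reflO Q e0 he0 * Cfsg.Agent.Helper45.reflO Q u2 hu2 := ⟨_, rfl⟩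
  have hmv : ∀ x, Cfsg.Agent.Helper45.mv ⇑Q g x =
      x - QuadraticMap.polar ⇑Q u2 x • u2 - QuadraticMap.polar ⇑Q e0 x • e0 := by
    intro x
    rw [hg, Cfsg.Agent.Helper45.mv_mul, Cfsg.Agent.Helper45.mv_reflO,
      Cfsg.Agent.Helper45.mv_reflO, hQe, hQu, inv_one, one_mul, one_mul,
      QuadraticMap.polar_sub_right, QuadraticMap.polar_smul_right, hpol, smul_eq_mul, mul_zero,
      sub_zero]
  have hQF : ⇑Q = Cfsg.quadFormOdd d F := by
    rw [hQdef]
    rfl
  have hend : ∀ (g' : ↥(Cfsg.isometryGroup F (Cfsg.quadFormOdd d F))) (x : _),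
      (oEnd g' - 1) x = Cfsg.Agent.Helper45.mv (Cfsg.quadFormOdd d F) g' x - x := by
    intro g' x
    rw [LinearMap.sub_apply, Module.End.one_apply]
    rfl
  subst hQdef
  have hrange : ∀ x, (oEnd g - 1) x =
      (-QuadraticMap.polar ⇑(Cfsg.Agent.Helper43.oddQF d F) e0 x) • e0 +
        (-QuadraticMap.polar ⇑(Cfsg.Agent.Helper43.oddQF d F) u2 x) • u2 := by
    intro x
    rw [hend g x]
    have h := hmv x
    rw [show Cfsg.Agent.Helper45.mv (Cfsg.quadFormOdd d F) g x =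
      Cfsg.Agent.Helper45.mv ⇑(Cfsg.Agent.Helper43.oddQF d F) g x from rfl, h]
    module
  have hcard : 2 ≤ Fintype.card (Unit ⊕ (Fin d ⊕ Fin d)) := by
    rw [Fintype.card_sum, Fintype.card_sum, Fintype.card_fin, Fintype.card_unit]
    omega
  have hg2 : g ^ 2 = 1 := by
    apply Cfsg.Agent.Helper45.ext_mv (Cfsg.Agent.Helper43.oddQF d F)
    intro x
    rw [pow_two, Cfsg.Agent.Helper45.mv_mul, Cfsg.Agent.Helper45.mv_one, hmv, hmv x]
    simp only [QuadraticMap.polar_sub_right, QuadraticMap.polar_smul_right, hpol, hpol', hse, hsu,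
      smul_eq_mul, mul_zero, sub_zero]
    module
  refine ⟨g, ?_, ?_, ?_, ?_⟩
  · have h := Cfsg.Agent.Helper45.mem_omega_prod_refl (Cfsg.Agent.Helper43.oddQF d F) h2
      (Cfsg.Agent.Helper43.PrimeOrdO.oddQF_nondeg h2 d) hcard [e0, u2]
      (by
        intro v hv
        simp only [List.mem_cons, List.not_mem_nil, or_false] at hv
        rcases hv with rfl | rfl
        · exact he0
        · exact hu2)
      g (by
        rw [hg]
        simp [Cfsg.Agent.Helper45.reflO_coe])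
    refine h.mpr ⟨by simp, ?_⟩
    simp [hQe, hQu]
  · exact hg2
  · have hli : LinearIndependent F ![e0, u2] := by
      rw [LinearIndependent.pair_iff]
      intro s t hst
      apply haniso
      rw [← hQ1 s t, hst]
      exact map_zero _
    have hmem : ∀ j : Fin 2, ![e0, u2] j ∈ LinearMap.range (oEnd g - 1) := by
      intro j
      fin_cases j
      · refine ⟨(-(2 : F)⁻¹) • e0, ?_⟩
        rw [hrange]
        simp only [QuadraticMap.polar_smul_right, hse, hpol', smul_eq_mul, mul_zero, neg_zero,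
          zero_smul, add_zero]
        show (-(-(2 : F)⁻¹ * 2)) • e0 = e0
        rw [neg_mul, neg_neg, inv_mul_cancel₀ h2, one_smul]
      · refine ⟨(-(2 : F)⁻¹) • u2, ?_⟩
        rw [hrange]
        simp only [QuadraticMap.polar_smul_right, hsu, hpol, smul_eq_mul, mul_zero, neg_zero,
          zero_smul, zero_add]
        show (-(-(2 : F)⁻¹ * 2)) • u2 = u2
        rw [neg_mul, neg_neg, inv_mul_cancel₀ h2, one_smul]
    have hspan : Submodule.span F (Set.range ![e0, u2]) ≤ LinearMap.range (oEnd g - 1) := by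
      rw [Submodule.span_le]
      rintro _ ⟨j, rfl⟩
      exact hmem j
    have h1 := finrank_span_eq_card hli
    have h3 := Submodule.finrank_mono hspan
    rw [h1, Fintype.card_fin] at h3
    exact h3
  · rintro v ⟨x, rfl⟩ hv
    rw [hrange] at hv ⊢
    have hv' := hQ1 (-QuadraticMap.polar ⇑(Cfsg.Agent.Helper43.oddQF d F) e0 x)
      (-QuadraticMap.polar ⇑(Cfsg.Agent.Helper43.oddQF d F) u2 x)
    have hv'' : (Cfsg.Agent.Helper43.oddQF d F)
        ((-QuadraticMap.polar ⇑(Cfsg.Agent.Helper43.oddQF d F) e0 x) • e0 +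
          (-QuadraticMap.polar ⇑(Cfsg.Agent.Helper43.oddQF d F) u2 x) • u2) = 0 := hv
    rw [hv''] at hv'
    obtain ⟨ha, hb⟩ := haniso _ _ hv'.symm
    rw [ha, hb, zero_smul, zero_smul, add_zero]

end concrete

end Cfsg.Agent.Helper88.OTS
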