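import Cfsg.Agent.Helper99.RuDefs

/-!
# S2522 piece BASE2 (helper88): the two-dimensional case of the factorisation into two
regular unipotents.
-/

set_option autoImplicit false
set_option linter.unusedSimpArgs false

namespace Cfsg.Agent.Helper88

open Cfsg.Agent.Helper99 Module

universe u v

/-- A nonzero polynomial of degree at most 3 over a field with at least four elements has a
non-root. -/
theorem exists_nonroot88 {K : Type u} [Field K] (hK : 4 ≤ Cardinal.mk K) (P : Polynomial K)
    (hP : P ≠ 0) (hdeg : P.natDegree ≤ 3) : ∃ t : K, P.eval t ≠ 0 := by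
  classical
  obtain ⟨a, b, c, d, hab, hac, had, hbc, hbd, hcd⟩ := ru_four hK
  by_contra hcon
  push Not at hcon
  have hsub : ({a, b, c, d} : Finset K) ⊆ P.roots.toFinset := by
    intro t _
    rw [Multiset.mem_toFinset, Polynomial.mem_roots hP]
    exact hcon t
  have h4 : ({a, b, c, d} : Finset K).card = 4 := by
    rw [Finset.card_insert_of_notMem, Finset.card_insert_of_notMem,
      Finset.card_insert_of_notMem, Finset.card_singleton]
    · simpa using hcd
    · simp [hbc, hbd]
    · simp [hab, hac, had]
  have h5 : P.roots.toFinset.card ≤ P.natDegree :=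
    (Multiset.toFinset_card_le _).trans (Polynomial.card_roots' P)
  have := Finset.card_le_card hsub
  omega

section
variable {K : Type u} [Field K] {X : Type v} [AddCommGroup X] [Module K X]

/-- coordinates with respect to a basis indexed by `Fin 2` separate points -/
theorem coord_ext88 (c : Basis (Fin 2) K X) (u w : X) (h0 : c.coord 0 u = c.coord 0 w)
    (h1 : c.coord 1 u = c.coord 1 w) : u = w := by
  apply c.ext_elem
  intro i
  fin_cases i
  · exact h0
  · exact h1

/-- a nonvanishing 2x2 determinant of coordinates gives linear independence -/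
theorem coord_indep88 (c : Basis (Fin 2) K X) (u w : X)
    (hne : c.coord 0 u * c.coord 1 w - c.coord 1 u * c.coord 0 w ≠ 0) :
    LinearIndependent K ![u, w] := by
  rw [LinearIndependent.pair_iff]
  intro s t hst
  have h1 : c.coord 0 (s • u + t • w) = 0 := by rw [hst, map_zero]
  have h2 : c.coord 1 (s • u + t • w) = 0 := by rw [hst, map_zero]
  simp only [map_add, map_smul, smul_eq_mul] at h1 h2
  constructor
  · have : s * (c.coord 0 u * c.coord 1 w - c.coord 1 u * c.coord 0 w) = 0 := by
      linear_combination c.coord 1 w * h1 - c.coord 0 w * h2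
    exact (mul_eq_zero.1 this).resolve_right hne
  · have : t * (c.coord 0 u * c.coord 1 w - c.coord 1 u * c.coord 0 w) = 0 := by
      linear_combination c.coord 0 u * h2 - c.coord 1 u * h1
    exact (mul_eq_zero.1 this).resolve_right hne

/-- vectors with vanishing determinant against a nonzero `Y` are multiples of `Y`, the
multiplier being given by a fixed functional. -/
theorem coord_dep88 (c : Basis (Fin 2) K X) (Y : X) (hY : Y ≠ 0) :
    ∃ θ : Dual K X, ∀ w : X,
      c.coord 0 w * c.coord 1 Y - c.coord 1 w * c.coord 0 Y = 0 → w = θ w • Y := by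
  by_cases h0 : c.coord 0 Y = 0
  · have h1 : c.coord 1 Y ≠ 0 := by
      intro h1
      apply hY
      apply coord_ext88 c
      · rw [h0, map_zero]
      · rw [h1, map_zero]
    refine ⟨(c.coord 1 Y)⁻¹ • c.coord 1, fun w hw => ?_⟩
    rw [h0, mul_zero, sub_zero] at hw
    have hw0 : c.coord 0 w = 0 := (mul_eq_zero.1 hw).resolve_right h1
    apply coord_ext88 c
    · simp only [map_smul, LinearMap.smul_apply, smul_eq_mul, h0, mul_zero, hw0]
    · simp only [map_smul, LinearMap.smul_apply, smul_eq_mul]
      field_simp
  · refine ⟨(c.coord 0 Y)⁻¹ • c.coord 0, fun w hw => ?_⟩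
    apply coord_ext88 c
    · simp only [map_smul, LinearMap.smul_apply, smul_eq_mul]
      field_simp
    · simp only [map_smul, LinearMap.smul_apply, smul_eq_mul]
      field_simp
      linear_combination -hw

/-- the choice of the point in dimension two -/
theorem ru_base2_pt88 [FiniteDimensional K X] (hK : 4 ≤ Cardinal.mk K) (h2 : finrank K X = 2)
    (g : X →ₗ[K] X) (hg : RuGood g) (Y : X) (ψ : Dual K X) (hY : Y ≠ 0) (hψ : ψ ≠ 0) :
    ∃ a : X, LinearIndependent K ![g a - a, a] ∧ ψ a ≠ 0 ∧
      LinearIndependent K ![g a - a, Y] := by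
  classical
  obtain ⟨p, hp⟩ : ∃ p, ψ p ≠ 0 := by
    by_contra h
    push Not at h
    exact hψ (LinearMap.ext h)
  have hker : finrank K (LinearMap.ker ψ) = 1 := by
    have := Module.Dual.finrank_ker_add_one_of_ne_zero hψ
    omega
  obtain ⟨q', hq'⟩ := Module.finrank_pos_iff_exists_ne_zero.1
    (by rw [hker]; exact one_pos : 0 < finrank K (LinearMap.ker ψ))
  have hq0 : (q' : X) ≠ 0 := fun h => hq' (Subtype.ext h)
  have hψq : ψ (q' : X) = 0 := LinearMap.mem_ker.1 q'.2
  generalize (q' : X) = q at hq0 hψq
  have hli : LinearIndependent K ![p, q] := by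
    rw [LinearIndependent.pair_iff]
    intro s t hst
    have h1 := congrArg ψ hst
    rw [map_add, map_smul, map_smul, hψq, smul_zero, add_zero, map_zero, smul_eq_mul] at h1
    have hs : s = 0 := (mul_eq_zero.1 h1).resolve_right hp
    refine ⟨hs, ?_⟩
    rw [hs, zero_smul, zero_add] at hst
    exact (smul_eq_zero.1 hst).resolve_right hq0
  let c : Basis (Fin 2) K X := basisOfLinearIndependentOfCardEqFinrank hli (by simp [h2])
  have hc0 : c 0 = p := by simp [c]
  have hc1 : c 1 = q := by simp [c]
  have hxp : c.coord 0 p = 1 := by rw [← hc0]; simp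
  have hyp : c.coord 1 p = 0 := by rw [← hc0]; simp
  have hxq : c.coord 0 q = 0 := by rw [← hc1]; simp
  have hyq : c.coord 1 q = 1 := by rw [← hc1]; simp
  have hx_at : ∀ t : K, c.coord 0 (g (p + t • q) - (p + t • q)) =
      c.coord 0 (g p) + t * c.coord 0 (g q) - 1 := by
    intro t
    simp only [map_add, map_sub, map_smul, smul_eq_mul, hxp, hxq, mul_zero, add_zero]
  have hy_at : ∀ t : K, c.coord 1 (g (p + t • q) - (p + t • q)) =
      c.coord 1 (g p) + t * c.coord 1 (g q) - t := by
    intro t
    simp only [map_add, map_sub, map_smul, smul_eq_mul, hyp, hyq, mul_one, zero_add]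
  have hxa : ∀ t : K, c.coord 0 (p + t • q) = 1 := by
    intro t
    simp only [map_add, map_smul, smul_eq_mul, hxp, hxq, mul_zero, add_zero]
  have hya : ∀ t : K, c.coord 1 (p + t • q) = t := by
    intro t
    simp only [map_add, map_smul, smul_eq_mul, hyp, hyq, mul_one, zero_add]
  -- the two polynomials
  have hQ : (-Polynomial.C (c.coord 1 (g p)) +
      Polynomial.C (c.coord 0 (g p) - c.coord 1 (g q)) * Polynomial.X +
      Polynomial.C (c.coord 0 (g q)) * Polynomial.X ^ 2 : Polynomial K) ≠ 0 := by
    intro h0
    have e0 : c.coord 1 (g p) = 0 := by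
      have := congrArg (fun P : Polynomial K => P.coeff 0) h0
      simpa using this
    have e1 : c.coord 0 (g p) = c.coord 1 (g q) := by
      have := congrArg (fun P : Polynomial K => P.coeff 1) h0
      simp at this
      exact sub_eq_zero.1 this
    have e2 : c.coord 0 (g q) = 0 := by
      have := congrArg (fun P : Polynomial K => P.coeff 2) h0
      simpa using this
    apply hg.1 (c.coord 0 (g p))
    apply c.ext
    intro i
    fin_cases i
    · show g (c 0) = (c.coord 0 (g p) • (1 : X →ₗ[K] X)) (c 0)
      rw [hc0]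
      apply coord_ext88 c
      · simp [hxp]
      · simp [hyp, e0]
    · show g (c 1) = (c.coord 0 (g p) • (1 : X →ₗ[K] X)) (c 1)
      rw [hc1]
      apply coord_ext88 c
      · simp [hxq, e2]
      · simp [hyq, e1]
  have hL : (Polynomial.C ((c.coord 0 (g p) - 1) * c.coord 1 Y - c.coord 1 (g p) * c.coord 0 Y) +
      Polynomial.C (c.coord 0 (g q) * c.coord 1 Y - (c.coord 1 (g q) - 1) * c.coord 0 Y) *
        Polynomial.X : Polynomial K) ≠ 0 := by
    intro h0
    have e0 : (c.coord 0 (g p) - 1) * c.coord 1 Y - c.coord 1 (g p) * c.coord 0 Y = 0 := by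
      have := congrArg (fun P : Polynomial K => P.coeff 0) h0
      simpa using this
    have e1 : c.coord 0 (g q) * c.coord 1 Y - (c.coord 1 (g q) - 1) * c.coord 0 Y = 0 := by
      have := congrArg (fun P : Polynomial K => P.coeff 1) h0
      rw [Polynomial.coeff_add, Polynomial.coeff_C_of_ne_zero one_ne_zero, zero_add,
        Polynomial.coeff_C_mul, Polynomial.coeff_X_one, mul_one, Polynomial.coeff_zero] at this
      exact this
    obtain ⟨θ, hθ⟩ := coord_dep88 c Y hY
    apply hg.2 Y (θ ∘ₗ (g - 1))
    apply c.ext
    intro i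
    fin_cases i
    · show g (c 0) = (1 + (θ ∘ₗ (g - 1)).smulRight Y) (c 0)
      rw [hc0]
      have h1 := hθ (g p - p) (by
        simp only [map_sub, hxp, hyp, sub_zero]
        exact e0)
      simp only [LinearMap.add_apply, Module.End.one_apply, LinearMap.smulRight_apply,
        LinearMap.comp_apply, LinearMap.sub_apply]
      rw [← h1]
      abel
    · show g (c 1) = (1 + (θ ∘ₗ (g - 1)).smulRight Y) (c 1)
      rw [hc1]
      have h1 := hθ (g q - q) (by
        simp only [map_sub, hxq, hyq, sub_zero]
        exact e1)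
      simp only [LinearMap.add_apply, Module.End.one_apply, LinearMap.smulRight_apply,
        LinearMap.comp_apply, LinearMap.sub_apply]
      rw [← h1]
      abel
  obtain ⟨t, ht⟩ := exists_nonroot88 hK _ (mul_ne_zero hQ hL) (by compute_degree)
  rw [Polynomial.eval_mul] at ht
  have hQt := left_ne_zero_of_mul ht
  have hLt := right_ne_zero_of_mul ht
  refine ⟨p + t • q, coord_indep88 c _ _ ?_, ?_, coord_indep88 c _ _ ?_⟩
  · rw [hx_at, hy_at, hxa, hya]
    intro h0
    apply hQt
    simp only [Polynomial.eval_add, Polynomial.eval_neg, Polynomial.eval_C, Polynomial.eval_mul,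
      Polynomial.eval_X, Polynomial.eval_pow]
    linear_combination h0
  · rw [map_add, map_smul, hψq, smul_zero, add_zero]
    exact hp
  · rw [hx_at, hy_at]
    intro h0
    apply hLt
    simp only [Polynomial.eval_add, Polynomial.eval_C, Polynomial.eval_mul, Polynomial.eval_X]
    linear_combination h0

/-- PIECE BASE2. -/
theorem ru_base2 [FiniteDimensional K X] (hK : 4 ≤ Cardinal.mk K) (h2 : finrank K X = 2)
    (g : X →ₗ[K] X) (hdet : LinearMap.det g = 1) (hg : RuGood g) (Y : X) (ψ : Dual K X)
    (hY : Y ≠ 0) (hψ : ψ ≠ 0) : RuFac g Y ψ := by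
  classical
  obtain ⟨a, hli, hψa, hliY⟩ := ru_base2_pt88 hK h2 g hg Y ψ hY hψ
  have hga : g a = a + (g a - a) := by abel
  generalize g a - a = a1 at hli hliY hga
  let b : Basis (Fin 2) K X := basisOfLinearIndependentOfCardEqFinrank hli (by simp [h2])
  have hb0 : b 0 = a1 := by simp [b]
  have hb1 : b 1 = a := by simp [b]
  have hx0 : b.coord 0 a1 = 1 := by rw [← hb0]; simp
  have hy0 : b.coord 1 a1 = 0 := by rw [← hb0]; simp
  have hx1 : b.coord 0 a = 0 := by rw [← hb1]; simp
  have hy1 : b.coord 1 a = 1 := by rw [← hb1]; simp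
  have hdet' : b.coord 0 (g a1) - b.coord 1 (g a1) = 1 := by
    have h := LinearMap.det_toMatrix b g
    rw [hdet, Matrix.det_fin_two] at h
    simp only [LinearMap.toMatrix_apply] at h
    rw [hb0, hb1, hga] at h
    have e1 : b.repr (a + a1) 1 = 1 := by
      have : b.coord 1 (a + a1) = 1 := by rw [map_add, hy0, hy1, add_zero]
      exact this
    have e0 : b.repr (a + a1) 0 = 1 := by
      have : b.coord 0 (a + a1) = 1 := by rw [map_add, hx0, hx1, zero_add]
      exact this
    rw [e1, e0, mul_one, one_mul] at h
    exact h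
  have hr0 : b.coord 1 (g a1) ≠ 0 := by
    intro h0
    rw [h0, sub_zero] at hdet'
    apply hg.2 a1 (b.coord 1)
    apply b.ext
    intro i
    fin_cases i
    · show g (b 0) = (1 + (b.coord 1).smulRight a1) (b 0)
      rw [hb0]
      apply coord_ext88 b
      · simp only [LinearMap.add_apply, Module.End.one_apply, LinearMap.smulRight_apply, map_add,
          map_smul, smul_eq_mul, hx0, hy0, mul_one, add_zero, hdet']
      · simp only [LinearMap.add_apply, Module.End.one_apply, LinearMap.smulRight_apply, map_add,
          map_smul, smul_eq_mul, hy0, mul_zero, add_zero, h0]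
    · show g (b 1) = (1 + (b.coord 1).smulRight a1) (b 1)
      rw [hb1, hga]
      simp only [LinearMap.add_apply, Module.End.one_apply, LinearMap.smulRight_apply, hy1,
        one_smul]
  have ha1 : a1 ≠ 0 := by
    intro h
    rw [h, map_zero] at hx0
    exact zero_ne_one hx0
  have hyY : b.coord 1 Y ≠ 0 := by
    intro h0
    have hYa : Y = b.coord 0 Y • a1 := by
      apply coord_ext88 b
      · simp only [map_smul, smul_eq_mul, hx0, mul_one]
      · simp only [map_smul, smul_eq_mul, hy0, mul_zero, h0]
    rw [LinearIndependent.pair_iff] at hliY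
    have := (hliY (b.coord 0 Y) (-1) (by rw [neg_one_smul, ← hYa, add_neg_cancel])).2
    exact absurd this (by simp)
  refine ⟨1 + (b.coord 1).smulRight a1, 1 + b.coord 1 (g a1) • (b.coord 0).smulRight a,
    ?_, ?_, ?_, ?_, a1, ?_⟩
  · apply b.ext
    intro i
    fin_cases i
    · show g (b 0) = ((1 + (b.coord 1).smulRight a1) ∘ₗ
        (1 + b.coord 1 (g a1) • (b.coord 0).smulRight a)) (b 0)
      rw [hb0]
      apply coord_ext88 b
      · simp only [LinearMap.comp_apply, LinearMap.add_apply, Module.End.one_apply,
          LinearMap.smulRight_apply, LinearMap.smul_apply, map_add, map_smul, smul_eq_mul, hx0,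
          hy0, hx1, hy1, mul_one, mul_zero, add_zero, zero_add]
        linear_combination hdet'
      · simp only [LinearMap.comp_apply, LinearMap.add_apply, Module.End.one_apply,
          LinearMap.smulRight_apply, LinearMap.smul_apply, map_add, map_smul, smul_eq_mul, hx0,
          hy0, hx1, hy1, mul_one, mul_zero, add_zero, zero_add]
    · show g (b 1) = ((1 + (b.coord 1).smulRight a1) ∘ₗ
        (1 + b.coord 1 (g a1) • (b.coord 0).smulRight a)) (b 1)
      rw [hb1, hga]
      simp only [LinearMap.comp_apply, LinearMap.add_apply, Module.End.one_apply,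
        LinearMap.smulRight_apply, LinearMap.smul_apply, map_add, map_smul, smul_eq_mul, hx0,
        hy0, hx1, hy1, mul_one, mul_zero, add_zero, zero_add, zero_smul, smul_zero, one_smul]
  · rw [h2, add_sub_cancel_left, pow_two]
    ext w
    simp only [Module.End.mul_apply, LinearMap.smulRight_apply, map_smul, hy0, smul_eq_mul,
      mul_zero, zero_smul, smul_zero, LinearMap.zero_apply]
  · rw [h2, add_sub_cancel_left, pow_two]
    ext w
    simp only [Module.End.mul_apply, LinearMap.smulRight_apply, LinearMap.smul_apply, map_smul,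
      hx1, smul_eq_mul, mul_zero, zero_smul, smul_zero, LinearMap.zero_apply]
  · rw [h2, add_sub_cancel_left]
    show ((b.coord 1).smulRight a1 ^ 1) Y ≠ 0
    rw [pow_one, LinearMap.smulRight_apply]
    exact smul_ne_zero hyY ha1
  · rw [h2, add_sub_cancel_left]
    show ψ (((b.coord 1 (g a1) • (b.coord 0).smulRight a) ^ 1) a1) ≠ 0
    rw [pow_one, LinearMap.smul_apply, LinearMap.smulRight_apply, hx0, one_smul, map_smul,
      smul_eq_mul]
    exact mul_ne_zero hr0 hψa

end

end Cfsg.Agent.Helper88
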