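import Mathlib
import Cfsg.Agent.Helper16.S4Defs2
import Cfsg.Agent.Helper37.H3ISO

/-!
helper88: piece ISO of helper16's CALL S3702: the model `SM = HM ⋊ S₃` (order 648) is isomorphic
to the permutation group on `Fin 9` generated by `(0 1 2)`, the block cycle, `(0 1)(3 4)` and
`(0 3)(1 4)(2 5)(6 7)`.  Adapted from `Helper37/H3ISO.lean` (the case of `HM`).
-/

set_option autoImplicit false

open Cfsg Cfsg.Agent.Helper16 Cfsg.Agent.Helper37 DihedralGroup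

namespace Cfsg.Agent.Helper88

/-- the action of `d ∈ S₃` on the nine points: blocks are permuted by `d`, positions are negated
iff `d` is a reflection -/
def s4pDFun (d : DihedralGroup 3) (i : Fin 9) : Fin 9 :=
  h3Mk (sDAct d (h3Blk i)) (if dRefl d then - h3Pos i else h3Pos i)

theorem s4pDFun_mul : ∀ (d d' : DihedralGroup 3) (i : Fin 9),
    s4pDFun (d * d') i = s4pDFun d (s4pDFun d' i) := by decide +kernel

theorem s4pDFun_one : ∀ i : Fin 9, s4pDFun 1 i = i := by decide +kernel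

/-- the permutation representation of `S₃` on `Fin 9` -/
def s4pD : DihedralGroup 3 →* Equiv.Perm (Fin 9) where
  toFun d := ⟨s4pDFun d, s4pDFun d⁻¹,
    fun i => by rw [← s4pDFun_mul, inv_mul_cancel, s4pDFun_one],
    fun i => by rw [← s4pDFun_mul, mul_inv_cancel, s4pDFun_one]⟩
  map_one' := by
    ext i
    simp [s4pDFun_one]
  map_mul' a b := by
    ext i
    simp [s4pDFun_mul]

theorem s4pD_apply (d : DihedralGroup 3) (i : Fin 9) : s4pD d i = s4pDFun d i := rfl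

set_option maxRecDepth 1000000 in
theorem s4pDFun_conj : ∀ (d : DihedralGroup 3) (m : HM) (i : Fin 9),
    s4pDFun d (h3Fun m i) = h3Fun (sAut d m) (s4pDFun d i) := by decide +kernel

theorem s4pD_conj (d : DihedralGroup 3) (m : HM) :
    s4pD d * h3Psi m = h3Psi (sAut d m) * s4pD d := by
  ext i
  simp only [Equiv.Perm.coe_mul, Function.comp_apply, s4pD_apply, h3Psi_apply, s4pDFun_conj]

/-- the permutation representation of `SM` on `Fin 9` -/
def s4Psi : SM →* Equiv.Perm (Fin 9) where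
  toFun a := h3Psi a.m * s4pD a.d
  map_one' := by
    show h3Psi (1 : HM) * s4pD (1 : DihedralGroup 3) = 1
    rw [map_one, map_one, one_mul]
  map_mul' a b := by
    show h3Psi (a.m * sAut a.d b.m) * s4pD (a.d * b.d)
      = h3Psi a.m * s4pD a.d * (h3Psi b.m * s4pD b.d)
    rw [map_mul, map_mul]
    calc h3Psi a.m * h3Psi (sAut a.d b.m) * (s4pD a.d * s4pD b.d)
        = h3Psi a.m * (h3Psi (sAut a.d b.m) * s4pD a.d) * s4pD b.d := by
          simp only [mul_assoc]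
      _ = h3Psi a.m * (s4pD a.d * h3Psi b.m) * s4pD b.d := by rw [s4pD_conj]
      _ = h3Psi a.m * s4pD a.d * (h3Psi b.m * s4pD b.d) := by simp only [mul_assoc]

theorem s4Psi_def (a : SM) : s4Psi a = h3Psi a.m * s4pD a.d := rfl

theorem s4Psi_apply (a : SM) (i : Fin 9) : s4Psi a i = h3Fun a.m (s4pDFun a.d i) := rfl

set_option maxRecDepth 1000000 in
theorem s4Psi_inj_aux : ∀ a : SM, (∀ i : Fin 9, h3Fun a.m (s4pDFun a.d i) = i) → a = 1 := by
  decide +kernel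

theorem s4Psi_injective : Function.Injective s4Psi := by
  rw [injective_iff_map_eq_one]
  intro a ha
  apply s4Psi_inj_aux
  intro i
  rw [← s4Psi_apply, ha]
  rfl

theorem s4pD_r1 : s4pD (r 1) = Equiv.swap (0 : Fin 9) 3 * Equiv.swap 3 6 *
    (Equiv.swap (1 : Fin 9) 4 * Equiv.swap 4 7) * (Equiv.swap (2 : Fin 9) 5 * Equiv.swap 5 8) := by
  ext i
  rw [s4pD_apply]
  revert i
  decide +kernel

/-- the `HM`-part of the preimage of the fourth generator -/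
def s4M4 : HM := ⟨(sr 0, sr 0), 1⟩

theorem s4Psi_g4 : h3Psi s4M4 * s4pD (sr 2) =
    Equiv.swap (0 : Fin 9) 3 * Equiv.swap 1 4 * Equiv.swap 2 5 * Equiv.swap 6 7 := by
  ext i
  show ((h3Fun s4M4 (s4pDFun (sr 2) i) : Fin 9) : ℕ) = _
  revert i
  decide +kernel

theorem s4_T2 : Equiv.swap (3 : Fin 9) 4 * Equiv.swap 4 5 =
    (Equiv.swap (0 : Fin 9) 3 * Equiv.swap 3 6 * (Equiv.swap (1 : Fin 9) 4 * Equiv.swap 4 7) *
      (Equiv.swap (2 : Fin 9) 5 * Equiv.swap 5 8)) * (Equiv.swap (0 : Fin 9) 1 * Equiv.swap 1 2) *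
    (Equiv.swap (0 : Fin 9) 3 * Equiv.swap 3 6 * (Equiv.swap (1 : Fin 9) 4 * Equiv.swap 4 7) *
      (Equiv.swap (2 : Fin 9) 5 * Equiv.swap 5 8))⁻¹ := by
  ext i
  revert i
  decide +kernel

theorem s4_T3 : Equiv.swap (6 : Fin 9) 7 * Equiv.swap 7 8 =
    (Equiv.swap (0 : Fin 9) 3 * Equiv.swap 3 6 * (Equiv.swap (1 : Fin 9) 4 * Equiv.swap 4 7) *
      (Equiv.swap (2 : Fin 9) 5 * Equiv.swap 5 8))⁻¹ * (Equiv.swap (0 : Fin 9) 1 * Equiv.swap 1 2) *
    (Equiv.swap (0 : Fin 9) 3 * Equiv.swap 3 6 * (Equiv.swap (1 : Fin 9) 4 * Equiv.swap 4 7) *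
      (Equiv.swap (2 : Fin 9) 5 * Equiv.swap 5 8)) := by
  ext i
  revert i
  decide +kernel

theorem s4_F : Equiv.swap (0 : Fin 9) 1 * Equiv.swap 6 7 =
    (Equiv.swap (0 : Fin 9) 3 * Equiv.swap 3 6 * (Equiv.swap (1 : Fin 9) 4 * Equiv.swap 4 7) *
      (Equiv.swap (2 : Fin 9) 5 * Equiv.swap 5 8))⁻¹ * (Equiv.swap (0 : Fin 9) 1 * Equiv.swap 3 4) *
    (Equiv.swap (0 : Fin 9) 3 * Equiv.swap 3 6 * (Equiv.swap (1 : Fin 9) 4 * Equiv.swap 4 7) *
      (Equiv.swap (2 : Fin 9) 5 * Equiv.swap 5 8)) := by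
  ext i
  revert i
  decide +kernel

theorem s4_dgen : ∀ d : DihedralGroup 3, ∃ i : Fin 3, ∃ j : Fin 2,
    d = r 1 ^ (i : ℕ) * sr 2 ^ (j : ℕ) := by decide

theorem s4Psi_range : s4Psi.range = Subgroup.closure
    ({Equiv.swap (0 : Fin 9) 1 * Equiv.swap 1 2,
      Equiv.swap (0 : Fin 9) 3 * Equiv.swap 3 6 * (Equiv.swap (1 : Fin 9) 4 * Equiv.swap 4 7) *
        (Equiv.swap (2 : Fin 9) 5 * Equiv.swap 5 8),
      Equiv.swap (0 : Fin 9) 1 * Equiv.swap 3 4,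
      Equiv.swap (0 : Fin 9) 3 * Equiv.swap 1 4 * Equiv.swap 2 5 * Equiv.swap 6 7} :
      Set (Equiv.Perm (Fin 9))) := by
  have hg1 : Equiv.swap (0 : Fin 9) 1 * Equiv.swap 1 2 ∈ Subgroup.closure
      ({Equiv.swap (0 : Fin 9) 1 * Equiv.swap 1 2,
        Equiv.swap (0 : Fin 9) 3 * Equiv.swap 3 6 * (Equiv.swap (1 : Fin 9) 4 * Equiv.swap 4 7) *
          (Equiv.swap (2 : Fin 9) 5 * Equiv.swap 5 8),
        Equiv.swap (0 : Fin 9) 1 * Equiv.swap 3 4,
        Equiv.swap (0 : Fin 9) 3 * Equiv.swap 1 4 * Equiv.swap 2 5 * Equiv.swap 6 7} :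
        Set (Equiv.Perm (Fin 9))) := Subgroup.subset_closure (by simp)
  have hg2 : Equiv.swap (0 : Fin 9) 3 * Equiv.swap 3 6 * (Equiv.swap (1 : Fin 9) 4 * Equiv.swap 4 7) *
      (Equiv.swap (2 : Fin 9) 5 * Equiv.swap 5 8) ∈ Subgroup.closure
      ({Equiv.swap (0 : Fin 9) 1 * Equiv.swap 1 2,
        Equiv.swap (0 : Fin 9) 3 * Equiv.swap 3 6 * (Equiv.swap (1 : Fin 9) 4 * Equiv.swap 4 7) *
          (Equiv.swap (2 : Fin 9) 5 * Equiv.swap 5 8),
        Equiv.swap (0 : Fin 9) 1 * Equiv.swap 3 4,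
        Equiv.swap (0 : Fin 9) 3 * Equiv.swap 1 4 * Equiv.swap 2 5 * Equiv.swap 6 7} :
        Set (Equiv.Perm (Fin 9))) := Subgroup.subset_closure (by simp)
  have hg3 : Equiv.swap (0 : Fin 9) 1 * Equiv.swap 3 4 ∈ Subgroup.closure
      ({Equiv.swap (0 : Fin 9) 1 * Equiv.swap 1 2,
        Equiv.swap (0 : Fin 9) 3 * Equiv.swap 3 6 * (Equiv.swap (1 : Fin 9) 4 * Equiv.swap 4 7) *
          (Equiv.swap (2 : Fin 9) 5 * Equiv.swap 5 8),
        Equiv.swap (0 : Fin 9) 1 * Equiv.swap 3 4,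
        Equiv.swap (0 : Fin 9) 3 * Equiv.swap 1 4 * Equiv.swap 2 5 * Equiv.swap 6 7} :
        Set (Equiv.Perm (Fin 9))) := Subgroup.subset_closure (by simp)
  have hg4 : Equiv.swap (0 : Fin 9) 3 * Equiv.swap 1 4 * Equiv.swap 2 5 * Equiv.swap 6 7
      ∈ Subgroup.closure
      ({Equiv.swap (0 : Fin 9) 1 * Equiv.swap 1 2,
        Equiv.swap (0 : Fin 9) 3 * Equiv.swap 3 6 * (Equiv.swap (1 : Fin 9) 4 * Equiv.swap 4 7) *
          (Equiv.swap (2 : Fin 9) 5 * Equiv.swap 5 8),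
        Equiv.swap (0 : Fin 9) 1 * Equiv.swap 3 4,
        Equiv.swap (0 : Fin 9) 3 * Equiv.swap 1 4 * Equiv.swap 2 5 * Equiv.swap 6 7} :
        Set (Equiv.Perm (Fin 9))) := Subgroup.subset_closure (by simp)
  apply le_antisymm
  · -- the range lies in the closure
    have hHM : h3Psi.range ≤ Subgroup.closure
        ({Equiv.swap (0 : Fin 9) 1 * Equiv.swap 1 2,
          Equiv.swap (0 : Fin 9) 3 * Equiv.swap 3 6 * (Equiv.swap (1 : Fin 9) 4 * Equiv.swap 4 7) *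
            (Equiv.swap (2 : Fin 9) 5 * Equiv.swap 5 8),
          Equiv.swap (0 : Fin 9) 1 * Equiv.swap 3 4,
          Equiv.swap (0 : Fin 9) 3 * Equiv.swap 1 4 * Equiv.swap 2 5 * Equiv.swap 6 7} :
          Set (Equiv.Perm (Fin 9))) := by
      rw [h3Psi_range, Subgroup.closure_le]
      intro g hg
      simp only [Set.mem_insert_iff, Set.mem_singleton_iff] at hg
      rcases hg with rfl | rfl | rfl | rfl | rfl
      · exact hg1
      · rw [s4_T2]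
        exact Subgroup.mul_mem _ (Subgroup.mul_mem _ hg2 hg1) (Subgroup.inv_mem _ hg2)
      · rw [s4_T3]
        exact Subgroup.mul_mem _ (Subgroup.mul_mem _ (Subgroup.inv_mem _ hg2) hg1) hg2
      · exact hg3
      · rw [s4_F]
        exact Subgroup.mul_mem _ (Subgroup.mul_mem _ (Subgroup.inv_mem _ hg2) hg3) hg2
    have hD1 : s4pD (r 1) ∈ Subgroup.closure
        ({Equiv.swap (0 : Fin 9) 1 * Equiv.swap 1 2,
          Equiv.swap (0 : Fin 9) 3 * Equiv.swap 3 6 * (Equiv.swap (1 : Fin 9) 4 * Equiv.swap 4 7) *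
            (Equiv.swap (2 : Fin 9) 5 * Equiv.swap 5 8),
          Equiv.swap (0 : Fin 9) 1 * Equiv.swap 3 4,
          Equiv.swap (0 : Fin 9) 3 * Equiv.swap 1 4 * Equiv.swap 2 5 * Equiv.swap 6 7} :
          Set (Equiv.Perm (Fin 9))) := by
      rw [s4pD_r1]
      exact hg2
    have hD2 : s4pD (sr 2) ∈ Subgroup.closure
        ({Equiv.swap (0 : Fin 9) 1 * Equiv.swap 1 2,
          Equiv.swap (0 : Fin 9) 3 * Equiv.swap 3 6 * (Equiv.swap (1 : Fin 9) 4 * Equiv.swap 4 7) *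
            (Equiv.swap (2 : Fin 9) 5 * Equiv.swap 5 8),
          Equiv.swap (0 : Fin 9) 1 * Equiv.swap 3 4,
          Equiv.swap (0 : Fin 9) 3 * Equiv.swap 1 4 * Equiv.swap 2 5 * Equiv.swap 6 7} :
          Set (Equiv.Perm (Fin 9))) := by
      have h1 : s4pD (sr 2) = (h3Psi s4M4)⁻¹ *
          (Equiv.swap (0 : Fin 9) 3 * Equiv.swap 1 4 * Equiv.swap 2 5 * Equiv.swap 6 7) := by
        rw [← s4Psi_g4, inv_mul_cancel_left]
      rw [h1]
      exact Subgroup.mul_mem _ (Subgroup.inv_mem _ (hHM ⟨s4M4, rfl⟩)) hg4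
    rintro _ ⟨a, rfl⟩
    rw [s4Psi_def]
    refine Subgroup.mul_mem _ (hHM ⟨a.m, rfl⟩) ?_
    obtain ⟨i, j, hd⟩ := s4_dgen a.d
    rw [hd, map_mul, map_pow, map_pow]
    exact Subgroup.mul_mem _ (Subgroup.pow_mem _ hD1 _) (Subgroup.pow_mem _ hD2 _)
  · rw [Subgroup.closure_le]
    intro g hg
    simp only [Set.mem_insert_iff, Set.mem_singleton_iff] at hg
    rcases hg with rfl | rfl | rfl | rfl
    · refine ⟨⟨hT1, 1⟩, ?_⟩
      rw [s4Psi_def]
      show h3Psi hT1 * s4pD 1 = _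
      rw [map_one, mul_one, h3Psi_T1]
    · refine ⟨⟨1, r 1⟩, ?_⟩
      rw [s4Psi_def]
      show h3Psi 1 * s4pD (r 1) = _
      rw [map_one, one_mul, s4pD_r1]
    · refine ⟨⟨h3D, 1⟩, ?_⟩
      rw [s4Psi_def]
      show h3Psi h3D * s4pD 1 = _
      rw [map_one, mul_one, h3Psi_D]
    · refine ⟨⟨s4M4, sr 2⟩, ?_⟩
      rw [s4Psi_def]
      exact s4Psi_g4

theorem s4_model_iso : Nonempty (SM ≃* ↥(Subgroup.closure ({Equiv.swap (0 : Fin 9) 1 * Equiv.swap 1 2,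
    Equiv.swap (0 : Fin 9) 3 * Equiv.swap 3 6 * (Equiv.swap (1 : Fin 9) 4 * Equiv.swap 4 7) *
      (Equiv.swap (2 : Fin 9) 5 * Equiv.swap 5 8),
    Equiv.swap (0 : Fin 9) 1 * Equiv.swap 3 4,
    Equiv.swap (0 : Fin 9) 3 * Equiv.swap 1 4 * Equiv.swap 2 5 * Equiv.swap 6 7} :
      Set (Equiv.Perm (Fin 9))))) :=
  ⟨(MonoidHom.ofInjective s4Psi_injective).trans (MulEquiv.subgroupCongr s4Psi_range)⟩

end Cfsg.Agent.Helper88
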