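import Mathlib

/-!
# S3626 piece TYPE0 (helper88): a copy in `Type` of a finite group in any universe.
-/

set_option autoImplicit false

namespace Cfsg.Agent.Helper88

/-- TYPE0: a copy in `Type` of a finite group in any universe. -/
theorem exists_type_zero_copy (G : Type*) [Group G] [Finite G] :
    ∃ (H : Type) (_ : Group H) (_ : Fintype H), Nonempty (G ≃* H) := by
  classical
  have := Fintype.ofFinite G
  let e : G ≃ Fin (Fintype.card G) := Fintype.equivFin G
  refine ⟨Fin (Fintype.card G), e.symm.group, inferInstance, ⟨?_⟩⟩
  exact @MulEquiv.symm _ _ (e.symm.mul) _ (e.symm.mulEquiv)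

end Cfsg.Agent.Helper88
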